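import Mathlib
import Cfsg.Agent.Char.PrimeB0

/-!
Arithmetic of the degrees in the principal block when the number `r p + 1` of Sylow subgroups is
less than `p²` and Brauer's third alternative holds.
-/

set_option autoImplicit false

namespace Cfsg.Agent.FewS

open Cfsg.Agent.Char.SelfC

/-- `p - 1 = (A + 1) b`, `r = A (b + 1) + 1` -/
structure Num (p r A b : ℕ) : Prop where
  hA : 1 ≤ A
  hb : A + 1 ≤ b
  hp : p = (A + 1) * b + 1
  hr : r = A * (b + 1) + 1

theorem aux {p n d c : ℕ} (hp : 2 ≤ p) (h : d * c = (p - 1) * (n * p + 1))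
    (hd : (d : ℤ) ≡ 1 [ZMOD p]) (hn : n < p) :
    d = 1 ∨ c = p - 1 ∨ ∃ A b, Num p n A b ∧ d = A * p + 1 ∧ c + 1 = (b + 1) * p := by
  obtain ⟨q, rfl⟩ : ∃ q, p = q + 1 := ⟨p - 1, by omega⟩
  simp only [Nat.add_sub_cancel] at h ⊢
  have hq : 0 < q := by omega
  have hd' : d % (q + 1) = 1 := by
    have h1 : d ≡ 1 [MOD (q + 1)] := Int.natCast_modEq_iff.1 (by simpa using hd)
    rw [h1, Nat.mod_eq_of_lt (by omega)]
  obtain ⟨u, rfl⟩ : ∃ u, d = u * (q + 1) + 1 :=
    ⟨d / (q + 1), by have := Nat.div_add_mod d (q + 1); rw [hd', mul_comm] at this; omega⟩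
  obtain ⟨w, hw⟩ : q + 1 ∣ c + 1 := by
    have h2 : (q + 1) * (n * q + 1) = (q + 1) * (u * c) + (c + 1) := by nlinarith
    exact (Nat.dvd_add_right (dvd_mul_right _ _)).1 (h2 ▸ dvd_mul_right _ _)
  have h3 : n * q + 1 = u * c + w := by
    apply Nat.eq_of_mul_eq_mul_left (Nat.succ_pos q)
    nlinarith
  obtain ⟨w, rfl⟩ : ∃ v, w = v + 1 := ⟨w - 1, by
    rcases w with _ | w
    · simp at hw
    · simp⟩
  have hc : c = q * w + q + w := by nlinarith
  subst hc
  by_cases hu : u = 0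
  · left; simp [hu]
  by_cases hw0 : w = 0
  · right; left; simp [hw0]
  right; right
  have hu0 : 0 < u := Nat.pos_of_ne_zero hu
  have hw1 : 0 < w := Nat.pos_of_ne_zero hw0
  have h4 : u * (w + 1) < n := by
    by_contra h5
    have h6 : n * q ≤ u * (w + 1) * q := Nat.mul_le_mul_right _ (by omega)
    nlinarith
  obtain ⟨k, rfl⟩ : ∃ k, n = u * (w + 1) + k := ⟨n - u * (w + 1), by omega⟩
  have h5 : k * q = (u + 1) * w := by nlinarith
  have hk : k = 1 := by
    by_contra h6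
    have h7 : 2 ≤ k := by omega
    have h8 : 2 * q ≤ k * q := Nat.mul_le_mul_right _ h7
    have h9 : w ≤ u * w := Nat.le_mul_of_pos_left _ hu0
    nlinarith
  subst hk
  exact ⟨u, w, ⟨hu0, by nlinarith, by omega, rfl⟩, rfl, by ring⟩

theorem Num.unique {p r A b A' b' : ℕ} (h : Num p r A b) (h' : Num p r A' b') :
    A = A' ∧ b = b' := by
  obtain ⟨h1, h2, h3, h4⟩ := h
  obtain ⟨h1', h2', h3', h4'⟩ := h'
  have e1 : (A + 1) * b = (A' + 1) * b' := by omega
  have e2 : A + b' = A' + b := by nlinarith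
  rcases lt_trichotomy A A' with h | h | h
  · have : b < b' := by omega
    nlinarith
  · omega
  · have : b' < b := by omega
    nlinarith

namespace Num

variable {p r A b : ℕ} (h : Num p r A b)
include h

theorem two_le : 2 ≤ p := by have := h.hA; have := h.hb; have := h.hp; nlinarith

theorem r_lt : r < p := by have := h.hA; have := h.hb; have := h.hp; have := h.hr; nlinarith

theorem lt_two_r : p < 2 * r := by
  have := h.hA; have := h.hb; have := h.hp; have := h.hr; nlinarith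

theorem n_eq : r * p + 1 = (A * b + 1) * (p + A + 1) := by
  rw [h.hr, h.hp]; ring

theorem z1_eq : A * p + 1 = (A + 1) * (A * b + 1) := by
  rw [h.hp]; ring

theorem z2_eq : b * (p + A + 1) + 1 = (b + 1) * p := by
  rw [h.hp]; ring

theorem pos {z : ℕ} (hz : z ∣ (p - 1) * (r * p + 1)) (h1 : (z : ℤ) ≡ 1 [ZMOD p]) :
    z = 1 ∨ z = A * p + 1 ∨ z = r * p + 1 := by
  obtain ⟨c, hc⟩ := hz
  rcases aux h.two_le hc.symm h1 h.r_lt with h2 | h2 | ⟨A', b', h2, h3, -⟩
  · exact Or.inl h2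
  · right; right
    rw [h2, mul_comm] at hc
    have := h.two_le
    exact (Nat.eq_of_mul_eq_mul_right (by omega) hc).symm
  · right; left
    rw [h3, (h.unique h2).1]

theorem neg {z : ℕ} (hz : z ∣ (p - 1) * (r * p + 1)) (h1 : (z : ℤ) ≡ -1 [ZMOD p]) :
    z = p - 1 ∨ z = b * (p + A + 1) ∨ z = (p - 1) * (r * p + 1) := by
  obtain ⟨c, hc⟩ := hz
  have hp := h.two_le
  have hc1 : (c : ℤ) ≡ 1 [ZMOD p] := by
    have h1' : ((z * c : ℕ) : ℤ) ≡ -1 [ZMOD p] := by
      rw [← hc]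
      push_cast [Nat.cast_sub (by omega : 1 ≤ p)]
      exact (Int.modEq_iff_dvd.2 ⟨-(r * p - r + 1), by ring⟩)
    have h2 : ((z * c : ℕ) : ℤ) ≡ -1 * c [ZMOD p] := by
      push_cast; exact h1.mul_right _
    have h3 := (h2.symm.trans h1').neg
    simpa using h3
  rcases aux hp (by rw [mul_comm c z]; exact hc.symm) hc1 h.r_lt with h2 | h2 | ⟨A', b', h2, -, h3⟩
  · right; right; rw [hc, h2, mul_one]
  · exact Or.inl h2
  · right; left
    have := h.z2_eq
    rw [← (h.unique h2).2] at h3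
    omega

end Num

theorem exists_num {p r : ℕ} (hr : r < p) (hT : Third p r) : ∃ A b, Num p r A b := by
  obtain ⟨k, u, hk, hu, h⟩ := hT
  have h1 : k = 1 := by
    by_contra h2
    have h3 : 2 ≤ k := by omega
    have h4 : r * (u + 1) < p * (u + 1) := Nat.mul_lt_mul_of_pos_right hr (by omega)
    have h5 : 2 * (u * p) ≤ k * (u * p) := Nat.mul_le_mul_right _ h3
    have h6 : p ≤ u * p := Nat.le_mul_of_pos_left _ hu
    nlinarith
  subst h1
  obtain ⟨q, rfl⟩ : ∃ q, p = q + 1 := ⟨p - 1, by omega⟩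
  have h2 : u + 1 ∣ q := by
    have h3 : (u + 1) * r + q = (u + 1) * (q + u + 1) := by nlinarith
    exact (Nat.dvd_add_right (dvd_mul_right _ _)).1 (h3 ▸ dvd_mul_right _ _)
  obtain ⟨b, rfl⟩ := h2
  have h3 : r = u * (b + 1) + 1 := by
    apply Nat.eq_of_mul_eq_mul_left (Nat.succ_pos u)
    nlinarith
  exact ⟨u, b, hu, by nlinarith, rfl, h3⟩

end Cfsg.Agent.FewS
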