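import Mathlib
import Cfsg.Agent.Small.FewSylow

/-!
The action of a group on its Sylow `p`-subgroups when they have order `p`.
-/

set_option autoImplicit false
set_option linter.style.haveILetI false
set_option linter.unusedSectionVars false

namespace Cfsg.Agent.FewS

open Subgroup MulAction Cfsg.Agent.Small
open scoped Pointwise

variable {G : Type*} [Group G] [Finite G] {p : ℕ} [hp : Fact p.Prime]

theorem card_ne_add_one {α : Type*} [Finite α] (a : α) :
    Nat.card {b : α // b ≠ a} + 1 = Nat.card α := by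
  classical
  rw [← Finite.card_option]
  exact Nat.card_congr (Equiv.optionSubtypeNe a)

/-- the centralizer of a Sylow subgroup -/
abbrev CS (R : Sylow p G) : Subgroup G := centralizer ((R : Subgroup G) : Set G)

theorem mem_smul_iff {R : Sylow p G} {g z : G} :
    z ∈ ((g • R : Sylow p G) : Subgroup G) ↔ g⁻¹ * z * g ∈ (R : Subgroup G) := by
  rw [Sylow.coe_subgroup_smul, mem_pointwise_smul_iff_inv_smul_mem]
  simp [mul_assoc]

theorem mem_CS_smul {R : Sylow p G} {g c : G} : c ∈ CS (g • R) ↔ g⁻¹ * c * g ∈ CS R := by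
  simp only [mem_centralizer_iff, SetLike.mem_coe]
  constructor
  · intro h z hz
    have := h (g * z * g⁻¹) (mem_smul_iff.2 (by simpa [mul_assoc] using hz))
    calc z * (g⁻¹ * c * g) = g⁻¹ * (g * z * g⁻¹ * c) * g := by group
      _ = _ := by rw [this]; group
  · intro h z hz
    have := h _ (mem_smul_iff.1 hz)
    calc z * c = g * (g⁻¹ * z * g * (g⁻¹ * c * g)) * g⁻¹ := by group
      _ = _ := by rw [this]; group

theorem smul_eq_of_mem_CS {R : Sylow p G} {c : G} (h : c ∈ CS R) : c • R = R :=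
  Sylow.smul_eq_iff_mem_normalizer.2 (centralizer_le_normalizer _ h)

variable (hc : ∀ R : Sylow p G, Nat.card (R : Subgroup G) = p)
include hc

theorem mem_zpowers_of_mem {R : Sylow p G} {z w : G} (hz : z ∈ (R : Subgroup G)) (h1 : z ≠ 1)
    (hw : w ∈ (R : Subgroup G)) : w ∈ zpowers z := by
  haveI : Fact (Nat.card (R : Subgroup G)).Prime := ⟨(hc R).symm ▸ hp.out⟩
  have h2 : zpowers z = R := by
    refine eq_of_le_of_card_ge (zpowers_le.2 hz) ?_
    have h3 := card_dvd_of_le (zpowers_le.2 hz)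
    rw [hc] at h3 ⊢
    rcases (Nat.dvd_prime hp.out).1 h3 with h | h
    · exact absurd (by simpa using (card_eq_one.1 h)) h1
    · exact h.ge
  rwa [h2]

theorem eq_of_mem {R Q : Sylow p G} {z : G} (hz : z ∈ (R : Subgroup G)) (h1 : z ≠ 1)
    (hQ : z ∈ (Q : Subgroup G)) : R = Q :=
  Sylow.ext (R.is_maximal' Q.isPGroup' fun _ hw =>
    zpowers_le.2 hQ (mem_zpowers_of_mem hc hz h1 hw)).symm

theorem eq_of_smul {R Q : Sylow p G} {z : G} (hz : z ∈ (R : Subgroup G)) (h1 : z ≠ 1)
    (hQ : z • Q = Q) : R = Q :=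
  eq_of_mem hc hz h1 ((smul_eq_iff_mem_of_mem hz).1 hQ)

theorem mem_CS_of_commute {R : Sylow p G} {z c : G} (hz : z ∈ (R : Subgroup G)) (h1 : z ≠ 1)
    (h : z * c = c * z) : c ∈ CS R := by
  intro w hw
  obtain ⟨k, rfl⟩ := mem_zpowers_of_mem hc hz h1 hw
  exact (Commute.zpow_left h k).eq

theorem le_CS (R : Sylow p G) : (R : Subgroup G) ≤ CS R := by
  intro z hz
  by_cases h1 : z = 1
  · rw [h1]; exact one_mem _
  · exact mem_CS_of_commute hc hz h1 rfl

theorem exists_ne_one (R : Sylow p G) : ∃ z ∈ (R : Subgroup G), z ≠ 1 := by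
  by_contra h
  push Not at h
  have h2 := hc R
  rw [(eq_bot_iff_forall _).2 h, card_bot] at h2
  exact hp.out.one_lt.ne h2

theorem pow_eq_one_of_mem {R : Sylow p G} {z : G} (hz : z ∈ (R : Subgroup G)) : z ^ p = 1 := by
  have := pow_card_eq_one' (x := (⟨z, hz⟩ : (R : Subgroup G)))
  rw [hc] at this
  exact congrArg Subtype.val this

theorem eq_one_of_pow {R : Sylow p G} {z : G} (hz : z ∈ (R : Subgroup G)) {m : ℕ} (hm : ¬ p ∣ m)
    (h : z ^ m = 1) : z = 1 := by
  have h1 := orderOf_dvd_of_pow_eq_one (pow_eq_one_of_mem hc hz)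
  have h2 := orderOf_dvd_of_pow_eq_one h
  rcases (Nat.dvd_prime hp.out).1 h1 with h3 | h3
  · exact orderOf_eq_one_iff.1 h3
  · exact absurd (h3 ▸ h2) hm

/-- a `p`-singular element has a power generating a Sylow subgroup -/
theorem exists_of_dvd {g : G} (hg : p ∣ orderOf g) :
    ∃ (R : Sylow p G) (k : ℕ), g ^ k ∈ (R : Subgroup G) ∧ g ^ k ≠ 1 := by
  have h1 := orderOf_pow_orderOf_div (orderOf_pos g).ne' hg
  obtain ⟨R, hR⟩ := (IsPGroup.of_card (p := p) (n := 1) (G := zpowers (g ^ (orderOf g / p)))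
    (by rw [Nat.card_zpowers, h1, pow_one])).exists_le_sylow
  refine ⟨R, _, hR (mem_zpowers _), fun h => ?_⟩
  rw [h, orderOf_one] at h1
  exact hp.out.one_lt.ne h1

theorem mem_CS_of_dvd {g : G} (hg : p ∣ orderOf g) {Q : Sylow p G} (hQ : g • Q = Q) :
    g ∈ CS Q := by
  obtain ⟨R, k, h1, h2⟩ := exists_of_dvd hc hg
  have h3 : g ^ k • Q = Q := (stabilizer G Q).pow_mem hQ k
  rw [← eq_of_smul hc h1 h2 h3]
  exact mem_CS_of_commute hc h1 h2 (Commute.pow_self g k).eq

theorem card_fixedBy_of_dvd {g : G} (hg : p ∣ orderOf g) :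
    Nat.card (fixedBy (Sylow p G) g) = 1 := by
  obtain ⟨R, k, h1, h2⟩ := exists_of_dvd hc hg
  refine Nat.card_eq_one_iff_exists.2 ⟨⟨R, smul_eq_of_mem_CS
    (mem_CS_of_commute hc h1 h2 (Commute.pow_self g k).eq)⟩, fun Q => Subtype.ext ?_⟩
  exact (eq_of_smul hc h1 h2 ((stabilizer G Q.1).pow_mem Q.2 k)).symm

theorem not_dvd_card_inf {R Q : Sylow p G} (h : R ≠ Q) : ¬ p ∣ Nat.card ↥(CS R ⊓ CS Q) := by
  intro h1
  obtain ⟨⟨g, hg⟩, h2⟩ := exists_prime_orderOf_dvd_card' p h1
  rw [← orderOf_coe] at h2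
  obtain ⟨S, k, h3, h4⟩ := exists_of_dvd hc (g := g) (by rw [h2])
  exact h ((eq_of_smul hc h3 h4 (smul_eq_of_mem_CS (pow_mem hg.1 k))).symm.trans
    (eq_of_smul hc h3 h4 (smul_eq_of_mem_CS (pow_mem hg.2 k))))

theorem smul_injective {R Q : Sylow p G} (h : R ≠ Q) :
    Function.Injective fun z : (R : Subgroup G) => (z : G) • Q := by
  intro z w e
  by_contra h1
  refine h (eq_of_smul hc (mul_mem (inv_mem w.2) z.2) (fun h2 => h1 ?_) ?_)
  · exact Subtype.ext (inv_mul_eq_one.1 h2).symm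
  · simp only at e
    rw [mul_smul, e, inv_smul_smul]

theorem smul_ne {R Q : Sylow p G} (h : R ≠ Q) {z : G} (hz : z ∈ (R : Subgroup G)) : z • Q ≠ R := by
  intro e
  apply h
  rw [← inv_smul_smul z Q, e]
  exact (smul_eq_of_mem_CS (le_CS hc R (inv_mem hz))).symm

/-- an element of `N(R) \ C(R)` fixes at most one point in each orbit of `R` -/
theorem card_fixedBy_mul_le {R : Sylow p G} {y : G} (hy : y • R = R) (hC : y ∉ CS R) :
    Nat.card (fixedBy (Sylow p G) y) * p + 1 ≤ Nat.card (Sylow p G) + p := by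
  classical
  have hN := Sylow.smul_eq_iff_mem_normalizer.1 hy
  let f : {Q : fixedBy (Sylow p G) y // Q ≠ ⟨R, hy⟩} × (R : Subgroup G) → {Q : Sylow p G // Q ≠ R} :=
    fun a => ⟨(a.2 : G) • a.1.1.1, smul_ne hc (fun h => a.1.2 (Subtype.ext h.symm)) a.2.2⟩
  have hf : Function.Injective f := by
    rintro ⟨⟨⟨Q, hQ⟩, hQ1⟩, z⟩ ⟨⟨⟨Q', hQ'⟩, hQ1'⟩, w⟩ e
    have e1 : (z : G) • Q = (w : G) • Q' := congrArg Subtype.val e
    have hne : R ≠ Q := fun h => hQ1 (Subtype.ext h.symm)
    set u : G := (w : G)⁻¹ * z with hu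
    have huR : u ∈ (R : Subgroup G) := mul_mem (inv_mem w.2) z.2
    have e2 : u • Q = Q' := by rw [hu, mul_smul, e1, inv_smul_smul]
    have h1 : u = 1 := by
      by_contra h1
      have h2 : y * u * y⁻¹ ∈ (R : Subgroup G) := (mem_normalizer_iff.1 hN u).1 huR
      have h3 : (u⁻¹ * (y * u * y⁻¹)) • Q = Q := by
        have hQy : y • Q = Q := hQ
        have hQy' : y • Q' = Q' := hQ'
        rw [mul_smul, mul_smul, mul_smul, inv_smul_eq_iff.2 hQy.symm, e2, hQy', ← e2,
          inv_smul_smul]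
      have h4 : u⁻¹ * (y * u * y⁻¹) = 1 := by
        by_contra h4
        exact hne (eq_of_smul hc (mul_mem (inv_mem huR) h2) h4 h3)
      refine hC (mem_CS_of_commute hc huR h1 ?_)
      calc u * y = u * (u⁻¹ * (y * u * y⁻¹)) * y := by rw [h4, mul_one]
        _ = y * u := by group
    rw [h1, one_smul] at e2
    subst e2
    have h2 : z = w := Subtype.ext (inv_mul_eq_one.1 h1).symm
    rw [h2]
  have h1 := Nat.card_le_card_of_injective f hf
  have h2 := card_ne_add_one (⟨R, hy⟩ : fixedBy (Sylow p G) y)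
  have h3 := card_ne_add_one R
  rw [Nat.card_prod, hc] at h1
  have h4 := Nat.add_le_add_right h1 (1 + p)
  calc _ = _ := by rw [← h2]
    _ = _ := by ring
    _ ≤ _ := h4
    _ = _ := by rw [← h3]; ring

/-- `C(P)` is strongly closed in `N(P)` -/
theorem mem_CS_of_smul (h : Nat.card (Sylow p G) < p ^ 2) {P R : Sylow p G} {c : G}
    (hP : c ∈ CS P) (hR : c • R = R) : c ∈ CS R := by
  by_contra hC
  have hne : P ≠ R := fun e => hC (e ▸ hP)
  have h1 := card_fixedBy_mul_le hc hR hC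
  let f : Option (P : Subgroup G) → fixedBy (Sylow p G) c := fun a => match a with
    | none => ⟨P, smul_eq_of_mem_CS hP⟩
    | some z => ⟨(z : G) • R, by
        change c • (z : G) • R = _
        rw [← mul_smul, ← hP z z.2, mul_smul, hR]⟩
  have hf : Function.Injective f := by
    rintro (_ | z) (_ | w) e
    · rfl
    · exact absurd (congrArg Subtype.val e).symm (smul_ne hc hne w.2)
    · exact absurd (congrArg Subtype.val e) (smul_ne hc hne z.2)
    · rw [smul_injective hc hne (congrArg Subtype.val e)]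
  have h2 := Nat.card_le_card_of_injective f hf
  rw [Finite.card_option, hc] at h2
  have := Nat.mul_le_mul_right p h2
  nlinarith

end Cfsg.Agent.FewS
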