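import Mathlib
import Cfsg.Agent.FewS.Arith
import Cfsg.Agent.FewS.Fix
import Cfsg.Agent.Char.BrauerReynoldsMain
import Cfsg.Agent.Char.B0Tools

/-!
The principal block of a group with fewer than `p²` Sylow subgroups of order `p`: general facts.
-/

set_option autoImplicit false
set_option linter.style.haveILetI false
set_option linter.unusedSectionVars false

namespace Cfsg.Agent.FewS

open Subgroup MulAction Cfsg.Agent.Small Cfsg.Agent.Grp Cfsg.Agent.Grp.SelfCent Cfsg.Agent.Char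
open Cfsg.Agent.Char.SelfC
open Cfsg.Agent.Block (cast_charDegree charDegree_eq_of_eq isIntegral_centralChar charDegree_ne_zero)
open scoped ComplexConjugate

variable {G : Type*} [Group G] [Fintype G] {p : ℕ} [hp : Fact p.Prime] {x : G}

local notation "𝐏" => zpowers x
local notation "𝐂" => centralizer (Singleton.singleton x : Set G)
local notation "𝐍" => normalizer ((zpowers x : Subgroup G) : Set G)

section Grp

variable {P : Sylow p G} (hP : (P : Subgroup G) = zpowers x) (hx : orderOf x = p)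
include hP hx

theorem hc_of (R : Sylow p G) : Nat.card (R : Subgroup G) = p := by
  rw [card_sylow_eq R P, hP, card_zp hx]

omit hx in
theorem CS_eq : CS P = 𝐂 := by rw [CS, hP, centralizer_zpowers]

omit hx in
theorem smul_eq_iff {g : G} : g • P = P ↔ g ∈ 𝐍 := by
  rw [Sylow.smul_eq_iff_mem_normalizer, ← hP]; rfl

omit hP hx in
theorem C_le_N : 𝐂 ≤ 𝐍 := by rw [← centralizer_zpowers]; exact centralizer_le_normalizer _

omit hP hx in
theorem P_le_C : 𝐏 ≤ 𝐂 := zpowers_le.2 (mem_centralizer_singleton_iff.2 rfl)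

omit hP hx in
theorem commute_of_mem {z c : G} (hz : z ∈ 𝐏) (hc : c ∈ 𝐂) : Commute z c := by
  obtain ⟨k, rfl⟩ := hz
  exact (Commute.zpow_right (mem_centralizer_singleton_iff.1 hc) k).symm

theorem exists_decomp {c : G} (hc : c ∈ 𝐂) :
    ∃ z ∈ 𝐏, ∃ y ∈ 𝐂, ¬ p ∣ orderOf y ∧ c = z * y := by
  obtain ⟨k, m, hm, hkm⟩ := Nat.exists_eq_pow_mul_and_not_dvd (orderOf_pos c).ne' p
    hp.out.one_lt.ne'
  have h1 : c ^ m ∈ 𝐏 := by
    have h2 : IsPGroup p (zpowers (c ^ m)) := by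
      refine IsPGroup.iff_card.2 ?_
      rw [Nat.card_zpowers]
      obtain ⟨j, -, hj⟩ := (Nat.dvd_prime_pow hp.out).1 (orderOf_dvd_of_pow_eq_one
        (show (c ^ m) ^ p ^ k = 1 by rw [← pow_mul, mul_comm, ← hkm, pow_orderOf_eq_one]))
      exact ⟨j, hj⟩
    obtain ⟨R, hR⟩ := h2.exists_le_sylow
    by_cases h3 : c ^ m = 1
    · rw [h3]; exact one_mem _
    rw [← hP, ← eq_of_smul (hc_of hP hx) (hR (mem_zpowers _)) h3
      ((smul_eq_iff hP).2 (C_le_N (pow_mem hc m)))]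
    exact hR (mem_zpowers _)
  obtain ⟨u, hu⟩ := Nat.exists_mul_mod_eq_one_of_coprime
    (hp.out.coprime_iff_not_dvd.2 hm).symm hp.out.one_lt
  refine ⟨(c ^ m) ^ u, pow_mem h1 u, ((c ^ m) ^ u)⁻¹ * c,
    mul_mem (inv_mem (pow_mem (pow_mem hc m) u)) hc, fun h => hm (h.trans ?_), by group⟩
  refine orderOf_dvd_of_pow_eq_one ?_
  have h2 : (c ^ m) ^ p = 1 := pow_eq_one_of_mem (hc_of hP hx) (R := P) (hP ▸ h1)
  have h3 : ((c ^ m) ^ u) ^ m = c ^ m := by
    rw [← pow_mul, mul_comm u m, ← Nat.div_add_mod (m * u) p, hu.2, pow_add, pow_mul, h2, one_pow,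
      one_mul, pow_one]
  rw [Commute.mul_pow (((Commute.refl c).pow_left m).pow_left u).inv_left, inv_pow, h3,
    inv_mul_cancel]

theorem apply_of_dvd {f : G → ℂ} (hf : IsClassFunction G f) {c : ℂ}
    (h : ∀ z ∈ 𝐏, z ≠ 1 → ∀ y ∈ 𝐂, ¬ p ∣ orderOf y → f (z * y) = c) {g : G}
    (hg : p ∣ orderOf g) : f g = c := by
  obtain ⟨R, k, h1, h2⟩ := exists_of_dvd (hc_of hP hx) hg
  have h3 := mem_CS_of_commute (hc_of hP hx) h1 h2 (Commute.pow_self g k).eq
  obtain ⟨a, rfl⟩ := exists_smul_eq G P R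
  rw [mem_CS_smul, CS_eq hP] at h3
  obtain ⟨z, hz, y, hy, hy1, e⟩ := exists_decomp hP hx h3
  rw [← hf.conj' g a, e]
  refine h z hz ?_ y hy hy1
  rintro rfl
  rw [one_mul] at e
  have : orderOf (a⁻¹ * g * a) = orderOf g := by simpa using (MulAut.conj a⁻¹).orderOf_eq g
  exact hy1 (e ▸ this ▸ hg)

omit hx in
theorem indN_eq_fix (g : G) :
    indFun 𝐍 (fun _ => 1) g = Nat.card (fixedBy (Sylow p G) g) := by
  have h : stabilizer G P = 𝐍 := by rw [Sylow.stabilizer_eq_normalizer, ← hP]; rfl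
  rw [← h, PermChar.indFun_stabilizer_one_of_pretransitive]

omit hx in
theorem indFun_eq_one {lam : 𝐍 → ℂ} (hl : ∀ c : 𝐍, (c : G) ∈ 𝐂 → lam c = 1) {g : G}
    (h1 : ∀ t : G, t * g * t⁻¹ ∈ 𝐍 → t * g * t⁻¹ ∈ 𝐂)
    (h2 : Nat.card (fixedBy (Sylow p G) g) = 1) : indFun 𝐍 lam g = 1 := by
  have h3 := indN_eq_fix hP g
  rw [h2, Nat.cast_one] at h3
  rw [← h3, indFun_apply', indFun_apply']
  congr 1
  refine Finset.sum_congr rfl fun t _ => ?_
  by_cases h : t * g * t⁻¹ ∈ 𝐍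
  · rw [extendByZero_of_mem _ _ h, extendByZero_of_mem _ _ h, hl _ (h1 t h)]
  · rw [extendByZero_of_not_mem _ _ h, extendByZero_of_not_mem _ _ h]

theorem indFun_of_dvd {lam : 𝐍 → ℂ} (hl : ∀ c : 𝐍, (c : G) ∈ 𝐂 → lam c = 1) {g : G}
    (hg : p ∣ orderOf g) : indFun 𝐍 lam g = 1 := by
  refine indFun_eq_one hP hl (fun t ht => ?_) (card_fixedBy_of_dvd (hc_of hP hx) hg)
  rw [← CS_eq hP]
  exact mem_CS_of_dvd (hc_of hP hx) (((MulAut.conj t).orderOf_eq g).symm ▸ hg)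
    ((smul_eq_iff hP).2 ht)

end Grp

open Classical in
/-- the characters of `N` with `C` in the kernel -/
noncomputable def Lin (x : G) :
    Finset (IrrCharacter (normalizer ((zpowers x : Subgroup G) : Set G))) :=
  Finset.univ.filter fun ψ => ∀ c : normalizer ((zpowers x : Subgroup G) : Set G),
    (c : G) ∈ centralizer ({x} : Set G) → ψ.1 c = ψ.1 1

omit hp in
theorem mem_Lin {ψ : IrrCharacter 𝐍} :
    ψ ∈ Lin x ↔ ∀ c : 𝐍, (c : G) ∈ 𝐂 → ψ.1 c = ψ.1 1 := by simp [Lin]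

omit hp in
theorem Lin_one {ψ : IrrCharacter 𝐍} (h : ψ ∈ Lin x) : ψ.1 1 = 1 := by
  refine one_eq_one_of_commutator_le ψ.2 ?_
  rw [_root_.commutator_def, commutator_le]
  intro a _ b _
  rw [mem_charKer_iff ψ.2.isCharacter]
  exact mem_Lin.1 h _ (comm_mem_centralizer a.2 b.2)

omit hp in
theorem Lin_C {ψ : IrrCharacter 𝐍} (h : ψ ∈ Lin x) (c : 𝐍) (hc : (c : G) ∈ 𝐂) : ψ.1 c = 1 :=
  (mem_Lin.1 h c hc).trans (Lin_one h)

omit hp in
theorem normal_C : ((𝐂).subgroupOf 𝐍).Normal := by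
  rw [← centralizer_zpowers]
  exact normal_subgroupOf_centralizer_normalizer _

omit hp in
/-- averaging over `C` -/
theorem sum_C_eq [Fintype 𝐍] [Fintype 𝐂] {ξ : G → ℂ} {m : IrrCharacter 𝐍 → ℕ}
    (hm : (fun g : 𝐍 => ξ g) = ∑ ψ : IrrCharacter 𝐍, (m ψ : ℂ) • (ψ : 𝐍 → ℂ)) (g : 𝐍) :
    ∑ c : 𝐂, ξ (g * c) = Nat.card 𝐂 * ∑ ψ ∈ Lin x, m ψ * ψ.1 g := by
  classical
  haveI := normal_C (x := x)
  let e := subgroupOfEquivOfLe (C_le_N (x := x))
  have h1 : ∑ c : 𝐂, ξ (g * c) = ∑ c : (𝐂).subgroupOf 𝐍, ∑ ψ : IrrCharacter 𝐍,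
      m ψ * ψ.1 (g * c) := by
    refine (Fintype.sum_equiv e.toEquiv _ _ fun c => ?_).symm
    have := congrFun hm (g * c)
    simp only [Finset.sum_apply, Pi.smul_apply, smul_eq_mul] at this
    exact this.symm
  rw [h1, Finset.sum_comm, Lin, Finset.sum_filter, Finset.mul_sum]
  refine Finset.sum_congr rfl fun ψ _ => ?_
  rw [← Finset.mul_sum]
  split_ifs with h
  · rw [Finset.sum_congr rfl (g := fun _ => ψ.1 g) fun c _ => apply_mul_of_mem_charKer
      ψ.2.isClassFunction ((mem_charKer_iff ψ.2.isCharacter).2 (h c.1 c.2)) g, Finset.sum_const,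
      Finset.card_univ, ← Nat.card_eq_fintype_card, Nat.card_congr e.toEquiv, nsmul_eq_mul]
    ring
  · push Not at h
    obtain ⟨c, hc, h⟩ := h
    rw [sum_coset_eq_zero ψ.2 _ ⟨c, hc, h⟩, mul_zero, mul_zero]

/-- the standing hypotheses -/
structure Ctx (D : B0Data p x) (P : Sylow p G) (r A b : ℕ) : Prop where
  hP : (P : Subgroup G) = zpowers x
  hx : orderOf x = p
  hG : _root_.commutator G = ⊤
  one : irrOne G ∈ D.X
  hn : (normalizer ((zpowers x : Subgroup G) : Set G)).index = r * p + 1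
  num : Num p r A b

namespace Ctx

variable {D : B0Data p x} {P : Sylow p G} {r A b : ℕ} (H : Ctx D P r A b)
include H

theorem valX {χ : IrrCharacter G} (hχ : χ ∈ D.X) {g : G} (hg : p ∣ orderOf g) :
    (χ : G → ℂ) g = D.ε χ :=
  apply_of_dvd H.hP H.hx χ.2.isClassFunction (D.valX χ hχ) hg

theorem valΘ {g : G} (hg : p ∣ orderOf g) : D.Θ g = -D.δ :=
  apply_of_dvd H.hP H.hx D.isCharacter_Θ.isClassFunction
    (fun z hz h1 y hy h2 => by rw [D.Θ_apply, D.sumY z hz h1 y hy h2]) hg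

theorem te : D.Y.card * D.e + 1 = p := by have := D.cardY; have := hp.out.two_le; omega

theorem card_sylow : Nat.card (Sylow p G) = r * p + 1 := by
  rw [← H.hn, ← H.hP]; exact P.card_eq_index_normalizer

theorem card_sylow_lt : Nat.card (Sylow p G) < p ^ 2 := by
  have h1 := H.num.r_lt
  have h2 := Nat.mul_le_mul_right p (show r + 1 ≤ p from h1)
  have := hp.out.two_le
  rw [H.card_sylow]; nlinarith

theorem two_le_e : 2 ≤ D.e := by
  have h1 := relIndex_ne_one_of_perfect H.hG P H.hP H.hx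
  rw [D.he] at h1
  have := D.e_pos
  omega

/-- the generalized character vanishing on `p`-regular elements -/
noncomputable def _root_.Cfsg.Agent.FewS.Γ (D : B0Data p x) : G → ℂ :=
  (D.Y.card : ℂ) • ∑ χ ∈ D.X, (D.ε χ : ℂ) • (χ : G → ℂ) - (D.δ : ℂ) • D.Θ

omit H in
theorem Γ_reg {g : G} (hg : ¬ p ∣ orderOf g) : Γ D g = 0 := by
  obtain ⟨θ, hθ⟩ := D.Y_nonempty
  simp only [Γ, Pi.sub_apply, Pi.smul_apply, Finset.sum_apply, smul_eq_mul]
  rw [← D.rel θ hθ g hg, D.Θ_regular hθ hg]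
  ring

theorem Γ_sing {g : G} (hg : p ∣ orderOf g) : Γ D g = p := by
  simp only [Γ, Pi.sub_apply, Pi.smul_apply, Finset.sum_apply, smul_eq_mul]
  rw [Finset.sum_congr rfl (g := fun _ => (1 : ℂ)) fun χ hχ => by
    rw [H.valX hχ hg]; rcases D.sign χ hχ with h | h <;> simp [h], H.valΘ hg,
    Finset.sum_const, D.cardX]
  have h1 : (D.Y.card * D.e + 1 : ℂ) = p := by exact_mod_cast H.te
  rw [← h1]
  rcases D.signY with h | h <;> simp [h]

omit H in
theorem inner_Γ {φ : G → ℂ} {m : IrrCharacter G → ℕ}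
    (hm : ∀ χ : IrrCharacter G, classInner φ χ = m χ) : classInner φ (Γ D) =
      ((D.Y.card * ∑ χ ∈ D.X, D.ε χ * m χ - D.δ * ∑ θ ∈ D.Y, m θ : ℤ) : ℂ) := by
  rw [Γ, classInner_sub_right, classInner_smul_right, classInner_smul_right, B0Data.Θ,
    classInner_sum_right, classInner_sum_right]
  simp only [classInner_smul_right, hm]
  simp

theorem inner_Γ_eq (φ : G → ℂ) : Nat.card G * classInner φ (Γ D) =
    p * ∑ g ∈ Finset.univ.filter fun g : G => p ∣ orderOf g, φ g := by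
  rw [← sum_mul_conj_eq, Finset.sum_filter, Finset.mul_sum]
  refine Finset.sum_congr rfl fun g _ => ?_
  split_ifs with h
  · rw [H.Γ_sing h]; simp [mul_comm]
  · rw [Γ_reg h]; simp

theorem not_mem_Y : irrOne G ∉ D.Y := Finset.disjoint_left.1 D.disj H.one

theorem inner_one_Γ : classInner (fun _ => 1) (Γ D) = D.Y.card := by
  classical
  rw [inner_Γ (m := fun χ => if irrOne G = χ then 1 else 0) fun χ => by
    rw [show (fun _ : G => (1 : ℂ)) = irrOne G from rfl, irr_inner]; simp]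
  rw [Finset.sum_eq_zero (s := D.Y) fun θ hθ => by
    rw [if_neg fun h : irrOne G = θ => H.not_mem_Y (h ▸ hθ)]]
  simp [H.one, D.ε_irrOne H.hx H.one]

theorem card_sing : p * (Finset.univ.filter fun g : G => p ∣ orderOf g).card
    = Nat.card G * D.Y.card := by
  have := H.inner_Γ_eq fun _ => 1
  rw [H.inner_one_Γ, Finset.sum_const, nsmul_eq_mul, mul_one] at this
  exact_mod_cast this.symm

theorem sum_coeff {φ : G → ℂ} {m : IrrCharacter G → ℕ}
    (hm : ∀ χ : IrrCharacter G, classInner φ χ = m χ) (h : ∀ g, p ∣ orderOf g → φ g = 1) :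
    D.Y.card * ∑ χ ∈ D.X, D.ε χ * m χ - D.δ * ∑ θ ∈ D.Y, m θ = D.Y.card := by
  have h1 := H.inner_Γ_eq φ
  rw [Finset.sum_congr rfl fun g hg => h g (Finset.mem_filter.1 hg).2, ← H.inner_Γ_eq,
    H.inner_one_Γ, inner_Γ hm] at h1
  exact_mod_cast mul_left_cancel₀ (card_ne_zero G) h1

theorem dvdX {χ : IrrCharacter G} (hχ : χ ∈ D.X) :
    charDegree (χ : G → ℂ) ∣ D.e * (r * p + 1) := by
  have := D.dvd_X H.hx hχ
  rwa [D.index_C, H.hn] at this

theorem dvdX' {χ : IrrCharacter G} (hχ : χ ∈ D.X) :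
    charDegree (χ : G → ℂ) ∣ (p - 1) * (r * p + 1) :=
  (H.dvdX hχ).trans (D.cardY ▸ mul_dvd_mul_right (dvd_mul_left _ _) _)

theorem degA {χ : IrrCharacter G} (hχ : χ ∈ D.A) :
    charDegree (χ : G → ℂ) = A * p + 1 ∨ charDegree (χ : G → ℂ) = r * p + 1 := by
  obtain ⟨h1, h2, h3⟩ := D.mem_A.1 hχ
  refine (H.num.pos (H.dvdX' h1) (h3 ▸ D.degX χ h1)).resolve_left fun h => h2 ?_
  exact eq_irrOne_of_perfect H.hG ((charDegree_eq_one_iff χ.2.isCharacter).1 h)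

theorem degB' {χ : IrrCharacter G} (hχ : χ ∈ D.B) :
    charDegree (χ : G → ℂ) = p - 1 ∨ charDegree (χ : G → ℂ) = b * (p + A + 1) ∨
      charDegree (χ : G → ℂ) = (p - 1) * (r * p + 1) := by
  obtain ⟨h1, -, h3⟩ := D.mem_B.1 hχ
  exact H.num.neg (H.dvdX' h1) (h3 ▸ D.degX χ h1)

theorem degY' : (D.δ = -1 ∧ (D.Y.card * D.d = A * p + 1 ∨ D.Y.card * D.d = r * p + 1)) ∨
    (D.δ = 1 ∧ (D.Y.card * D.d = p - 1 ∨ D.Y.card * D.d = b * (p + A + 1) ∨
      D.Y.card * D.d = (p - 1) * (r * p + 1))) := by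
  have h1 : D.Y.card * D.d ∣ (p - 1) * (r * p + 1) := by
    have := D.dvd_Y H.hx
    rw [D.index_C, H.hn] at this
    rw [← D.cardY, mul_assoc]
    exact mul_dvd_mul_left _ this
  have h2 := D.mod_Θ
  rcases D.signY with h | h <;> rw [h] at h2
  · exact Or.inr ⟨h, H.num.neg h1 h2⟩
  · refine Or.inl ⟨h, (H.num.pos h1 (by simpa using h2)).resolve_left fun h3 => ?_⟩
    obtain ⟨θ, hθ⟩ := D.Y_nonempty
    have h4 : θ = irrOne G := eq_irrOne_of_perfect H.hG (by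
      rw [D.degY θ hθ, Nat.eq_one_of_mul_eq_one_left h3, Nat.cast_one])
    exact H.not_mem_Y (h4 ▸ hθ)

theorem sumA (g : ℕ → ℤ) : ∑ χ ∈ D.A, g (charDegree (χ : G → ℂ))
    = cnt D.A (A * p + 1) * g (A * p + 1) + cnt D.A (r * p + 1) * g (r * p + 1) := by
  have h1 := H.num.hr
  have h2 : A * p < r * p := Nat.mul_lt_mul_of_pos_right (by nlinarith) hp.out.pos
  rw [sum_deg D.A {A * p + 1, r * p + 1} fun χ hχ => by simpa using H.degA hχ,
    Finset.sum_pair (by omega)]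

theorem sumB' (g : ℕ → ℤ) : ∑ χ ∈ D.B, g (charDegree (χ : G → ℂ))
    = cnt D.B (p - 1) * g (p - 1) + cnt D.B (b * (p + A + 1)) * g (b * (p + A + 1))
      + cnt D.B ((p - 1) * (r * p + 1)) * g ((p - 1) * (r * p + 1)) := by
  have h1 := H.num.z2_eq
  have h2 := H.num.hA
  have h3 := H.num.hb
  have h4 := H.num.hr
  obtain ⟨q, hq⟩ : ∃ q, p = q + 2 := ⟨p - 2, by have := hp.out.two_le; omega⟩
  have h5 : (b + 1) * p < r * p := Nat.mul_lt_mul_of_pos_right (by nlinarith) hp.out.pos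
  have h6 : r * p + 1 ≤ (p - 1) * (r * p + 1) := Nat.le_mul_of_pos_left _ (by omega)
  have h7 : p ≤ b * p := Nat.le_mul_of_pos_left _ (by omega)
  have h8 : (b + 1) * p = b * p + p := by ring
  rw [sum_deg D.B {p - 1, b * (p + A + 1), (p - 1) * (r * p + 1)} fun χ hχ => by
    simpa using H.degB' hχ, Finset.sum_insert (by simp; omega), Finset.sum_pair (by omega),
    ← add_assoc]

theorem deg_eq' {u : ℤ} (hu : (D.Y.card * D.d : ℤ) = p * u - D.δ) :
    D.Y.card * (cnt D.A (A * p + 1) * A + cnt D.A (r * p + 1) * r - cnt D.B (p - 1)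
      - cnt D.B (b * (p + A + 1)) * (b + 1)
      - cnt D.B ((p - 1) * (r * p + 1)) * (r * (p - 1) + 1)) - D.δ * u = -1 ∧
    (D.e : ℤ) = 1 + cnt D.A (A * p + 1) + cnt D.A (r * p + 1) + cnt D.B (p - 1)
      + cnt D.B (b * (p + A + 1)) + cnt D.B ((p - 1) * (r * p + 1)) := by
  have h1 := D.deg_eq
  rw [D.sum_X H.one, D.ε_irrOne H.hx H.one, charDegree_eq_of_eq (n := 1) (by simp [irrOne_apply]),
    Finset.sum_congr (s₁ := D.A) rfl (g := fun χ => ((charDegree (χ : G → ℂ) : ℕ) : ℤ))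
      fun χ hχ => by rw [(D.mem_A.1 hχ).2.2, one_mul],
    Finset.sum_congr (s₁ := D.B) rfl (g := fun χ => -((charDegree (χ : G → ℂ) : ℕ) : ℤ))
      fun χ hχ => by rw [(D.mem_B.1 hχ).2.2, neg_one_mul],
    H.sumA (fun z => z), H.sumB' (fun z => -z)] at h1
  have h2 : (D.e : ℤ) = 1 + D.A.card + D.B.card := by exact_mod_cast D.card_e H.one
  have h3 := H.sumA fun _ => 1
  have h4 := H.sumB' fun _ => 1
  simp only [Finset.sum_const, nsmul_eq_mul, mul_one] at h3 h4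
  have h5 : (D.e : ℤ) = 1 + cnt D.A (A * p + 1) + cnt D.A (r * p + 1) + cnt D.B (p - 1)
      + cnt D.B (b * (p + A + 1)) + cnt D.B ((p - 1) * (r * p + 1)) := by
    rw [h2, h3, h4]; ring
  refine ⟨?_, h5⟩
  have h6 : (D.Y.card * D.e + 1 : ℤ) = p := by exact_mod_cast H.te
  have h7 : (b * (p + A + 1) + 1 : ℤ) = (b + 1) * p := by exact_mod_cast H.num.z2_eq
  have h8 : D.δ * D.δ = 1 := by rcases D.signY with h | h <;> simp [h]
  generalize cnt D.A (A * p + 1) = α at *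
  generalize cnt D.A (r * p + 1) = α₂ at *
  generalize cnt D.B (p - 1) = β₁ at *
  generalize cnt D.B (b * (p + A + 1)) = β₂ at *
  generalize cnt D.B ((p - 1) * (r * p + 1)) = β₃ at *
  push_cast [Nat.cast_sub hp.out.one_le] at h1
  apply mul_left_cancel₀ (Nat.cast_ne_zero.2 hp.out.ne_zero : (p : ℤ) ≠ 0)
  linear_combination (-D.Y.card : ℤ) * h1 + D.δ * hu - h8 + D.Y.card * β₂ * h7 - h6
    + D.Y.card * h5

theorem exists_u : ∃ u : ℤ, (D.Y.card * D.d : ℤ) = p * u - D.δ ∧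
    ((D.δ = -1 ∧ D.Y.card * D.d = A * p + 1 ∧ u = A) ∨
     (D.δ = -1 ∧ D.Y.card * D.d = r * p + 1 ∧ u = r) ∨
     (D.δ = 1 ∧ D.Y.card * D.d = p - 1 ∧ u = 1) ∨
     (D.δ = 1 ∧ D.Y.card * D.d = b * (p + A + 1) ∧ u = b + 1) ∨
     (D.δ = 1 ∧ D.Y.card * D.d = (p - 1) * (r * p + 1) ∧ u = r * (p - 1) + 1)) := by
  have h7 : (b * (p + A + 1) + 1 : ℤ) = (b + 1) * p := by exact_mod_cast H.num.z2_eq
  rcases H.degY' with ⟨h, h' | h'⟩ | ⟨h, h' | h' | h'⟩ <;>
    have h2 := congrArg (Nat.cast : ℕ → ℤ) h' <;> push_cast [Nat.cast_sub hp.out.one_le] at h2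
  · exact ⟨A, by rw [h2, h]; ring, Or.inl ⟨h, h', rfl⟩⟩
  · exact ⟨r, by rw [h2, h]; ring, Or.inr (Or.inl ⟨h, h', rfl⟩)⟩
  · exact ⟨1, by rw [h2, h]; ring, Or.inr (Or.inr (Or.inl ⟨h, h', rfl⟩))⟩
  · exact ⟨b + 1, by rw [h2, h]; linear_combination h7,
      Or.inr (Or.inr (Or.inr (Or.inl ⟨h, h', rfl⟩)))⟩
  · exact ⟨r * (p - 1) + 1, by rw [h2, h]; ring, Or.inr (Or.inr (Or.inr (Or.inr ⟨h, h', rfl⟩)))⟩

theorem no_big : cnt D.B ((p - 1) * (r * p + 1)) = 0 ∧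
    ¬ (D.δ = 1 ∧ D.Y.card * D.d = (p - 1) * (r * p + 1)) := by
  obtain ⟨u, hu, hu'⟩ := H.exists_u
  obtain ⟨h1, h2⟩ := H.deg_eq' hu
  have h3 : (D.Y.card * D.e + 1 : ℤ) = p := by exact_mod_cast H.te
  have h4 : (A : ℤ) + 1 ≤ r := by have := H.num.hr; push_cast [this]; nlinarith
  have h5 : (1 : ℤ) ≤ D.Y.card := by exact_mod_cast D.card_Y_pos
  have h6 : -D.δ * u ≤ r := by
    rcases hu' with ⟨h, -, rfl⟩ | ⟨h, -, rfl⟩ | ⟨h, -, rfl⟩ | ⟨h, -, rfl⟩ | ⟨h, -, rfl⟩ <;>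
      rw [h] <;> nlinarith [hp.out.two_le]
  generalize cnt D.A (A * p + 1) = α at *
  generalize cnt D.A (r * p + 1) = α₂ at *
  generalize cnt D.B (p - 1) = β₁ at *
  generalize cnt D.B (b * (p + A + 1)) = β₂ at *
  generalize cnt D.B ((p - 1) * (r * p + 1)) = β₃ at *
  generalize D.Y.card = t at *
  have hp2 : (2 : ℤ) ≤ p := by exact_mod_cast hp.out.two_le
  have h7 : (t : ℤ) * (α * A + α₂ * r) ≤ t * ((α + α₂) * r) :=
    mul_le_mul_of_nonneg_left (by nlinarith) (by positivity)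
  have h8 : (0 : ℤ) ≤ t * (β₁ + β₂ * (b + 1)) := by positivity
  have h9 : (0 : ℤ) ≤ t * (β₁ + β₂) * r := by positivity
  have hr : (0 : ℤ) < r := by omega
  have h13 : (t : ℤ) * ((α + α₂) * r) = (p - 1 - t - t * (β₁ + β₂) - t * β₃) * r := by
    rw [← h3, h2]; ring
  have h14 : (0 : ℤ) ≤ r * (p - 1) := mul_nonneg hr.le (by omega)
  have h15 : (1 : ℤ) * r ≤ t * r := mul_le_mul_of_nonneg_right h5 hr.le
  constructor
  · by_contra h10
    have h11 : (1 : ℤ) ≤ t * β₃ := by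
      have : (1 : ℤ) ≤ β₃ := by omega
      nlinarith
    have h12 : (1 : ℤ) * (r * (p - 1) + 1) ≤ t * β₃ * (r * (p - 1) + 1) :=
      mul_le_mul_of_nonneg_right h11 (by omega)
    have h16 : (1 : ℤ) * r ≤ t * β₃ * r := mul_le_mul_of_nonneg_right h11 hr.le
    linarith
  · rintro ⟨h10, h11⟩
    have h12 : u = r * (p - 1) + 1 := by
      apply mul_left_cancel₀ (Nat.cast_ne_zero.2 hp.out.ne_zero : (p : ℤ) ≠ 0)
      have h2 := congrArg (Nat.cast : ℕ → ℤ) h11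
      push_cast [Nat.cast_sub hp.out.one_le] at h2
      rw [h10] at hu
      linear_combination h2 - hu
    have h16 : (0 : ℤ) ≤ t * β₃ * (r * (p - 1) + 1) := mul_nonneg (by positivity) (by omega)
    have h17 : (0 : ℤ) ≤ t * β₃ * r := by positivity
    rw [h10, h12] at h1
    linarith

theorem degB {χ : IrrCharacter G} (hχ : χ ∈ D.B) :
    charDegree (χ : G → ℂ) = p - 1 ∨ charDegree (χ : G → ℂ) = b * (p + A + 1) := by
  rcases H.degB' hχ with h | h | h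
  · exact Or.inl h
  · exact Or.inr h
  · exact absurd (Finset.mem_filter.2 ⟨hχ, h⟩)
      (Finset.card_eq_zero.1 H.no_big.1 ▸ Finset.notMem_empty χ)

theorem sumB (g : ℕ → ℤ) : ∑ χ ∈ D.B, g (charDegree (χ : G → ℂ))
    = cnt D.B (p - 1) * g (p - 1) + cnt D.B (b * (p + A + 1)) * g (b * (p + A + 1)) := by
  rw [H.sumB', H.no_big.1]; simp

/-- the degree equation -/
theorem deg_eq : ∃ u : ℤ, (D.Y.card * D.d : ℤ) = p * u - D.δ ∧
    ((D.δ = -1 ∧ D.Y.card * D.d = A * p + 1 ∧ u = A) ∨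
     (D.δ = -1 ∧ D.Y.card * D.d = r * p + 1 ∧ u = r) ∨
     (D.δ = 1 ∧ D.Y.card * D.d = p - 1 ∧ u = 1) ∨
     (D.δ = 1 ∧ D.Y.card * D.d = b * (p + A + 1) ∧ u = b + 1)) ∧
    D.Y.card * (cnt D.A (A * p + 1) * A + cnt D.A (r * p + 1) * r - cnt D.B (p - 1)
      - cnt D.B (b * (p + A + 1)) * (b + 1)) - D.δ * u = -1 ∧
    D.e = 1 + cnt D.A (A * p + 1) + cnt D.A (r * p + 1) + cnt D.B (p - 1)
      + cnt D.B (b * (p + A + 1)) := by
  obtain ⟨u, hu, hu'⟩ := H.exists_u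
  obtain ⟨h1, h2⟩ := H.deg_eq' hu
  rw [H.no_big.1] at h1 h2
  refine ⟨u, hu, ?_, by simpa using h1, by omega⟩
  have := H.no_big.2
  tauto

end Ctx

end Cfsg.Agent.FewS
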