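import Mathlib
import Cfsg.Agent.FewS.Vert

/-!
The self-centralizing case: values at a generator of `N / P`.
-/

set_option autoImplicit false
set_option linter.style.haveILetI false
set_option linter.unusedSectionVars false

namespace Cfsg.Agent.FewS

open Subgroup MulAction Cfsg.Agent.Small Cfsg.Agent.Grp Cfsg.Agent.Grp.SelfCent Cfsg.Agent.Char
open Cfsg.Agent.Char.SelfC
open Cfsg.Agent.Block (cast_charDegree charDegree_eq_of_eq isIntegral_centralChar charDegree_ne_zero)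
open scoped ComplexConjugate

theorem isIntegral_div_of_coprime {w : ℂ} {k a : ℕ} (ha : a ≠ 0) (h : k.Coprime a)
    (hw : IsIntegral ℤ w) (h1 : IsIntegral ℤ (k * w / a)) : IsIntegral ℤ (w / a) := by
  obtain ⟨u, v, huv⟩ := Nat.isCoprime_iff_coprime.2 h
  have h2 : (u : ℂ) * k + v * a = 1 := by exact_mod_cast huv
  have h3 : (a : ℂ) ≠ 0 := Nat.cast_ne_zero.2 ha
  have : w / a = u * (k * w / a) + v * w := by
    field_simp
    linear_combination (-w) * h2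
  rw [this]
  exact ((isIntegral_intCast u).mul h1).add ((isIntegral_intCast v).mul hw)

variable {G : Type*} [Group G] [Fintype G] {p : ℕ} [hp : Fact p.Prime] {x : G}

local notation "𝐏" => zpowers x
local notation "𝐂" => centralizer (Singleton.singleton x : Set G)
local notation "𝐍" => normalizer ((zpowers x : Subgroup G) : Set G)

omit hp in
theorem sum_coeff_deg_le {φ : G → ℂ} (hφ : IsCharacter G φ) {c : IrrCharacter G → ℕ}
    (hc : ∀ χ : IrrCharacter G, classInner φ χ = c χ) {k : ℕ} (hk : φ 1 = k)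
    (s : Finset (IrrCharacter G)) : ∑ χ ∈ s, c χ * charDegree (χ : G → ℂ) ≤ k := by
  have h1 := hφ.isClassFunction.apply_eq_sum_irr 1
  have h2 : k = ∑ χ, c χ * charDegree (χ : G → ℂ) := by
    rw [hk] at h1
    simp only [hc, ← coe_charDegree_irr] at h1
    exact_mod_cast h1
  rw [h2]
  exact Finset.sum_le_sum_of_subset (Finset.subset_univ s)

/-- `y` generates `N` modulo `P` -/
structure Gen (x y : G) : Prop where
  mem : y ∈ normalizer ((zpowers x : Subgroup G) : Set G)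
  not_mem : y ∉ zpowers x
  ord : orderOf y = (zpowers x).relIndex (normalizer ((zpowers x : Subgroup G) : Set G))
  gen : ∀ g ∈ normalizer ((zpowers x : Subgroup G) : Set G), ∃ l ∈ zpowers y, ∃ w ∈ zpowers x,
    g = l * w

theorem exists_gen (hx : orderOf x = p) (hC : 𝐂 = 𝐏) (he : (𝐏).relIndex 𝐍 ≠ 1) :
    ∃ y, Gen x y := by
  obtain ⟨y, h1, h2, h3⟩ := exists_generator hx hC he
  refine ⟨y, h1, fun h => he ?_, h2, ?_⟩
  · rw [← h2, h3 y (mem_zpowers y) h, orderOf_one]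
  have h4 := card_of_mul (L := zpowers y) (Q := 𝐏) (eq_bot_iff.2 fun z hz => h3 z hz.1 hz.2)
    {g | ∃ l ∈ zpowers y, ∃ w ∈ 𝐏, g = l * w} fun _ => Iff.rfl
  have h5 : {g | ∃ l ∈ zpowers y, ∃ w ∈ 𝐏, g = l * w} = (𝐍 : Set G) := by
    refine Set.eq_of_subset_of_ncard_le ?_ ?_ (Set.toFinite _)
    · rintro _ ⟨l, hl, w, hw, rfl⟩
      exact mul_mem (zpowers_le.2 h1 hl) (le_normalizer hw)
    · rw [← Nat.card_coe_set_eq, ← Nat.card_coe_set_eq, h4, Nat.card_zpowers, h2, card_zp hx,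
        mul_comm]
      exact (card_normalizer hx).le
  intro g hg
  exact (Set.ext_iff.1 h5 g).2 hg

theorem Gen.fix_dvd {y : G} (hy : Gen x y) {P : Sylow p G} (hP : (P : Subgroup G) = 𝐏)
    (hx : orderOf x = p) (hC : 𝐂 = 𝐏) :
    Nat.card (fixedBy (Sylow p G) y) ∣ p * (𝐍).index := by
  set M := normalizer ((zpowers y : Subgroup G) : Set G) with hM
  have hyp := not_dvd_of_not_mem hx hC hy.mem hy.not_mem
  have hMP : M ⊓ 𝐏 = ⊥ := by
    rw [eq_bot_iff]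
    rintro z ⟨h1, h2⟩
    have h3 : z * y * z⁻¹ * y⁻¹ ∈ 𝐏 ⊓ zpowers y := by
      refine mem_inf.2 ⟨?_,
        mul_mem ((mem_normalizer_iff.1 h1 y).1 (mem_zpowers y)) (inv_mem (mem_zpowers y))⟩
      have := mul_mem h2 ((mem_normalizer_iff.1 hy.mem _).1 (inv_mem h2))
      simpa [mul_assoc] using this
    rw [zp_inf_eq_bot hx (by rwa [Nat.card_zpowers]), mem_bot] at h3
    refine eq_one_of_commute_of_not_mem hx hC hy.not_mem h2 ?_
    calc y * z = (z * y * z⁻¹ * y⁻¹)⁻¹ * (z * y) := by group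
      _ = z * y := by rw [h3]; group
  have h1 := card_of_mul hMP {g | g⁻¹ * y * g ∈ 𝐍} fun g => by
    constructor
    · intro hg
      obtain ⟨l, hl, w, hw, e⟩ := hy.gen _ hg
      have h2 : l ∉ 𝐏 := fun h => hyp (by
        have h3 : orderOf (g⁻¹ * y * g) = orderOf y := by
          simpa using (MulAut.conj g⁻¹).orderOf_eq y
        have h4 : g⁻¹ * y * g ≠ 1 := fun h5 => hy.not_mem (by
          rw [h5, orderOf_one, eq_comm, orderOf_eq_one_iff] at h3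
          rw [h3]; exact one_mem _)
        rw [← h3, orderOf_of_mem_zp hx (e ▸ mul_mem h hw) h4])
      have hlN : l ∈ 𝐍 := zpowers_le.2 hy.mem hl
      obtain ⟨u, hu, e2⟩ := exists_conj_eq_mul hx hC hlN h2 ((mem_normalizer_iff.1 hlN w).1 hw)
      refine ⟨g * u, ?_, u⁻¹, inv_mem hu, by group⟩
      rw [hM, ← inv_mem_iff, mem_normalizer_zpowers_iff]
      have : (g * u)⁻¹ * y * (g * u)⁻¹⁻¹ = l := by
        calc _ = u⁻¹ * (g⁻¹ * y * g) * u := by group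
          _ = u⁻¹ * (l * w * l⁻¹ * l) * u := by rw [e]; group
          _ = l := by rw [← e2]; group
      rwa [this]
    · rintro ⟨l, hl, w, hw, rfl⟩
      have h2 : l⁻¹ * y * l⁻¹⁻¹ ∈ 𝐍 :=
        zpowers_le.2 hy.mem ((mem_normalizer_iff.1 (inv_mem hl) y).1 (mem_zpowers y))
      have := mul_mem (mul_mem (inv_mem (le_normalizer hw)) h2) (le_normalizer hw)
      simpa [mul_assoc] using this
  have h2 := indN_eq_fix hP y
  rw [PermChar.indFun_one_apply, inv_mul_eq_iff_eq_mul₀ (card_ne_zero _)] at h2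
  have h3 : Nat.card M * p = Nat.card 𝐍 * Nat.card (fixedBy (Sylow p G) y) := by
    rw [card_zp hx] at h1
    rw [← h1]
    exact Nat.cast_injective (R := ℂ) (h2.trans (Nat.cast_mul _ _).symm)
  have h4 := card_subgroup_dvd_card M
  have h5 : Nat.card M = (𝐏).relIndex 𝐍 * Nat.card (fixedBy (Sylow p G) y) := by
    apply Nat.eq_of_mul_eq_mul_right hp.out.pos
    rw [h3, card_normalizer hx]; ring
  rw [h5, ← card_mul_index 𝐍, card_normalizer hx, mul_comm p, mul_assoc] at h4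
  exact Nat.dvd_of_mul_dvd_mul_left (Nat.pos_of_ne_zero index_ne_zero_of_finite) h4

theorem Gen.index_dvd {y : G} (hy : Gen x y) (hx : orderOf x = p) :
    (centralizer ({y} : Set G)).index ∣ p * (𝐍).index := by
  obtain ⟨c, hc⟩ := Subgroup.orderOf_dvd_natCard (centralizer ({y} : Set G))
    (mem_centralizer_singleton_iff.2 rfl)
  have h1 := card_mul_index (centralizer ({y} : Set G))
  rw [hc, hy.ord, ← card_mul_index 𝐍, card_normalizer hx, mul_comm p, mul_assoc, mul_assoc] at h1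
  exact Dvd.intro_left c
    (Nat.eq_of_mul_eq_mul_left (Nat.pos_of_ne_zero index_ne_zero_of_finite) h1)

omit hp in
theorem Gen.ext {y : G} (hy : Gen x y) {ψ ψ' : IrrCharacter 𝐍} (h : ψ ∈ Lin x) (h' : ψ' ∈ Lin x)
    (e : ψ.1 ⟨y, hy.mem⟩ = ψ'.1 ⟨y, hy.mem⟩) : ψ = ψ' := by
  obtain ⟨μ, hμ⟩ := ψ.2.isCharacter.exists_linear (Lin_one h)
  obtain ⟨μ', hμ'⟩ := ψ'.2.isCharacter.exists_linear (Lin_one h')
  refine Subtype.ext (funext fun g => ?_)
  obtain ⟨_, ⟨k, rfl⟩, w, hw, e1⟩ := hy.gen g g.2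
  have h1 : g = (⟨y, hy.mem⟩ : 𝐍) ^ k * ⟨w, le_normalizer hw⟩ := Subtype.ext e1
  have h2 := Lin_C h ⟨w, le_normalizer hw⟩ (P_le_C hw)
  have h3 := Lin_C h' ⟨w, le_normalizer hw⟩ (P_le_C hw)
  rw [hμ] at h2
  rw [hμ'] at h3
  rw [hμ, hμ'] at e
  simp only at h2 h3 e
  rw [hμ, hμ', h1]
  simp only [map_mul, map_zpow, Units.val_mul, Units.val_zpow_eq_zpow_val, h2, h3, e]

/-- restriction to `N` -/
theorem exists_res (hx : orderOf x = p) (hC : 𝐂 = 𝐏) {ξ : G → ℂ} (hξ : IsCharacter G ξ) {c : ℂ}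
    (hc : ∀ z ∈ 𝐏, z ≠ 1 → ξ z = c) {ρ : ℕ} (hρ : ξ 1 + (p - 1) * c = p * ρ) :
    ∃ m : IrrCharacter 𝐍 → ℕ, (∀ ψ : IrrCharacter 𝐍, classInner (indFun 𝐍 ψ.1) ξ = m ψ) ∧
      ∑ ψ ∈ Lin x, m ψ = ρ ∧ ∀ g : 𝐍, (g : G) ∉ 𝐏 → ξ g = ∑ ψ ∈ Lin x, m ψ * ψ.1 g := by
  haveI := Fintype.ofFinite 𝐍
  haveI := Fintype.ofFinite 𝐂
  have hp0 : (p : ℂ) ≠ 0 := Nat.cast_ne_zero.2 hp.out.ne_zero
  have hCp : Nat.card 𝐂 = p := by rw [hC, card_zp hx]
  obtain ⟨m, hm, hm2⟩ := (hξ.restrict 𝐍).exists_coeff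
  refine ⟨m, fun ψ => ?_, ?_, fun g hg => ?_⟩
  · rw [classInner_indFun_left _ _ hξ.isClassFunction, ψ.2.isCharacter.inner_symm (hξ.restrict _),
      hm]
  · have h1 := sum_C_eq hm2 1
    simp only [OneMemClass.coe_one, one_mul] at h1
    rw [sum_subgroup_eq (c := c) fun z hz hz1 => hc z (hC ▸ hz) hz1, hCp, hρ,
      Finset.sum_congr rfl fun ψ hψ => by rw [Lin_one hψ, mul_one]] at h1
    exact_mod_cast (mul_left_cancel₀ hp0 h1).symm
  · have h1 := sum_C_eq hm2 g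
    rw [Finset.sum_congr rfl (g := fun _ => ξ g) fun z _ => by
      obtain ⟨u, -, hu⟩ := exists_conj_eq_mul hx hC g.2 hg (z := z) (hC ▸ z.2)
      rw [hξ.isClassFunction.mul_comm, ← hu, hξ.isClassFunction], Finset.sum_const,
      Finset.card_univ, ← Nat.card_eq_fintype_card, nsmul_eq_mul, hCp] at h1
    exact mul_left_cancel₀ hp0 h1

omit hp in
theorem Gen.zero_or {y : G} (hy : Gen x y) {m : IrrCharacter 𝐍 → ℕ} {ρ : ℕ} (h0 : ρ ≠ 0)
    (hρ : ∑ ψ ∈ Lin x, m ψ = ρ)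
    (h : IsIntegral ℤ ((∑ ψ ∈ Lin x, m ψ * ψ.1 ⟨y, hy.mem⟩) / ρ)) :
    ∑ ψ ∈ Lin x, m ψ * ψ.1 ⟨y, hy.mem⟩ = 0 ∨ ∃ ψ ∈ Lin x, m ψ = ρ := by
  classical
  let ε : (Σ ψ : Lin x, Fin (m ψ)) → ℂ := fun i => i.1.1.1 ⟨y, hy.mem⟩
  have h1 : ∑ i, ε i = ∑ ψ ∈ Lin x, m ψ * ψ.1 ⟨y, hy.mem⟩ := by
    rw [Fintype.sum_sigma, ← Finset.sum_coe_sort (Lin x)]
    simp [ε]
  have h2 : Fintype.card (Σ ψ : Lin x, Fin (m ψ)) = ρ := by
    rw [Fintype.card_sigma, ← hρ, ← Finset.sum_coe_sort (Lin x)]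
    simp
  have h3 : ∀ i, ε i ^ Nat.card 𝐍 = 1 := fun i => by
    obtain ⟨μ, hμ⟩ := i.1.1.2.isCharacter.exists_linear (Lin_one i.1.2)
    simp only [ε, hμ]
    rw [← Units.val_pow_eq_pow_val, ← map_pow, pow_card_eq_one', map_one, Units.val_one]
  have h4 : (ρ : ℂ) ≠ 0 := Nat.cast_ne_zero.2 h0
  rcases eq_zero_or_norm_eq_one_of_isIntegral_avg ε Nat.card_pos.ne' h3 (by rwa [h1, h2])
    with h5 | h5
  · rw [h1, h2, div_eq_zero_iff] at h5
    exact Or.inl (h5.resolve_right h4)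
  right
  have h6 := eq_of_norm_sum_eq_card ε (fun i => norm_eq_one_of_pow_eq_one Nat.card_pos.ne' (h3 i))
    (by rwa [norm_div, div_eq_one_iff_eq (by simpa [h2] using h0), Complex.norm_natCast] at h5)
  obtain ⟨ψ, hψ, h7⟩ := Finset.exists_ne_zero_of_sum_ne_zero (hρ.symm ▸ h0)
  refine ⟨ψ, hψ, ?_⟩
  rw [← hρ, Finset.sum_eq_single_of_mem ψ hψ]
  intro ψ' hψ' e
  by_contra h8
  exact e (hy.ext hψ' hψ (h6 ⟨⟨ψ', hψ'⟩, ⟨0, Nat.pos_of_ne_zero h8⟩⟩
    ⟨⟨ψ, hψ⟩, ⟨0, Nat.pos_of_ne_zero h7⟩⟩))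

theorem Gen.mul_fix {y : G} (hy : Gen x y) {P : Sylow p G} (hP : (P : Subgroup G) = 𝐏)
    (hx : orderOf x = p) (hC : 𝐂 = 𝐏) {ξ : G → ℂ} (hξ : IsCharacter G ξ) {c : ℂ}
    (hc : ∀ z ∈ 𝐏, z ≠ 1 → ξ z = c) {ρ : ℕ} (hρ : ξ 1 + (p - 1) * c = p * ρ)
    (hmin : ∀ ψ ∈ Lin x, classInner (indFun 𝐍 ψ.1) ξ ≠ 0 → indFun 𝐍 ψ.1 = ξ) :
    Nat.card (fixedBy (Sylow p G) y) * ξ y = ρ * ξ y := by
  obtain ⟨m, h1, h2, h3⟩ := exists_res hx hC hξ hc hρ
  have h4 := congrFun (indFun_restrict 𝐍 hξ.isClassFunction) y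
  rw [indN_eq_fix hP] at h4
  have h5 : indFun 𝐍 ((fun g : 𝐍 => ξ g) - ∑ ψ ∈ Lin x, (m ψ : ℂ) • ψ.1) y = 0 := by
    refine indFun_eq_zero _ _ _ fun a ha => ?_
    have h6 : a * y * a⁻¹ ∉ 𝐏 := fun h => by
      have h7 : orderOf (a * y * a⁻¹) = orderOf y := (MulAut.conj a).orderOf_eq y
      have h8 := eq_one_of_mem_zp hx h (h7 ▸ not_dvd_of_not_mem hx hC hy.mem hy.not_mem)
      rw [h8, orderOf_one, eq_comm, orderOf_eq_one_iff] at h7
      exact hy.not_mem (h7 ▸ one_mem _)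
    have := h3 ⟨_, ha⟩ h6
    simp only [Pi.sub_apply, Finset.sum_apply, Pi.smul_apply, smul_eq_mul]
    rw [← this, sub_self]
  rw [indFun_sub, indFun_sum, Finset.sum_congr rfl (g := fun ψ => (m ψ : ℂ) • ξ) fun ψ hψ => by
    rw [indFun_smul]
    by_cases h : m ψ = 0
    · simp [h]
    · rw [hmin ψ hψ (by rw [h1]; exact Nat.cast_ne_zero.2 h)],
    ← Finset.sum_smul, Pi.sub_apply, h4, ← Nat.cast_sum, h2] at h5
  simpa [sub_eq_zero] using h5

namespace Ctx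

variable {D : B0Data p x} {P : Sylow p G} {r A b : ℕ} (H : Ctx D P r A b)
  (hC : centralizer ({x} : Set G) = zpowers x)
include H hC

omit H in
theorem he : (𝐏).relIndex 𝐍 = D.e := by rw [← D.he, hC]

theorem card_G : Nat.card G = p * D.e * (r * p + 1) := by
  rw [← card_mul_index 𝐍, card_normalizer H.hx, he hC (D := D), H.hn]

theorem indP_one : indFun 𝐏 (fun _ => 1) 1 = (D.e * (r * p + 1) : ℕ) := by
  rw [indFun_one, ← hC, D.index_C, H.hn, mul_one]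

theorem coeff_one {c : IrrCharacter G → ℕ}
    (hc : ∀ χ : IrrCharacter G, classInner (indFun 𝐏 (fun _ => 1)) χ = c χ) :
    c (irrOne G) * charDegree (irrOne G : G → ℂ) = 1 := by
  have := D.mul_inner_X H.hx H.one
  rw [hc, D.ε_irrOne H.hx H.one, cast_charDegree (irrOne G).2.isCharacter, irrOne_apply] at this
  have h1 : c (irrOne G) = 1 := by
    exact_mod_cast mul_left_cancel₀ (Nat.cast_ne_zero.2 hp.out.ne_zero)
      (by linear_combination this : (p : ℂ) * c _ = p * 1)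
  rw [h1, charDegree_eq_of_eq (n := 1) (by simp [irrOne_apply])]

theorem lt_of_degA {χ : IrrCharacter G} (hχ : χ ∈ D.A)
    (h : charDegree (χ : G → ℂ) = r * p + 1) : r + 1 < D.e := by
  classical
  obtain ⟨h1, h2, h3⟩ := D.mem_A.1 hχ
  have hα : IsCharacter G (indFun 𝐏 (fun _ => 1)) := isCharacter_indFun _ isCharacter_one
  obtain ⟨c, hc, -⟩ := hα.exists_coeff
  have h4 := sum_coeff_deg_le hα hc (H.indP_one hC) {irrOne G, χ}
  have h5 : c χ = r + 1 := by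
    have := D.mul_inner_X H.hx h1
    rw [hc, h3, h] at this
    push_cast at this
    exact_mod_cast mul_left_cancel₀ (Nat.cast_ne_zero.2 hp.out.ne_zero)
      (by linear_combination this : (p : ℂ) * c _ = p * (r + 1))
  rw [Finset.sum_pair h2.symm, H.coeff_one hC hc, h5, h] at h4
  exact Nat.lt_of_mul_lt_mul_right (a := r * p + 1) (by omega)

theorem lt_of_degY (hδ : D.δ = -1) (h : D.Y.card * D.d = r * p + 1) : r + 2 < p := by
  classical
  have hα : IsCharacter G (indFun 𝐏 (fun _ => 1)) := isCharacter_indFun _ isCharacter_one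
  obtain ⟨c, hc, -⟩ := hα.exists_coeff
  have h4 := sum_coeff_deg_le hα hc (H.indP_one hC) (insert (irrOne G) D.Y)
  have h5 : ∑ θ ∈ D.Y, c θ = r + 1 := by
    have := D.mul_inner_Θ H.hx
    simp only [hc] at this
    rw [hδ, h, ← Nat.cast_sum] at this
    generalize ∑ θ ∈ D.Y, c θ = s at this
    push_cast at this
    exact_mod_cast mul_left_cancel₀ (Nat.cast_ne_zero.2 hp.out.ne_zero)
      (by linear_combination this : (p : ℂ) * s = p * (r + 1))
  rw [Finset.sum_insert H.not_mem_Y, H.coeff_one hC hc,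
    Finset.sum_congr rfl fun θ hθ => by rw [D.deg_Y hθ], ← Finset.sum_mul, h5, ← h] at h4
  have h6 := H.te
  have h7 : r + 1 < D.Y.card * D.e :=
    Nat.lt_of_mul_lt_mul_right (a := D.d) (by nlinarith)
  omega

theorem fix_ne {y : G} (hy : Gen x y) (h : r + 2 < p) :
    Nat.card (fixedBy (Sylow p G) y) ≠ r + 1 := by
  intro h1
  have h2 := hy.fix_dvd H.hP H.hx hC
  rw [h1, H.hn] at h2
  have h3 : (r + 1).Coprime p :=
    (hp.out.coprime_iff_not_dvd.2 (Nat.not_dvd_of_pos_of_lt (by omega) (by omega))).symm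
  have h4 := h3.dvd_of_dvd_mul_left h2
  have h5 : r + 1 ∣ p - 1 := by
    have h6 : (r + 1) * p = r * p + 1 + (p - 1) := by rw [add_mul]; omega
    exact (Nat.dvd_add_right h4).1 (h6 ▸ dvd_mul_right _ _)
  obtain ⟨k, hk⟩ := h5
  have h7 := H.num.lt_two_r
  rcases k with _ | _ | k
  · omega
  · omega
  · have : (r + 1) * 2 ≤ (r + 1) * (k + 1 + 1) := Nat.mul_le_mul_left _ (by omega)
    omega

theorem zero_of_big {y : G} (hy : Gen x y) (h : r + 2 < p) {ξ : G → ℂ} (hξ : IsCharacter G ξ)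
    (hc : ∀ z ∈ 𝐏, z ≠ 1 → ξ z = 1) (h1 : ξ 1 = (r * p + 1 : ℕ))
    (hmin : ∀ φ : G → ℂ, IsCharacter G φ → (∀ g, p ∣ orderOf g → φ g = 1) → φ 1 = ξ 1 →
      classInner φ ξ ≠ 0 → φ = ξ) : ξ y = 0 := by
  have h2 := hy.mul_fix H.hP H.hx hC hξ hc (ρ := r + 1) (by rw [h1]; push_cast; ring)
    fun ψ hψ h3 => hmin _ (isCharacter_indFun _ ψ.2.isCharacter)
      (fun g hg => indFun_of_dvd H.hP H.hx (Lin_C hψ) hg)
      (by rw [indFun_one, Lin_one hψ, H.hn, h1, mul_one]) h3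
  by_contra h3
  exact H.fix_ne hC hy h (Nat.cast_injective (mul_right_cancel₀ h3 h2))

omit hC in
theorem eq_Θ {φ : G → ℂ} (hφ : IsCharacter G φ) (h1 : ∀ g, p ∣ orderOf g → φ g = 1)
    (h2 : φ 1 = D.Θ 1) (h3 : classInner φ D.Θ ≠ 0) : φ = D.Θ := by
  classical
  obtain ⟨c, hc, -⟩ := hφ.exists_coeff
  rw [B0Data.Θ, classInner_sum_right] at h3
  obtain ⟨θ, hθ, h4⟩ := Finset.exists_ne_zero_of_sum_ne_zero h3
  have h5 : IsCharacter G (φ - D.Θ) := by
    refine (hφ.isGen.sub D.isCharacter_Θ.isGen).isCharacter_of_nonneg fun χ hχ => ?_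
    rw [classInner_sub_left, B0Data.Θ, classInner_sum_left]
    have h6 : ∑ θ ∈ D.Y, classInner (θ : G → ℂ) χ = if (⟨χ, hχ⟩ : IrrCharacter G) ∈ D.Y then 1
        else 0 := by
      rw [← Finset.sum_ite_eq' D.Y ⟨χ, hχ⟩ fun _ => (1 : ℂ)]
      exact Finset.sum_congr rfl fun θ _ => irr_inner θ ⟨χ, hχ⟩
    rw [h6, hc ⟨χ, hχ⟩]
    split_ifs with h7
    · rw [D.inner_Y_eq H.one hφ h1 hθ h7, hc, Nat.cast_ne_zero] at h4
      have : (1 : ℝ) ≤ c ⟨χ, hχ⟩ := by exact_mod_cast Nat.pos_of_ne_zero h4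
      simpa using this
    · simp
  exact sub_eq_zero.1 (h5.eq_zero_of_one (by rw [Pi.sub_apply, h2, sub_self]))

omit hC in
theorem isIntegral_of {y : G} (hy : Gen x y) {w : ℂ} {z : ℕ}
    (h : IsIntegral ℤ ((centralizer ({y} : Set G)).index * w / z)) :
    IsIntegral ℤ ((p * (r * p + 1) : ℕ) * w / z) := by
  obtain ⟨k, hk⟩ := hy.index_dvd H.hx
  rw [← H.hn, hk]
  rw [Nat.cast_mul, mul_comm _ (k : ℂ), mul_assoc, mul_div_assoc]
  exact (isIntegral_natCast k).mul h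

omit hC in
theorem isIntegral_A {y : G} (hy : Gen x y) {w : ℂ} (hw : IsIntegral ℤ w)
    (h : IsIntegral ℤ ((centralizer ({y} : Set G)).index * w / (A * p + 1 : ℕ))) :
    IsIntegral ℤ (w / (A + 1 : ℕ)) := by
  have h1 := H.isIntegral_of hy h
  have h2 : p.Coprime (A + 1) := by rw [H.num.hp]; simp
  refine isIntegral_div_of_coprime (k := p * (p + (A + 1))) (by omega)
    (Nat.Coprime.mul_left h2 (by simpa using h2)) hw ?_
  convert h1 using 1
  rw [H.num.n_eq, H.num.z1_eq]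
  have : ((A * b + 1 : ℕ) : ℂ) ≠ 0 := Nat.cast_ne_zero.2 (by omega)
  have : ((A + 1 : ℕ) : ℂ) ≠ 0 := Nat.cast_ne_zero.2 (by omega)
  rw [Nat.cast_mul (A + 1), Nat.cast_mul p, Nat.cast_mul p, Nat.cast_mul (A * b + 1), add_assoc]
  field_simp

omit hC in
theorem isIntegral_B {y : G} (hy : Gen x y) {w : ℂ} (hw : IsIntegral ℤ w)
    (h : IsIntegral ℤ ((centralizer ({y} : Set G)).index * w / (b * (p + A + 1) : ℕ))) :
    IsIntegral ℤ (w / b) := by
  have h1 := H.isIntegral_of hy h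
  have h2 : p.Coprime b := by rw [H.num.hp]; simp
  have h3 := H.num.hb
  refine isIntegral_div_of_coprime (k := p * (A * b + 1)) (by omega)
    (Nat.Coprime.mul_left h2 (by simp)) hw ?_
  convert h1 using 1
  rw [H.num.n_eq]
  have : ((p + A + 1 : ℕ) : ℂ) ≠ 0 := Nat.cast_ne_zero.2 (by omega)
  have : (b : ℂ) ≠ 0 := Nat.cast_ne_zero.2 (by omega)
  rw [Nat.cast_mul b, Nat.cast_mul p, Nat.cast_mul p, Nat.cast_mul (A * b + 1)]
  field_simp

theorem inner_eq_zero {ξ : G → ℂ} (hξ : IsCharacter G ξ) (hc : ∀ z ∈ 𝐏, z ≠ 1 → ξ z = -1)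
    (h1 : ξ 1 = (p - 1 : ℕ)) :
    (∀ ψ ∈ Lin x, classInner (indFun 𝐍 ψ.1) ξ = 0) ∧ ∀ y ∈ 𝐍, y ∉ 𝐏 → ξ y = 0 := by
  obtain ⟨m, h2, h3, h4⟩ := exists_res H.hx hC hξ hc (ρ := 0)
    (by rw [h1, Nat.cast_sub hp.out.one_le]; simp)
  have h5 := Finset.sum_eq_zero_iff.1 h3
  exact ⟨fun ψ hψ => by rw [h2, h5 ψ hψ, Nat.cast_zero], fun y hy hy' => by
    rw [h4 ⟨y, hy⟩ hy', Finset.sum_eq_zero fun ψ hψ => by rw [h5 ψ hψ]; simp]⟩

theorem zero_B {y : G} (hy : Gen x y) {χ : IrrCharacter G} (hχ : χ ∈ D.B) :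
    (χ : G → ℂ) y = 0 := by
  obtain ⟨h1, -, h3⟩ := D.mem_B.1 hχ
  have hc : ∀ z ∈ 𝐏, z ≠ 1 → (χ : G → ℂ) z = -1 := fun z hz hz1 => by
    rw [D.valX' h1 hz hz1, h3]; simp
  rcases H.degB hχ with h | h
  · exact (H.inner_eq_zero hC χ.2.isCharacter hc
      (by rw [← h, cast_charDegree χ.2.isCharacter])).2 y hy.mem hy.not_mem
  have h4 : ((b * (p + A + 1) + 1 : ℕ) : ℂ) = ((b + 1) * p : ℕ) := by rw [H.num.z2_eq]
  obtain ⟨m, h5, h6, h7⟩ := exists_res H.hx hC χ.2.isCharacter hc (ρ := b) (by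
    rw [← cast_charDegree χ.2.isCharacter, h]
    push_cast at h4 ⊢
    linear_combination h4)
  have hb := H.num.hb
  have h8 := isIntegral_centralChar χ.2 y
  rw [centralChar, ← cast_charDegree χ.2.isCharacter, h] at h8
  have h9 := H.isIntegral_B hy (χ.2.isCharacter.isIntegral y) h8
  rw [h7 ⟨y, hy.mem⟩ hy.not_mem] at h9 ⊢
  refine (hy.zero_or (by omega) h6 h9).resolve_right ?_
  rintro ⟨ψ, hψ, h10⟩
  have hφ := isCharacter_indFun _ ψ.2.isCharacter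
  obtain ⟨c, hc', -⟩ := hφ.exists_coeff
  have h11 := sum_coeff_deg_le hφ hc' (k := r * p + 1)
    (by rw [indFun_one, Lin_one hψ, H.hn, mul_one]) {χ}
  have h12 : c χ = b := by
    have := h5 ψ
    rw [hc', h10] at this
    exact_mod_cast this
  rw [Finset.sum_singleton, h12, h, H.num.n_eq, ← mul_assoc] at h11
  have h13 := Nat.le_of_mul_le_mul_right h11 (by omega)
  have := H.num.hA
  nlinarith

theorem zero_A {y : G} (hy : Gen x y) {χ : IrrCharacter G} (hχ : χ ∈ D.A) :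
    (χ : G → ℂ) y = 0 := by
  classical
  obtain ⟨h1, -, h3⟩ := D.mem_A.1 hχ
  have hc : ∀ z ∈ 𝐏, z ≠ 1 → (χ : G → ℂ) z = 1 := fun z hz hz1 => by
    rw [D.valX' h1 hz hz1, h3]; simp
  rcases H.degA hχ with h | h
  swap
  · have h4 := H.lt_of_degA hC hχ h
    have h5 := H.te
    have h6 := Nat.le_mul_of_pos_left D.e D.card_Y_pos
    exact H.zero_of_big hC hy (by omega) χ.2.isCharacter hc
      (by rw [← h, cast_charDegree χ.2.isCharacter])
      fun φ hφ _ h7 h8 => hφ.eq_of_inner_ne_zero_of_one_eq χ.2 h8 h7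
  obtain ⟨m, h5, h6, h7⟩ := exists_res H.hx hC χ.2.isCharacter hc (ρ := A + 1) (by
    rw [← cast_charDegree χ.2.isCharacter, h]
    push_cast
    ring)
  have h8 := isIntegral_centralChar χ.2 y
  rw [centralChar, ← cast_charDegree χ.2.isCharacter, h] at h8
  have h9 := H.isIntegral_A hy (χ.2.isCharacter.isIntegral y) h8
  rw [h7 ⟨y, hy.mem⟩ hy.not_mem] at h9 ⊢
  refine (hy.zero_or (by omega) h6 h9).resolve_right ?_
  rintro ⟨ψ, hψ, h10⟩
  have hφ := isCharacter_indFun _ ψ.2.isCharacter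
  obtain ⟨c, hc', -⟩ := hφ.exists_coeff
  have h11 := sum_coeff_deg_le hφ hc' (k := r * p + 1)
    (by rw [indFun_one, Lin_one hψ, H.hn, mul_one]) (D.X ∪ D.Y)
  have h12 : c χ = A + 1 := by
    have := h5 ψ
    rw [hc', h10] at this
    exact_mod_cast this
  have h13 := H.sum_coeff hc' fun g hg => indFun_of_dvd H.hP H.hx (Lin_C hψ) hg
  rw [Finset.sum_union D.disj, Finset.sum_congr (s₁ := D.Y) rfl fun θ hθ => by rw [D.deg_Y hθ],
    ← Finset.sum_mul] at h11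
  set z : ℕ := b * (p + A + 1) with hz
  have h14 : (c χ : ℤ) * (charDegree (χ : G → ℂ) + D.ε χ * z)
      ≤ ∑ χ ∈ D.X, (c χ : ℤ) * (charDegree (χ : G → ℂ) + D.ε χ * z) := by
    refine Finset.single_le_sum (f := fun χ => (c χ : ℤ) * (charDegree (χ : G → ℂ) + D.ε χ * z))
      (fun χ' hχ' => ?_) h1
    rcases D.sign χ' hχ' with h15 | h15
    · rw [h15]; positivity
    have h16 : χ' ∈ D.B := D.mem_B.2 ⟨hχ', fun e => by
      rw [e, D.ε_irrOne H.hx H.one] at h15; omega, h15⟩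
    rcases H.degB h16 with h17 | h17
    · have := (H.inner_eq_zero hC χ'.2.isCharacter (fun z hz hz1 => by
        rw [D.valX' hχ' hz hz1, h15]; simp)
        (by rw [← h17, cast_charDegree χ'.2.isCharacter])).1 ψ hψ
      rw [hc', Nat.cast_eq_zero] at this
      simp [this]
    · rw [h15, h17]; simp [hz]
  have h15 : (0 : ℤ) ≤ (∑ θ ∈ D.Y, c θ : ℕ) * ((D.Y.card * D.d : ℕ) - D.δ * z) := by
    obtain ⟨u, -, ⟨h16, -⟩ | ⟨h16, -⟩ | ⟨h16, h17, -⟩ | ⟨h16, h17, -⟩, -⟩ := H.deg_eq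
    · rw [h16]; exact mul_nonneg (by positivity) (by omega)
    · rw [h16]; exact mul_nonneg (by positivity) (by omega)
    · have := (H.inner_eq_zero hC D.isCharacter_Θ (fun z hz hz1 => by
        rw [D.Θ_val hz hz1, h16]; simp) (by rw [D.Θ_one, h17])).1 ψ hψ
      rw [B0Data.Θ, classInner_sum_right] at this
      simp only [hc'] at this
      rw [← Nat.cast_sum, Nat.cast_eq_zero] at this
      simp [this]
    · rw [h16, h17]; simp [hz]
  have h16 : ∑ χ ∈ D.X, (c χ : ℤ) * (charDegree (χ : G → ℂ) + D.ε χ * z)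
      = (∑ χ ∈ D.X, c χ * charDegree (χ : G → ℂ) : ℕ) + z * ∑ χ ∈ D.X, D.ε χ * c χ := by
    push_cast
    rw [Finset.mul_sum, ← Finset.sum_add_distrib]
    exact Finset.sum_congr rfl fun _ _ => by ring
  rw [h16, h12, h, h3] at h14
  generalize ∑ χ ∈ D.X, c χ * charDegree (χ : G → ℂ) = S₁ at *
  generalize ∑ χ ∈ D.X, D.ε χ * c χ = S₂ at *
  generalize ∑ θ ∈ D.Y, c θ = S₃ at *
  have ht : (0 : ℤ) < D.Y.card := by exact_mod_cast D.card_Y_pos
  have h17 : (S₁ : ℤ) + S₃ * D.d ≤ r * p + 1 := by exact_mod_cast h11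
  have h18 : ((A + 1) * (A * p + 1 + z) : ℤ) ≤ r * p + 1 + z := by
    refine le_of_mul_le_mul_left ?_ ht
    have h19 := mul_le_mul_of_nonneg_left h14 ht.le
    have h20 := mul_le_mul_of_nonneg_left h17 ht.le
    push_cast at h15 h19 ⊢
    have h21 := congrArg (· * (z : ℤ)) h13
    beta_reduce at h21
    linarith
  have h19 : (A + 1) * (A * p + 1 + z) ≤ r * p + 1 + z := by exact_mod_cast h18
  have h20 := H.num.z2_eq
  have h21 := H.num.hA
  have h22 := H.num.hr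
  have h23 : A * ((b + 1) * p) = A * (z + 1) := by rw [hz, h20]
  have h24 : p ≤ A * p := Nat.le_mul_of_pos_left _ h21
  have h25 : A * p ≤ A * (A * p) := Nat.le_mul_of_pos_left _ h21
  have := hp.out.pos
  rw [h22] at h19
  nlinarith

/-- the possible values of `t` -/
theorem t_cases : (D.δ = -1 ∧ D.Y.card * D.d = A * p + 1 ∧ D.Y.card = A + 1) ∨
    (D.δ = 1 ∧ D.Y.card * D.d = b * (p + A + 1) ∧ D.Y.card = b) := by
  obtain ⟨y, hy⟩ := exists_gen H.hx hC (by rw [he hC (D := D)]; have := H.two_le_e; omega)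
  have hyp := not_dvd_of_not_mem H.hx hC hy.mem hy.not_mem
  obtain ⟨θ, hθ⟩ := D.Y_nonempty
  have h1 := D.rel' H.one H.hx hθ hyp
  rw [Finset.sum_eq_zero fun χ hχ => H.zero_A hC hy hχ,
    Finset.sum_eq_zero fun χ hχ => H.zero_B hC hy hχ, add_zero, sub_zero] at h1
  have h2 := D.Θ_regular hθ hyp
  have ht0 : (D.Y.card : ℂ) ≠ 0 := Nat.cast_ne_zero.2 D.card_Y_pos.ne'
  have h3 : D.Θ y ≠ 0 := by
    rw [h2]
    exact mul_ne_zero ht0 fun h => by simp [h] at h1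
  have h4 := isIntegral_centralChar θ.2 y
  rw [centralChar, D.degY θ hθ, ← mul_div_mul_left _ _ ht0, mul_left_comm, ← Nat.cast_mul] at h4
  have h5 : D.Y.card.Coprime p := by
    have : D.Y.card.Coprime (D.Y.card * D.e + 1) := by simp
    rwa [H.te] at this
  have h6 := H.te
  obtain ⟨u, -, ⟨h16, h17, -⟩ | ⟨h16, h17, -⟩ | ⟨h16, h17, -⟩ | ⟨h16, h17, -⟩, -⟩ := H.deg_eq
  · refine Or.inl ⟨h16, h17, Nat.dvd_antisymm ?_ ?_⟩
    · refine h5.dvd_of_dvd_mul_right ((Nat.dvd_add_left (Dvd.intro _ rfl : _ ∣ D.Y.card * D.e)).1 ?_)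
      rw [show (A + 1) * p + D.Y.card * D.e = D.Y.card * D.d + 2 * (D.Y.card * D.e) by
        rw [h17, add_mul]; omega]
      exact dvd_add (dvd_mul_right _ _) ((dvd_mul_right _ _).mul_left _)
    · rw [h17] at h4
      have h7 := (H.isIntegral_A hy ((isIntegral_natCast _).mul (θ.2.isCharacter.isIntegral y))
        h4).neg
      rw [h16] at h1
      rw [show (θ : G → ℂ) y = -1 by push_cast at h1; linear_combination -h1] at h7
      exact dvd_of_isIntegral_div (by omega) (by simpa [neg_div] using h7)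
  · exact absurd (H.zero_of_big hC hy (H.lt_of_degY hC h16 h17) D.isCharacter_Θ
      (fun z hz hz1 => by rw [D.Θ_val hz hz1, h16]; simp) (by rw [D.Θ_one, h17])
      fun φ hφ h7 h8 h9 => H.eq_Θ hφ h7 h8 h9) h3
  · exact absurd ((H.inner_eq_zero hC D.isCharacter_Θ (fun z hz hz1 => by
      rw [D.Θ_val hz hz1, h16]; simp) (by rw [D.Θ_one, h17])).2 y hy.mem hy.not_mem) h3
  · refine Or.inr ⟨h16, h17, Nat.dvd_antisymm ?_ ?_⟩
    · refine h5.dvd_of_dvd_mul_right ((Nat.dvd_add_left (Dvd.intro _ rfl : _ ∣ D.Y.card * D.e)).1 ?_)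
      have h7 := H.num.z2_eq
      rw [show b * p + D.Y.card * D.e = D.Y.card * D.d by rw [h17]; rw [add_mul] at h7; omega]
      exact dvd_mul_right _ _
    · rw [h17] at h4
      have h7 := H.isIntegral_B hy ((isIntegral_natCast _).mul (θ.2.isCharacter.isIntegral y)) h4
      rw [h16] at h1
      rw [show (θ : G → ℂ) y = 1 by simpa using h1] at h7
      have := H.num.hb
      exact dvd_of_isIntegral_div (by omega) (by simpa using h7)

end Ctx

end Cfsg.Agent.FewS
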