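import Mathlib
import Cfsg.Agent.FewS.Fix

/-!
In a group acting faithfully on fewer than `p²` Sylow `p`-subgroups (of order `p`) the
centralizers of distinct Sylow subgroups intersect trivially.
-/

set_option autoImplicit false
set_option linter.style.haveILetI false
set_option linter.unusedSectionVars false

namespace Cfsg.Agent.FewS

open Subgroup MulAction Cfsg.Agent.Small Finset
open scoped Pointwise

variable {G : Type*} [Group G] [Finite G] {p : ℕ} [hp : Fact p.Prime]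

/-- the conjugates of `W` -/
def Ln (W : Subgroup G) : Type _ := {U : Subgroup G // ∃ g : G, U = MulAut.conj g • W}

namespace Ln

variable {W : Subgroup G}

instance : Finite (Ln W) := inferInstanceAs (Finite {_U : Subgroup G // _})

instance : MulAction G (Ln W) where
  smul g U := ⟨MulAut.conj g • U.1, by
    obtain ⟨h, e⟩ := U.2
    exact ⟨g * h, by rw [e, map_mul, mul_smul]⟩⟩
  one_smul U := Subtype.ext (by
    change MulAut.conj (1 : G) • U.1 = U.1
    rw [map_one, one_smul])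
  mul_smul g h U := Subtype.ext (by
    change MulAut.conj (g * h) • U.1 = MulAut.conj g • MulAut.conj h • U.1
    rw [map_mul, mul_smul])

theorem mem_smul {g a : G} {U : Ln W} : a ∈ (g • U).1 ↔ g⁻¹ * a * g ∈ U.1 := by
  change a ∈ MulAut.conj g • U.1 ↔ _
  rw [mem_pointwise_smul_iff_inv_smul_mem]
  simp [mul_assoc]

/-- the base line -/
def base (W : Subgroup G) : Ln W := ⟨W, 1, by rw [map_one, one_smul]⟩

theorem exists_smul (U : Ln W) : ∃ g : G, U = g • base W := by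
  obtain ⟨g, e⟩ := U.2
  exact ⟨g, Subtype.ext e⟩

theorem card_eq (U : Ln W) : Nat.card U.1 = Nat.card W := by
  obtain ⟨g, e⟩ := U.2
  rw [e]
  exact (Nat.card_congr (equivSMul (MulAut.conj g) W).toEquiv).symm

theorem inc_smul {g : G} {U : Ln W} {R : Sylow p G} :
    (g • U).1 ≤ CS (g • R) ↔ U.1 ≤ CS R := by
  constructor
  · intro h a ha
    have := mem_CS_smul.1 (h (mem_smul.2 (show g⁻¹ * (g * a * g⁻¹) * g ∈ U.1 by
      simpa [mul_assoc] using ha)))
    simpa [mul_assoc] using this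
  · intro h a ha
    exact mem_CS_smul.2 (h (mem_smul.1 ha))

theorem smul_eq_of_mem {U : Ln W} {a : G} (h : a ∈ U.1) : a • U = U :=
  Subtype.ext (Subgroup.ext fun b => by
    rw [mem_smul, mul_mem_cancel_right h, mul_mem_cancel_left (inv_mem h)])

theorem smul_eq_of_inc {U : Ln W} {R : Sylow p G} (h : U.1 ≤ CS R) {z : G}
    (hz : z ∈ (R : Subgroup G)) : z • U = U := by
  have h1 : ∀ z ∈ (R : Subgroup G), ∀ b ∈ U.1, z⁻¹ * b * z ∈ U.1 := fun z hz b hb => by
    rwa [mul_assoc, ← h hb z hz, inv_mul_cancel_left]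
  refine Subtype.ext (Subgroup.ext fun b => ?_)
  rw [mem_smul]
  exact ⟨fun hb => by simpa [mul_assoc] using h1 _ (inv_mem hz) _ hb, h1 z hz b⟩

end Ln

theorem ti_arith {p k ν m j s r : ℕ} (hk : k = ν + 1 + j * p) (hm : m = s * p + 1) (hr : r < p)
    (hs : 0 < s) (h1 : k * m = (r * p + 1) * (ν + 1)) (h2 : m * ν + 1 ≤ k) :
    k = 1 ∨ (s = 1 ∧ j = ν ∧ 0 < ν) := by
  subst hk hm
  have hp : 0 < p := by omega
  have h3 : j * (s * p + 1) + (ν + 1) * s = r * (ν + 1) := by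
    apply Nat.eq_of_mul_eq_mul_left hp
    nlinarith
  have h4 : s * ν ≤ j := by
    apply Nat.le_of_mul_le_mul_left _ hp
    nlinarith
  have h5 : j * s ≤ ν := by
    by_contra h6
    have h7 : (ν + 1) * p ≤ j * s * p := Nat.mul_le_mul_right _ (by omega)
    have h8 : r * (ν + 1) ≤ p * (ν + 1) := Nat.mul_le_mul_right _ hr.le
    nlinarith
  by_cases hν : ν = 0
  · left
    have : j = 0 := by nlinarith
    simp [hν, this]
  · right
    have h6 : s = 1 := by
      by_contra h7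
      have h8 : j * 2 ≤ j * s := Nat.mul_le_mul_left _ (by omega)
      have h9 : 2 * ν ≤ s * ν := Nat.mul_le_mul_right _ (by omega)
      omega
    subst h6
    omega

theorem inf_eq_bot (hc : ∀ R : Sylow p G, Nat.card (R : Subgroup G) = p)
    (hf : ∀ g : G, (∀ R : Sylow p G, g • R = R) → g = 1) (h : Nat.card (Sylow p G) < p ^ 2)
    {P₀ R₀ : Sylow p G} (h₀ : P₀ ≠ R₀) : CS P₀ ⊓ CS R₀ = ⊥ := by
  classical
  haveI : Nonempty {a : Sylow p G × Sylow p G // a.1 ≠ a.2} := ⟨⟨(P₀, R₀), h₀⟩⟩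
  obtain ⟨⟨⟨P₁, R₁⟩, h₁⟩, hmax⟩ := Finite.exists_max
    (fun a : {a : Sylow p G × Sylow p G // a.1 ≠ a.2} => Nat.card ↥(CS a.1.1 ⊓ CS a.1.2))
  simp only at h₁ hmax
  set W := CS P₁ ⊓ CS R₁ with hW
  by_contra hne
  have hW1 : W ≠ ⊥ := by
    intro e
    have := hmax ⟨(P₀, R₀), h₀⟩
    rw [e, card_bot] at this
    exact hne (card_eq_one.1 (le_antisymm this Nat.card_pos))
  have hWp : ¬ p ∣ Nat.card W := not_dvd_card_inf hc h₁
  haveI := Fintype.ofFinite (Sylow p G)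
  haveI := Fintype.ofFinite (Ln W)
  have heq : ∀ (U : Ln W) (R R' : Sylow p G), R ≠ R' → U.1 ≤ CS R → U.1 ≤ CS R' →
      U.1 = CS R ⊓ CS R' := fun U R R' e h1 h2 =>
    eq_of_le_of_card_ge (le_inf h1 h2) (U.card_eq ▸ hmax ⟨(R, R'), e⟩)
  have huniq : ∀ (U U' : Ln W) (R R' : Sylow p G), U ≠ U' → U.1 ≤ CS R → U.1 ≤ CS R' →
      U'.1 ≤ CS R → U'.1 ≤ CS R' → R = R' := fun U U' R R' e h1 h2 h3 h4 => by
    by_contra h5
    exact e (Subtype.ext ((heq U R R' h5 h1 h2).trans (heq U' R R' h5 h3 h4).symm))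
  let F : Ln W → Finset (Sylow p G) := fun U => univ.filter fun R => U.1 ≤ CS R
  let L : Sylow p G → Finset (Ln W) := fun R => univ.filter fun U => U.1 ≤ CS R
  have hF : ∀ U R, R ∈ F U ↔ U.1 ≤ CS R := fun U R => by simp [F]
  have hL : ∀ R U, U ∈ L R ↔ U.1 ≤ CS R := fun U R => by simp [L]
  set m := (F (Ln.base W)).card with hm
  set ν' := (L P₁).card with hν
  have hFm : ∀ U, (F U).card = m := by
    intro U
    obtain ⟨g, rfl⟩ := U.exists_smul
    exact (card_equiv (MulAction.toPerm g) fun R => by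
      rw [hF, hF, toPerm_apply, Ln.inc_smul]).symm
  have hLν : ∀ R, (L R).card = ν' := by
    intro R
    obtain ⟨g, rfl⟩ := exists_smul_eq G P₁ R
    exact (card_equiv (MulAction.toPerm g) fun U => by
      rw [hL, hL, toPerm_apply, Ln.inc_smul]).symm
  have hcount : Fintype.card (Ln W) * m = Fintype.card (Sylow p G) * ν' :=
    card_mul_eq_card_mul (fun (U : Ln W) (R : Sylow p G) => U.1 ≤ CS R)
      (fun U _ => hFm U) fun R _ => hLν R
  have hsub : ∀ (R : Sylow p G) (U : Ln W), (∀ z ∈ (R : Subgroup G), z • U = U) →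
      m ≡ Nat.card {Q : Sylow p G // U.1 ≤ CS Q ∧ Q = R} [MOD p] := by
    intro R U hU
    let S : SubMulAction (R : Subgroup G) (Sylow p G) := ⟨{Q | U.1 ≤ CS Q}, fun z Q hQ => by
      have := (Ln.inc_smul (g := (z : G))).2 hQ
      rwa [hU z z.2] at this⟩
    have h1 := R.2.card_modEq_card_fixedPoints S
    have h2 : Nat.card S = m := by
      rw [← hFm U, ← Nat.card_eq_finsetCard]
      exact Nat.card_congr (Equiv.subtypeEquivRight fun Q => (hF U Q).symm)
    rw [h2] at h1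
    refine h1.trans (Nat.ModEq.refl _ |>.trans (by
      rw [Nat.card_congr (β := {Q : Sylow p G // U.1 ≤ CS Q ∧ Q = R})]
      refine (Equiv.subtypeSubtypeEquivSubtypeExists _ _).trans
        (Equiv.subtypeEquivRight fun Q => ⟨?_, ?_⟩)
      · rintro ⟨h3, h4⟩
        obtain ⟨z, hz, hz1⟩ := exists_ne_one hc R
        exact ⟨h3, (eq_of_smul hc hz hz1 (congrArg Subtype.val (h4 ⟨z, hz⟩))).symm⟩
      · rintro ⟨h3, rfl⟩
        exact ⟨h3, fun z => Subtype.ext (smul_eq_of_mem_CS (le_CS hc Q z.2))⟩))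
  have hm1 : m ≡ 1 [MOD p] := by
    have := hsub P₁ (Ln.base W) fun z hz => Ln.smul_eq_of_inc inf_le_left hz
    rwa [Nat.card_eq_one_iff_exists.2 ⟨⟨P₁, inf_le_left, rfl⟩, fun Q => Subtype.ext Q.2.2⟩] at this
  have hfix : ∀ (R : Sylow p G) (U : Ln W), ∀ z ∈ (R : Subgroup G), z ≠ 1 → z • U = U →
      U.1 ≤ CS R := by
    intro R U z hz hz1 hU
    by_contra h1
    have h2 := hsub R U fun w hw => by
      obtain ⟨k, rfl⟩ := mem_zpowers_of_mem hc hz hz1 hw
      exact (stabilizer G U).zpow_mem hU k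
    haveI : IsEmpty {Q : Sylow p G // U.1 ≤ CS Q ∧ Q = R} := ⟨fun Q => h1 (Q.2.2 ▸ Q.2.1)⟩
    rw [Nat.card_of_isEmpty] at h2
    have := h2.symm.trans hm1
    exact hp.out.one_lt.ne' (Nat.dvd_one.1 ((Nat.modEq_iff_dvd' zero_le_one).1 this))
  have hk : ν' ≡ Fintype.card (Ln W) [MOD p] := by
    have h1 := P₁.2.card_modEq_card_fixedPoints (Ln W)
    rw [Nat.card_eq_fintype_card] at h1
    refine Nat.ModEq.trans ?_ h1.symm
    rw [hν, ← Nat.card_eq_finsetCard, Nat.card_congr (β := fixedPoints (P₁ : Subgroup G) (Ln W))]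
    refine Equiv.subtypeEquivRight fun U => ?_
    rw [hL]
    obtain ⟨z, hz, hz1⟩ := exists_ne_one hc P₁
    exact ⟨fun h2 w => Ln.smul_eq_of_inc h2 w.2, fun h2 => hfix _ _ z hz hz1 (h2 ⟨z, hz⟩)⟩
  obtain ⟨j, hj⟩ := (Nat.modEq_iff_dvd' (card_le_univ _)).1 hk
  have hν0 : 0 < ν' := card_pos.2 ⟨Ln.base W, (hL _ _).2 inf_le_left⟩
  obtain ⟨ν, hν1⟩ : ∃ ν, ν' = ν + 1 := ⟨_, (Nat.succ_pred_eq_of_pos hν0).symm⟩
  have hm2 : 1 < m := one_lt_card.2 ⟨P₁, (hF _ _).2 inf_le_left, R₁, (hF _ _).2 inf_le_right, h₁⟩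
  obtain ⟨s, hs⟩ := (Nat.modEq_iff_dvd' hm2.le).1 hm1.symm
  obtain ⟨r, hr⟩ := (Nat.modEq_iff_dvd' Nat.card_pos).1 (card_sylow_modEq_one p G).symm
  have hn0 : 0 < Nat.card (Sylow p G) := Nat.card_pos
  have hn : Fintype.card (Sylow p G) = r * p + 1 := by
    rw [← Nat.card_eq_fintype_card, mul_comm]; omega
  have hrp : r < p := by
    rw [Nat.card_eq_fintype_card, hn] at h
    by_contra h1
    have := Nat.mul_le_mul_right p (not_lt.1 h1)
    nlinarith
  let B : Ln W → Finset (Ln W) := fun U => (F U).biUnion fun R => (L R).erase U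
  have hB : ∀ U, (B U).card = m * ν := by
    intro U
    rw [card_biUnion, sum_congr rfl (g := fun _ => ν) fun R hR => by
      rw [card_erase_of_mem ((hL _ _).2 ((hF _ _).1 hR)), hLν, hν1, Nat.add_sub_cancel],
      sum_const, hFm, smul_eq_mul]
    intro R hR R' hR' e
    rw [Function.onFun, disjoint_left]
    intro U' h1 h2
    exact e (huniq U' U R R' (ne_of_mem_erase h1) ((hL _ _).1 (mem_of_mem_erase h1))
      ((hL _ _).1 (mem_of_mem_erase h2)) ((hF _ _).1 hR) ((hF _ _).1 hR'))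
  have hBs : ∀ U, B U ⊆ univ.erase U := by
    intro U U' h1
    obtain ⟨R, -, h2⟩ := mem_biUnion.1 h1
    exact mem_erase.2 ⟨ne_of_mem_erase h2, mem_univ _⟩
  have hle : ν' ≤ Fintype.card (Ln W) := card_le_univ _
  have hk1 : Fintype.card (Ln W) = ν + 1 + j * p := by rw [mul_comm]; omega
  have hm3 : m = s * p + 1 := by rw [mul_comm]; omega
  have hBle := card_le_card (hBs (Ln.base W))
  rw [hB, card_erase_of_mem (mem_univ _), card_univ] at hBle
  rcases ti_arith hk1 hm3 hrp (Nat.pos_of_ne_zero (by rintro rfl; omega))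
    (by rw [hcount, hn, hν1]) (by omega) with h1 | ⟨hs1, hjν, hνpos⟩
  · refine hW1 ((eq_bot_iff_forall _).2 fun g hg => hf g fun R => smul_eq_of_mem_CS ?_)
    obtain ⟨U, hU⟩ := card_pos.1 ((hLν R).symm ▸ hν0)
    rw [Fintype.card_eq_one_iff_nonempty_unique] at h1
    obtain ⟨_⟩ := h1
    exact (hL _ _).1 (Subsingleton.elim U (Ln.base W) ▸ hU) hg
  subst hs1 hjν
  have hmeet : ∀ U U' : Ln W, U' ≠ U → ∃ R : Sylow p G, U.1 ≤ CS R ∧ U'.1 ≤ CS R := by
    intro U U' e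
    have h1 : B U = univ.erase U := eq_of_subset_of_card_le (hBs U) (by
      rw [hB, card_erase_of_mem (mem_univ _), card_univ, hk1, hm3]
      exact Nat.sub_le_of_le_add (le_of_eq (by ring)))
    obtain ⟨R, h2, h3⟩ := mem_biUnion.1 (h1 ▸ mem_erase.2 ⟨e, mem_univ _⟩ : U' ∈ B U)
    exact ⟨R, (hF _ _).1 h2, (hL _ _).1 (mem_of_mem_erase h3)⟩
  have hstep : ∀ (P : Sylow p G) (U : Ln W), U.1 ≤ CS P → ∀ c ∈ CS P, c • U = U →
      ∃ z ∈ (P : Subgroup G), z⁻¹ * c ∈ U.1 := by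
    intro P U hU c hcP hcU
    haveI := Fintype.ofFinite (P : Subgroup G)
    obtain ⟨R, hR, hRP⟩ := exists_mem_ne ((hFm U).symm ▸ hm2) P
    have h1 : univ.image (fun z : (P : Subgroup G) => (z : G) • R) = (F U).erase P := by
      refine eq_of_subset_of_card_le (fun Q hQ => ?_) ?_
      · obtain ⟨z, -, rfl⟩ := mem_image.1 hQ
        refine mem_erase.2 ⟨smul_ne hc hRP.symm z.2, (hF _ _).2 ?_⟩
        have := (Ln.inc_smul (g := (z : G))).2 ((hF _ _).1 hR)
        rwa [Ln.smul_eq_of_inc hU z.2] at this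
      · rw [card_image_of_injective _ (smul_injective hc hRP.symm), card_univ,
          ← Nat.card_eq_fintype_card, hc, card_erase_of_mem ((hF _ _).2 hU), hFm, hm3]
        omega
    have h2 : c • R ∈ (F U).erase P := by
      refine mem_erase.2 ⟨fun e => hRP ?_, (hF _ _).2 ?_⟩
      · rw [← smul_eq_of_mem_CS hcP] at e
        exact smul_left_cancel c e
      · have := (Ln.inc_smul (g := c)).2 ((hF _ _).1 hR)
        rwa [hcU] at this
    obtain ⟨z, -, hz⟩ := mem_image.1 (h1 ▸ h2)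
    have h3 : (z : G)⁻¹ * c ∈ CS P := mul_mem (le_CS hc P (inv_mem z.2)) hcP
    refine ⟨z, z.2, ?_⟩
    rw [heq U P R hRP.symm hU ((hF _ _).1 hR)]
    exact ⟨h3, mem_CS_of_smul hc h h3 (by rw [mul_smul, ← hz, inv_smul_smul])⟩
  have hpow : ∀ (U : Ln W), ∀ a ∈ U.1, a ^ Nat.card W = 1 := fun U a ha => by
    have := pow_card_eq_one' (x := (⟨a, ha⟩ : U.1))
    rw [U.card_eq] at this
    exact congrArg Subtype.val this
  have hstar : ∀ (P : Sylow p G) (U U' : Ln W), U ≠ U' → U.1 ≤ CS P → U'.1 ≤ CS P →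
      ∀ c ∈ CS P, c • U = U → c • U' = U' → c ∈ (P : Subgroup G) := by
    intro P U U' e hU hU' c hcP hcU hcU'
    obtain ⟨z, hz, h1⟩ := hstep P U hU c hcP hcU
    obtain ⟨w, hw, h2⟩ := hstep P U' hU' _ (hU h1) (by
      rw [mul_smul, hcU', Ln.smul_eq_of_inc hU' (inv_mem hz)])
    set d := z⁻¹ * c with hd
    have h3 : w⁻¹ = 1 := by
      refine eq_one_of_pow hc (inv_mem hw) hWp ?_
      have h4 := hpow U' _ h2
      rwa [Commute.mul_pow (hU h1 _ (inv_mem hw)), hpow U _ h1, mul_one] at h4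
    rw [h3, one_mul] at h2
    have h4 : ∀ U'' : Ln W, ¬ U''.1 ≤ CS P → d ∈ U''.1 := by
      intro U'' h5
      obtain ⟨R, h6, h7⟩ := hmeet U U'' (fun e' => h5 (e' ▸ hU))
      obtain ⟨R', h8, h9⟩ := hmeet U' U'' (fun e' => h5 (e' ▸ hU'))
      have h10 : R ≠ R' := by
        rintro rfl
        exact h5 (huniq U U' R P e h6 hU h8 hU' ▸ h7)
      rw [heq U'' R R' h10 h7 h9]
      exact ⟨h6 h1, h8 h2⟩
    have h5 : d = 1 := by
      refine hf d fun R => smul_eq_of_mem_CS ?_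
      by_cases hR : R = P
      · exact hR ▸ hU h1
      obtain ⟨U₁, h6, U₂, h7, h8⟩ := one_lt_card.1 (show 1 < (L R).card by rw [hLν]; omega)
      rw [hL] at h6 h7
      by_cases h9 : U₁.1 ≤ CS P
      · exact h7 (h4 U₂ fun h10 => hR (huniq U₁ U₂ R P h8 h6 h9 h7 h10))
      · exact h6 (h4 U₁ h9)
    rwa [← inv_mul_eq_one.1 h5]
  have hcompl : (univ \ L P₁).card = j * p := by
    rw [card_univ_sdiff, hLν, hk1, hν1, Nat.add_sub_cancel_left]
  obtain ⟨U, hU⟩ := card_pos.1 (hcompl.symm ▸ Nat.mul_pos hνpos hp.out.pos)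
  have hU1 : ¬ U.1 ≤ CS P₁ := by simpa [hL] using hU
  have hup : Nat.card (CS P₁) ≤ j * p := by
    rw [← hcompl, ← Nat.card_eq_finsetCard]
    refine Nat.card_le_card_of_injective (fun c => ⟨(c : G) • U, ?_⟩) fun c c' e => ?_
    · simp only [mem_sdiff, mem_univ, true_and, hL]
      intro h1
      exact hU1 ((Ln.inc_smul (g := (c : G))).1 (by rw [smul_eq_of_mem_CS c.2]; exact h1))
    have e1 : (c : G) • U = (c' : G) • U := congrArg Subtype.val e
    set d : G := (c' : G)⁻¹ * c with hd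
    have hdC : d ∈ CS P₁ := mul_mem (inv_mem c'.2) c.2
    have hdU : d • U = U := by rw [hd, mul_smul, e1, inv_smul_smul]
    by_contra h1
    have hd1 : d ≠ 1 := fun h2 => h1 (Subtype.ext (inv_mul_eq_one.1 h2).symm)
    obtain ⟨z, hz, hz1⟩ := exists_ne_one hc P₁
    have h2 : z • U ≠ U := fun h3 => hU1 (hfix _ _ z hz hz1 h3)
    have h3 : d • z • U = z • U := by rw [← mul_smul, ← hdC z hz, mul_smul, hdU]
    obtain ⟨R, h4, h5⟩ := hmeet U _ h2
    have h6 : d • R = R := by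
      refine huniq _ _ _ _ h2 ?_ h5 ?_ h4
      · rw [← h3, Ln.inc_smul]; exact h5
      · rw [← hdU, Ln.inc_smul]; exact h4
    have h7 := hstar R _ _ h2 h5 h4 d (mem_CS_of_smul hc h hdC h6) h3 hdU
    exact hU1 (eq_of_smul hc h7 hd1 (smul_eq_of_mem_CS hdC) ▸ h4)
  have hex : ∀ U : Ln W, ∃ a ∈ U.1, a ≠ 1 := by
    intro U
    by_contra h1
    push Not at h1
    have h2 := U.card_eq
    rw [(eq_bot_iff_forall _).2 h1, card_bot] at h2
    exact hW1 (card_eq_one.1 h2.symm)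
  choose u hu hu1 using hex
  have hlow : Nat.card (L P₁ × (P₁ : Subgroup G)) ≤ Nat.card (CS P₁) := by
    refine Nat.card_le_card_of_injective (fun a => ⟨u a.1 * a.2,
      mul_mem ((hL _ _).1 a.1.2 (hu _)) (le_CS hc _ a.2.2)⟩) ?_
    rintro ⟨⟨U₁, h1⟩, z⟩ ⟨⟨U₂, h2⟩, w⟩ e
    have e1 : u U₁ * z = u U₂ * w := congrArg Subtype.val e
    have h3 := (hL _ _).1 h1
    have h4 := (hL _ _).1 h2
    have h5 : U₁ = U₂ := by
      by_contra h5
      have h6 := hstar P₁ U₁ U₂ h5 h3 h4 (u U₁ * z) (mul_mem (h3 (hu _)) (le_CS hc _ z.2))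
        (by rw [mul_smul, Ln.smul_eq_of_inc h3 z.2, Ln.smul_eq_of_mem (hu _)])
        (by rw [e1, mul_smul, Ln.smul_eq_of_inc h4 w.2, Ln.smul_eq_of_mem (hu _)])
      exact hu1 U₁ (eq_one_of_pow hc ((mul_mem_cancel_right z.2).1 h6) hWp (hpow _ _ (hu _)))
    subst h5
    rw [Subtype.ext (mul_left_cancel e1 : (z : G) = w)]
  rw [Nat.card_prod, hc, Nat.card_eq_finsetCard, hLν, hν1] at hlow
  have := hp.out.pos
  nlinarith

end Cfsg.Agent.FewS
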