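import Mathlib
import Cfsg.Agent.FewS.SelfA
import Cfsg.Agent.FewS.TI
import Cfsg.Agent.Char.ClassSum
import Cfsg.Agent.Char.Zeros

/-!
The case `C > P`: Bessel's inequality.
-/

set_option autoImplicit false
set_option linter.style.haveILetI false
set_option linter.unusedSectionVars false

namespace Cfsg.Agent.FewS

open Subgroup MulAction Cfsg.Agent.Small Cfsg.Agent.Grp Cfsg.Agent.Grp.SelfCent Cfsg.Agent.Char
open Cfsg.Agent.Char.SelfC
open Cfsg.Agent.Block (cast_charDegree charDegree_eq_of_eq)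
open scoped ComplexConjugate

variable {G : Type*} [Group G] [Fintype G] {p : ℕ} [hp : Fact p.Prime] {x : G}

local notation "𝐏" => zpowers x
local notation "𝐂" => centralizer (Singleton.singleton x : Set G)
local notation "𝐍" => normalizer ((zpowers x : Subgroup G) : Set G)

omit hp in
theorem bessel (s : Finset G) (N : Subgroup G) (h : ∀ c ∈ s, ∀ g, g * c * g⁻¹ ∈ s → g ∈ N) :
    ∑ χ : IrrCharacter G, ‖∑ c ∈ s, χ.1 c‖ ^ 2 ≤ s.card * Nat.card N := by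
  classical
  have h1 : ((∑ χ : IrrCharacter G, ‖∑ c ∈ s, χ.1 c‖ ^ 2 : ℝ) : ℂ) =
      (∑ c ∈ s, (Finset.univ.filter fun g => g * c * g⁻¹ ∈ s).card : ℕ) := by
    push_cast
    simp only [← Complex.mul_conj', map_sum, Finset.sum_mul_sum]
    rw [Finset.sum_comm]
    refine Finset.sum_congr rfl fun c _ => ?_
    rw [Finset.sum_comm]
    rw [Finset.sum_congr rfl (g := fun y => (Nat.card (centralizer ({c} : Set G)) : ℂ) *
      if IsConj c y then 1 else 0) fun y _ => by rw [sum_irr_mul_conj]; split_ifs <;> simp,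
      ← Finset.mul_sum, Finset.sum_boole]
    have h2 := sum_conj_eq_card_centralizer_mul c fun g => if g ∈ s then 1 else 0
    rw [Finset.sum_boole, Finset.sum_boole] at h2
    rw [h2]
    congr 3
    ext g
    simp [and_comm]
  have h2 : ∑ c ∈ s, (Finset.univ.filter fun g => g * c * g⁻¹ ∈ s).card
      ≤ s.card * Nat.card N := by
    rw [← smul_eq_mul]
    refine Finset.sum_le_card_nsmul _ _ _ fun c hc => ?_
    rw [Nat.card_eq_fintype_card, Fintype.card_subtype]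
    exact Finset.card_le_card fun g hg =>
      Finset.mem_filter.2 ⟨Finset.mem_univ _, h c hc g (Finset.mem_filter.1 hg).2⟩
  have h3 : ∑ χ : IrrCharacter G, ‖∑ c ∈ s, χ.1 c‖ ^ 2 =
      (∑ c ∈ s, (Finset.univ.filter fun g => g * c * g⁻¹ ∈ s).card : ℕ) := by exact_mod_cast h1
  rw [h3]
  exact_mod_cast h2

open Classical in
/-- the `p`-regular elements of `C` -/
noncomputable def Vr (p : ℕ) (x : G) : Finset G :=
  Finset.univ.filter fun c => c ∈ centralizer ({x} : Set G) ∧ ¬ p ∣ orderOf c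

omit hp in
theorem mem_Vr {c : G} : c ∈ Vr p x ↔ c ∈ 𝐂 ∧ ¬ p ∣ orderOf c := by simp [Vr]

theorem one_mem_Vr : 1 ∈ Vr p x := mem_Vr.2 ⟨one_mem _, not_dvd_orderOf_one⟩

/-- constant value on the `p`-section -/
def Val (p : ℕ) (x : G) (ξ : G → ℂ) (ε : ℤ) : Prop :=
  ∀ z ∈ zpowers x, z ≠ 1 → ∀ y ∈ centralizer ({x} : Set G), ¬ p ∣ orderOf y → ξ (z * y) = ε

theorem Val.sum [Fintype 𝐏] (hx : orderOf x = p) {ξ : G → ℂ} {ε : ℤ} (h : Val p x ξ ε) {y : G}
    (hy : y ∈ Vr p x) : ∑ z : 𝐏, ξ (z * y) = ξ y + (p - 1) * ε := by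
  rw [sum_subgroup_eq (f := fun z => ξ (z * y)) (c := ε)
    fun z hz h1 => h z hz h1 y (mem_Vr.1 hy).1 (mem_Vr.1 hy).2, card_zp hx, one_mul]

theorem Val.isIntegral (hx : orderOf x = p) {ξ : G → ℂ} (hξ : IsCharacter G ξ) {ε : ℤ}
    (h : Val p x ξ ε) {y : G} (hy : y ∈ Vr p x) : IsIntegral ℤ ((ξ y - ε) / p) := by
  haveI := Fintype.ofFinite 𝐏
  haveI := Fintype.ofFinite ((𝐏).subgroupOf 𝐂)
  haveI : ((𝐏).subgroupOf 𝐂).Normal := ⟨fun a ha g => by
    rw [mem_subgroupOf] at ha ⊢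
    simpa [← (commute_of_mem ha g.2).eq] using ha⟩
  let e := subgroupOfEquivOfLe (P_le_C (x := x))
  have h1 := ((hξ.restrict 𝐂).cosetAvg ((𝐏).subgroupOf 𝐂)).isIntegral ⟨y, (mem_Vr.1 hy).1⟩
  have h2 : ∑ n : (𝐏).subgroupOf 𝐂, ξ ((⟨y, (mem_Vr.1 hy).1⟩ * n : 𝐂) : G)
      = ∑ z : 𝐏, ξ (z * y) :=
    Fintype.sum_equiv e.toEquiv _ _ fun c => hξ.isClassFunction.mul_comm _ _
  rw [h2, h.sum hx hy, Nat.card_congr e.toEquiv, card_zp hx] at h1
  have hp0 : (p : ℂ) ≠ 0 := Nat.cast_ne_zero.2 hp.out.ne_zero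
  rw [show (ξ y - ε) / p = (p : ℂ)⁻¹ * (ξ y + (p - 1) * ε) - ε by field_simp; ring]
  exact h1.sub (isIntegral_intCast ε)

theorem Val.card_le (hx : orderOf x = p) {ξ : G → ℂ} (hξ : IsCharacter G ξ) {ε : ℤ}
    (h : Val p x ξ ε) {u : ℤ} (hu : ξ 1 = p * u + ε) {q : ℕ} (hq : q.Prime) (hqp : q ≠ p)
    (hqu : ¬ (q : ℤ) ∣ u) (s : Finset G) (hs : ∀ c, c ∈ s ↔ c ∈ 𝐂 ∧ orderOf c = q) :
    (s.card : ℝ) ≤ ∑ c ∈ s, ‖(ξ c - ε) / p‖ ^ 2 := by
  have hp0 : (p : ℂ) ≠ 0 := Nat.cast_ne_zero.2 hp.out.ne_zero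
  refine card_le_sum_norm_sq_of_galois s _ (fun c hc => div_ne_zero ?_ hp0)
    (fun c hc => h.isIntegral hx hξ (mem_Vr.2 ⟨((hs c).1 hc).1, ((hs c).1 hc).2 ▸ fun h1 =>
      hqp ((Nat.prime_dvd_prime_iff_eq hp.out hq).1 h1).symm⟩)) fun σ => ?_
  · have := (hξ.isGen.sub (isGen_one.intCast_smul ε)).ne_zero_of_not_dvd hq (d := p * u)
      (by simp [hu]) (fun h1 => by
        rcases (Nat.prime_iff_prime_int.1 hq).dvd_or_dvd h1 with h2 | h2
        · exact hqp ((Nat.prime_dvd_prime_iff_eq hq hp.out).1 (by exact_mod_cast h2))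
        · exact hqu h2)
      (g := c) (k := 1) (by rw [pow_one, ← ((hs c).1 hc).2, pow_orderOf_eq_one])
    simpa using this
  · obtain ⟨m, hm, h1⟩ := exists_pow_galois G (σ : ℂ →+* ℂ)
    refine ⟨fun c => c ^ m, fun c hc => (hs _).2 ⟨pow_mem ((hs c).1 hc).1 m, ?_⟩,
      (pow_injective_of_coprime hm).injOn, fun c _ => ?_⟩
    · rw [Nat.Coprime.orderOf_pow (hm.coprime_dvd_right (orderOf_dvd_natCard c)).symm,
        ((hs c).1 hc).2]
    · rw [map_div₀, map_sub, ← h1 ξ hξ.isGen c]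
      simp

section Grp

variable {P : Sylow p G} (hP : (P : Subgroup G) = zpowers x) (hx : orderOf x = p)
include hP hx

theorem sum_C [Fintype 𝐏] [Fintype 𝐂] (f : G → ℂ) :
    ∑ c : 𝐂, f c = ∑ y ∈ Vr p x, ∑ z : 𝐏, f (z * y) := by
  rw [← Finset.sum_product']
  refine (Finset.sum_bij (fun a ha => ⟨a.2 * a.1, mul_mem (P_le_C a.2.2)
    (mem_Vr.1 (Finset.mem_product.1 ha).1).1⟩) (fun _ _ => Finset.mem_univ _) ?_ ?_
    fun _ _ => rfl).symm
  · rintro ⟨y, z⟩ h ⟨y', z'⟩ h' e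
    obtain ⟨h1, h2⟩ := mem_Vr.1 (Finset.mem_product.1 h).1
    obtain ⟨h1', h2'⟩ := mem_Vr.1 (Finset.mem_product.1 h').1
    have e1 : (z : G) * y = z' * y' := congrArg Subtype.val e
    have e2 := congrArg (· ^ (orderOf y * orderOf y')) e1
    simp only at e2 h1 h2 h1' h2'
    rw [(commute_of_mem z.2 h1).mul_pow, (commute_of_mem z'.2 h1').mul_pow, pow_mul y,
      pow_mul' y', pow_orderOf_eq_one, pow_orderOf_eq_one, one_pow, one_pow, mul_one,
      mul_one] at e2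
    have e3 : (z : G) * (z' : G)⁻¹ = 1 := eq_one_of_pow (hc_of hP hx) (R := P)
      (by rw [hP]; exact mul_mem z.2 (inv_mem z'.2)) (hp.out.not_dvd_mul h2 h2') (by
        rw [(commute_of_mem z.2 (P_le_C (inv_mem z'.2))).mul_pow, inv_pow, e2, mul_inv_cancel])
    obtain rfl : z = z' := Subtype.ext (mul_inv_eq_one.1 e3)
    exact Prod.ext (mul_left_cancel e1) rfl
  · rintro ⟨c, hc⟩ -
    obtain ⟨z, hz, y, hy, h1, rfl⟩ := exists_decomp hP hx hc
    exact ⟨(y, ⟨z, hz⟩), Finset.mem_product.2 ⟨mem_Vr.2 ⟨hy, h1⟩, Finset.mem_univ _⟩, rfl⟩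

theorem card_C : Nat.card 𝐂 = p * (Vr p x).card := by
  haveI := Fintype.ofFinite 𝐏
  haveI := Fintype.ofFinite 𝐂
  have := sum_C hP hx fun _ => 1
  simp only [Finset.sum_const, Finset.card_univ, ← Nat.card_eq_fintype_card, card_zp hx,
    nsmul_eq_mul, mul_one] at this
  rw [mul_comm]
  exact_mod_cast this

theorem Val.sum_erase [DecidableEq G] {ξ : G → ℂ} (hξ : IsCharacter G ξ) {ε : ℤ}
    (h : Val p x ξ ε) {u : ℤ} (hu : ξ 1 = p * u + ε) {m : ℕ}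
    (hm : classInner (indFun 𝐂 fun _ => 1) ξ = m) :
    ∑ y ∈ (Vr p x).erase 1, ξ y =
      p * ((Vr p x).card * (m - ε) - u : ℤ) + ((Vr p x).erase 1).card * ε := by
  haveI := Fintype.ofFinite 𝐏
  haveI := Fintype.ofFinite 𝐂
  have h1 := card_mul_inner_ind 𝐂 hξ.isClassFunction
  rw [hξ.inner_symm (isCharacter_indFun _ isCharacter_one), hm, sum_C hP hx, card_C hP hx,
    Finset.sum_congr rfl fun y hy => h.sum hx hy, Finset.sum_add_distrib, Finset.sum_const,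
    ← Finset.add_sum_erase _ _ one_mem_Vr, hu, nsmul_eq_mul] at h1
  rw [← Finset.card_erase_add_one one_mem_Vr] at h1 ⊢
  push_cast at h1 ⊢
  linear_combination -h1

end Grp

namespace Ctx

variable {D : B0Data p x} {P : Sylow p G} {r A b : ℕ} (H : Ctx D P r A b)
include H

theorem valX' {χ : IrrCharacter G} (hχ : χ ∈ D.X) : Val p x χ (D.ε χ) := D.valX χ hχ

omit H in
theorem valΘ' : Val p x D.Θ (-D.δ) := fun z hz h1 y hy h2 => by
  rw [D.Θ_apply, D.sumY z hz h1 y hy h2, Int.cast_neg]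

variable [IsSimpleGroup G]

theorem fix_eq {c : G} (hc : c ∈ 𝐂) (h1 : c ≠ 1) {R : Sylow p G} (h : c • R = R) : R = P := by
  by_contra h2
  rw [← CS_eq H.hP] at hc
  have h3 : c ∈ CS R ⊓ CS P :=
    ⟨mem_CS_of_smul (hc_of H.hP H.hx) H.card_sylow_lt hc h, hc⟩
  rw [inf_eq_bot (hc_of H.hP H.hx) (fun g hg => ?_) H.card_sylow_lt h2, mem_bot] at h3
  · exact h1 h3
  rcases (toPermHom G (Sylow p G)).normal_ker.eq_bot_or_eq_top with h4 | h4
  · exact mem_bot.1 (h4 ▸ (Equiv.ext hg : toPermHom G (Sylow p G) g = 1))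
  · obtain ⟨a, rfl⟩ := exists_smul_eq G P R
    exact absurd (congrFun (congrArg DFunLike.coe
      (show toPermHom G (Sylow p G) a = 1 from (h4 ▸ mem_top a : a ∈ MonoidHom.ker _))) P) h2

theorem mem_N {c g : G} (hc : c ∈ 𝐂) (h1 : c ≠ 1) (hg : g * c * g⁻¹ ∈ 𝐂) : g ∈ 𝐍 := by
  rw [← inv_mem_iff, ← smul_eq_iff H.hP]
  refine H.fix_eq hc h1 ?_
  rw [← mul_smul, ← smul_eq_iff_eq_inv_smul, ← mul_smul, ← mul_assoc]
  exact (smul_eq_iff H.hP).2 (C_le_N hg)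

theorem card_Vr_dvd : (Vr p x).card ∣ r := by
  haveI := Fintype.ofFinite 𝐂
  have hN : IsCharacter G (indFun 𝐍 fun _ => 1) := isCharacter_indFun _ isCharacter_one
  obtain ⟨m, hm⟩ := hN.exists_nat_inner (isCharacter_indFun 𝐂 isCharacter_one)
  have h1 := card_mul_inner_ind 𝐂 hN.isClassFunction
  rw [hm, sum_subgroup_eq (c := 1) fun z hz h1 => by
    rw [indN_eq_fix H.hP, (Nat.card_eq_one_iff_exists (α := fixedBy (Sylow p G) z)).2
      ⟨⟨P, (smul_eq_iff H.hP).2 (C_le_N hz)⟩,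
      fun Q => Subtype.ext (H.fix_eq hz h1 Q.2)⟩, Nat.cast_one], indFun_one, H.hn,
    card_C H.hP H.hx] at h1
  have h2 : (Vr p x).card * m = r + (Vr p x).card := by
    apply Nat.cast_injective (R := ℂ)
    apply mul_left_cancel₀ (Nat.cast_ne_zero.2 hp.out.ne_zero : (p : ℂ) ≠ 0)
    push_cast at h1 ⊢
    linear_combination h1
  exact (Nat.dvd_add_left dvd_rfl).1 (h2 ▸ dvd_mul_right _ _)

theorem bessel' {s : Finset G} (hs : ∀ c ∈ s, c ∈ Vr p x ∧ c ≠ 1) {J : IrrCharacter G → ℂ}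
    {JΘ : ℂ} (hJ : ∀ χ ∈ D.X, ∑ c ∈ s, χ.1 c = p * J χ + s.card * D.ε χ)
    (hΘ : ∑ c ∈ s, D.Θ c = p * JΘ + s.card * (-D.δ : ℤ)) :
    D.Y.card * ∑ χ ∈ D.X, D.ε χ * J χ - D.δ * JΘ = -s.card ∧
    (p * (D.Y.card * ∑ χ ∈ D.X, ‖J χ‖ ^ 2 + ‖JΘ‖ ^ 2) : ℝ)
      ≤ (p - 1) * s.card * (Vr p x).card + s.card ^ 2 := by
  classical
  have hp0 : (p : ℂ) ≠ 0 := Nat.cast_ne_zero.2 hp.out.ne_zero
  have hte : (D.Y.card * D.e + 1 : ℂ) = p := by exact_mod_cast H.te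
  have hδ : (D.δ : ℂ) * D.δ = 1 := by rcases D.signY with h | h <;> simp [h]
  have hε : ∀ χ ∈ D.X, (D.ε χ : ℂ) * D.ε χ = 1 := fun χ hχ => by
    rcases D.sign χ hχ with h | h <;> simp [h]
  have h1 : D.Y.card * ∑ χ ∈ D.X, D.ε χ * J χ - D.δ * JΘ = -s.card := by
    have h1 : ∑ c ∈ s, Γ D c = 0 := Finset.sum_eq_zero fun c hc => Γ_reg (mem_Vr.1 (hs c hc).1).2
    simp only [Γ, Pi.sub_apply, Pi.smul_apply, Finset.sum_apply, smul_eq_mul,
      Finset.sum_sub_distrib, ← Finset.mul_sum] at h1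
    rw [Finset.sum_comm, hΘ, Finset.sum_congr rfl (g := fun χ => p * (D.ε χ * J χ) + s.card)
      fun χ hχ => by
        rw [← Finset.mul_sum, hJ χ hχ]; linear_combination s.card * hε χ hχ,
      Finset.sum_add_distrib, ← Finset.mul_sum, Finset.sum_const, D.cardX, nsmul_eq_mul] at h1
    apply mul_left_cancel₀ hp0
    push_cast at h1
    linear_combination h1 - s.card * hte - s.card * hδ
  refine ⟨h1, ?_⟩
  have h2 := bessel s 𝐍 fun c hc g hg =>
    H.mem_N (mem_Vr.1 (hs c hc).1).1 (hs c hc).2 (mem_Vr.1 (hs _ hg).1).1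
  have h3 : Nat.card 𝐍 = p * (Vr p x).card * D.e := by
    rw [← card_C H.hP H.hx, ← D.he, ← card_mul_index ((𝐂).subgroupOf 𝐍),
      Nat.card_congr (subgroupOfEquivOfLe C_le_N).toEquiv, relIndex]
  have h4 := (Finset.sum_le_sum_of_subset_of_nonneg (Finset.subset_univ (D.X ∪ D.Y))
    fun _ _ _ => by positivity).trans h2
  obtain ⟨θ, hθ⟩ := D.Y_nonempty
  rw [Finset.sum_union D.disj, Finset.sum_congr (s₁ := D.Y) rfl
    (g := fun _ => ‖∑ c ∈ s, θ.1 c‖ ^ 2) fun θ' hθ' => by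
      rw [Finset.sum_congr rfl fun c hc => D.agree θ' hθ' θ hθ c (mem_Vr.1 (hs c hc).1).2],
    Finset.sum_const, nsmul_eq_mul, h3] at h4
  have h5 : ‖∑ c ∈ s, D.Θ c‖ = D.Y.card * ‖∑ c ∈ s, θ.1 c‖ := by
    rw [Finset.sum_congr rfl fun c hc => D.Θ_regular hθ (mem_Vr.1 (hs c hc).1).2,
      ← Finset.mul_sum, norm_mul, Complex.norm_natCast]
  have h6 : (D.Y.card * ∑ χ ∈ D.X, ‖∑ c ∈ s, χ.1 c‖ ^ 2 + ‖∑ c ∈ s, D.Θ c‖ ^ 2 : ℝ) =
      p * (p * (D.Y.card * ∑ χ ∈ D.X, ‖J χ‖ ^ 2 + ‖JΘ‖ ^ 2) - s.card ^ 2) := by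
    apply Complex.ofReal_injective
    push_cast
    simp only [← Complex.mul_conj']
    have h7 := congrArg conj h1
    simp only [map_sub, map_mul, map_sum, map_natCast, map_intCast, map_neg] at h7
    rw [hΘ, Finset.sum_congr rfl (g := fun χ => p ^ 2 * (J χ * conj (J χ)) + p * s.card *
      (D.ε χ * J χ) + p * s.card * (D.ε χ * conj (J χ)) + s.card ^ 2) fun χ hχ => by
        rw [hJ χ hχ]
        simp only [map_add, map_mul, map_natCast, map_intCast]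
        linear_combination s.card ^ 2 * hε χ hχ]
    simp only [Finset.sum_add_distrib, ← Finset.mul_sum, Finset.sum_const, D.cardX, nsmul_eq_mul,
      map_add, map_mul, map_natCast, map_intCast, map_neg, Int.cast_neg]
    linear_combination p * s.card * h1 + p * s.card * h7 + s.card ^ 2 * hte + s.card ^ 2 * hδ
  have h7 : (D.Y.card * D.e + 1 : ℝ) = p := by exact_mod_cast H.te
  have h8 := mul_le_mul_of_nonneg_left h4 (Nat.cast_nonneg D.Y.card)
  rw [h5] at h6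
  refine le_of_mul_le_mul_left ?_ (Nat.cast_pos.2 hp.out.pos : (0 : ℝ) < p)
  push_cast at h8
  have h9 : (D.Y.card : ℝ) * (s.card * (p * (Vr p x).card * D.e)) =
      p * ((p - 1) * s.card * (Vr p x).card) := by
    linear_combination p * s.card * (Vr p x).card * h7
  linarith

end Ctx

end Cfsg.Agent.FewS
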