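import Mathlib
import Cfsg.Agent.FewS.BigA
import Cfsg.Agent.Small.BT

/-!
The case `C > P` is impossible.
-/

set_option autoImplicit false
set_option linter.style.haveILetI false
set_option linter.unusedSectionVars false

namespace Cfsg.Agent.FewS

open Subgroup MulAction Cfsg.Agent.Small Cfsg.Agent.Grp Cfsg.Agent.Grp.SelfCent Cfsg.Agent.Char
open Cfsg.Agent.Char.SelfC
open Cfsg.Agent.Block (cast_charDegree charDegree_eq_of_eq)
open scoped ComplexConjugate

theorem eq_zero_of_sq_lt {v k : ℤ} (hv : 0 < v) (h : (v * k) ^ 2 < v * (v - 1)) : k = 0 := by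
  by_contra h1
  have h2 : 1 ≤ k ^ 2 := by have := sq_pos_of_ne_zero h1; omega
  nlinarith [mul_le_mul_of_nonneg_left h2 (sq_nonneg v)]

theorem Num.arithA {p r A b : ℕ} (h : Num p r A b) (hA : 2 ≤ A) {k : ℤ}
    (h1 : (r * k - A) ^ 2 + (r - (b + 1) : ℤ) ^ 2 < r * (r - 1)) : k = 0 := by
  obtain ⟨-, hb, -, hr⟩ := h
  obtain ⟨a, rfl⟩ : ∃ a, A = a + 2 := ⟨A - 2, by omega⟩
  obtain ⟨c, rfl⟩ : ∃ c, b = a + 3 + c := ⟨b - (a + 3), by omega⟩
  have hr' : (r : ℤ) = (a + 2) * (a + c + 4) + 1 := by rw [hr]; push_cast; ring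
  have h0 : (a + 2 : ℤ) < r := by rw [hr']; nlinarith
  push_cast at h1
  rcases lt_trichotomy k 0 with hk | hk | hk
  · have h2 : (r : ℤ) ≤ -(r * k - (a + 2)) := by nlinarith
    nlinarith [sq_nonneg (r - (a + 3 + c + 1) : ℤ)]
  · exact hk
  · have h2 : (r : ℤ) - (a + 2) ≤ r * k - (a + 2) := by nlinarith
    have h3 : ((r : ℤ) - (a + 2)) ^ 2 ≤ (r * k - (a + 2)) ^ 2 := pow_le_pow_left₀ (by omega) h2 2
    have h4 : ((r : ℤ) - (a + 2)) ^ 2 + (r - (a + 3 + c + 1)) ^ 2 - r * (r - 1)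
        = r * (a * (a + c + 2) - 2) + (a + 2) ^ 2 + (a + c + 4) ^ 2 := by rw [hr']; ring
    rcases a with _ | a
    · push_cast at *
      nlinarith
    · have : (0 : ℤ) ≤ r * ((a + 1 : ℕ) * ((a + 1 : ℕ) + c + 2) - 2) :=
        mul_nonneg (by positivity) (by push_cast; nlinarith)
      nlinarith

theorem Num.arithB {p r A b : ℕ} (h : Num p r A b) {m : ℕ}
    (h1 : (r * (m + 1) - (b + 1) : ℤ) ^ 2 < r * (r - 1)) : m = 0 := by
  obtain ⟨hA, -, -, hr⟩ := h
  have h0 : (b + 1 : ℤ) < r := by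
    have : b + 1 < r := by nlinarith
    exact_mod_cast this
  by_contra h2
  have h3 : (1 : ℤ) ≤ m := by omega
  have h4 : (r : ℤ) ≤ r * (m + 1) - (b + 1) := by nlinarith
  nlinarith

theorem Num.arithF {p r A b : ℕ} (h : Num p r A b) {t W N V : ℕ} (ht : 0 < t) (ht2 : 2 * t < p)
    (h0 : A = 1 → W = 0) (h1 : (W * A + N * r - V * (b + 1) : ℤ) = -1)
    (h2 : (W * A + V * (r - (b + 1)) : ℤ) = r - 1) (h3 : W + N + V + t = p) : False := by
  obtain ⟨hA, hb, hp, hr⟩ := h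
  have hr' : (r : ℤ) = A * (b + 1) + 1 := by exact_mod_cast hr
  have hp' : (p : ℤ) = (A + 1) * b + 1 := by exact_mod_cast hp
  have h4 : (V : ℤ) = N + 1 := mul_left_cancel₀ (a := (r : ℤ)) (by omega)
    (by linear_combination h2 - h1)
  by_cases h5 : A = 1
  · rw [h0 h5, hr', h5] at h2
    subst h5
    push_cast at h2
    have := h0 rfl
    omega
  · have h6 : (2 : ℤ) ≤ A := by omega
    have h7 : (4 : ℤ) ≤ r - (b + 1) := by
      have : (A + 1 : ℤ) ≤ b := by exact_mod_cast hb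
      nlinarith
    have h8 := mul_le_mul_of_nonneg_left h6 (Nat.cast_nonneg W)
    have h9 := mul_le_mul_of_nonneg_left h7 (Nat.cast_nonneg V)
    have h10 : (p : ℤ) - r = b - A := by rw [hp', hr']; ring
    omega

variable {G : Type*} [Group G] [Fintype G] {p : ℕ} [hp : Fact p.Prime] {x : G}

local notation "𝐏" => zpowers x
local notation "𝐂" => centralizer (Singleton.singleton x : Set G)

namespace Ctx

variable {D : B0Data p x} {P : Sylow p G} {r A b : ℕ} (H : Ctx D P r A b) [IsSimpleGroup G]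
  (hC : centralizer ({x} : Set G) ≠ zpowers x)
include H hC

theorem two_le_v : 2 ≤ (Vr p x).card := by
  by_contra h
  refine hC (eq_of_le_of_card_ge P_le_C ?_).symm
  rw [card_C H.hP H.hx, card_zp H.hx]
  exact (Nat.mul_le_mul_left p (by omega : _ ≤ 1)).trans_eq (mul_one p)

omit hC in
theorem not_comm : ¬ IsMulCommutative G := fun h => by
  have h1 := index_normalizer_ne_one_of_perfect H.hG P H.hP H.hx
  exact h1 (by rw [index_eq_one, normalizer_eq_top_iff]; infer_instance)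

theorem stanton : (∀ χ ∈ D.X, χ ≠ irrOne G → 2 * p ≤ charDegree (χ : G → ℂ)) ∧ 2 * p ≤ D.d := by
  obtain ⟨y, hy, h1⟩ := Finset.exists_mem_ne (H.two_le_v hC) 1
  exact ⟨fun χ h2 h3 => stanton_X H.not_comm D H.hx (mem_Vr.1 hy).1 h1 (mem_Vr.1 hy).2 h2 h3,
    stanton_Y H.not_comm D H.hx H.one (mem_Vr.1 hy).1 h1 (mem_Vr.1 hy).2⟩

theorem degB_big {χ : IrrCharacter G} (hχ : χ ∈ D.B) :
    charDegree (χ : G → ℂ) = b * (p + A + 1) :=
  (H.degB hχ).resolve_left fun h => by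
    have := (H.stanton hC).1 χ (D.mem_B.1 hχ).1 (D.mem_B.1 hχ).2.1
    have := hp.out.pos
    omega

theorem cnt_L : cnt D.B (p - 1) = 0 := by
  by_contra h
  obtain ⟨χ, hχ, h1⟩ := exists_of_cnt h
  have := (H.stanton hC).1 χ (D.mem_B.1 hχ).1 (D.mem_B.1 hχ).2.1
  have := hp.out.pos
  omega

theorem two_le_A {χ : IrrCharacter G} (hχ : χ ∈ D.A) (h : charDegree (χ : G → ℂ) = A * p + 1) :
    2 ≤ A := by
  by_contra h1
  have := (H.stanton hC).1 χ (D.mem_A.1 hχ).1 (D.mem_A.1 hχ).2.1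
  have := hp.out.two_le
  have := Nat.mul_le_mul_right p (by omega : A ≤ 1)
  omega

omit hC in
theorem oneA {χ : IrrCharacter G} (hχ : χ ∈ D.A) {k : ℕ} (h : charDegree (χ : G → ℂ) = k * p + 1) :
    χ.1 1 = p * (k : ℤ) + D.ε χ := by
  rw [← cast_charDegree χ.2.isCharacter, h, (D.mem_A.1 hχ).2.2]; push_cast; ring

theorem oneB {χ : IrrCharacter G} (hχ : χ ∈ D.B) : χ.1 1 = p * (b + 1 : ℤ) + D.ε χ := by
  have h : ((b * (p + A + 1) + 1 : ℕ) : ℂ) = ((b + 1) * p : ℕ) := by rw [H.num.z2_eq]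
  rw [← cast_charDegree χ.2.isCharacter, H.degB_big hC hχ, (D.mem_B.1 hχ).2.2]
  push_cast at h ⊢
  linear_combination h

theorem mul_lt : D.Y.card * (cnt D.A (A * p + 1) + cnt D.B (b * (p + A + 1)))
    < (Vr p x).card := by
  classical
  have hv := H.two_le_v hC
  obtain ⟨q, hq, hqv⟩ := Nat.exists_prime_and_dvd (show (Vr p x).card ≠ 1 by omega)
  have hqr := hqv.trans H.card_Vr_dvd
  have hr := H.num.hr
  have hqp : q ≠ p := fun h => by
    have := Nat.le_of_dvd (by omega) hqr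
    have := H.num.r_lt
    omega
  have h1 : ¬ q ∣ A * (b + 1) := fun h =>
    hq.one_lt.ne' (Nat.dvd_one.1 ((Nat.dvd_add_right h).1 (hr ▸ hqr)))
  haveI := Fact.mk hq
  obtain ⟨v, hv1⟩ := exists_prime_orderOf_dvd_card' (G := 𝐂) q
    (card_C H.hP H.hx ▸ hqv.mul_left p)
  rw [← orderOf_coe] at hv1
  set s := Finset.univ.filter fun c : G => c ∈ 𝐂 ∧ orderOf c = q with hs
  have hs' : ∀ c, c ∈ s ↔ c ∈ 𝐂 ∧ orderOf c = q := by simp [hs]
  have h2 : (0 : ℝ) < s.card := Nat.cast_pos.2 (Finset.card_pos.2 ⟨v, (hs' _).2 ⟨v.2, hv1⟩⟩)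
  have hp0 : (p : ℂ) ≠ 0 := Nat.cast_ne_zero.2 hp.out.ne_zero
  have hp1 : (0 : ℝ) < p := Nat.cast_pos.2 hp.out.pos
  have h3 : ∀ c ∈ s, (p * (D.Y.card * ∑ χ ∈ D.X, ‖(χ.1 c - D.ε χ) / p‖ ^ 2) : ℝ)
      ≤ (p - 1) * (Vr p x).card + 1 := fun c hc => by
    have h3 := (H.bessel' (s := {c}) (J := fun χ => (χ.1 c - D.ε χ) / p)
      (JΘ := (D.Θ c + D.δ) / p) (fun c' hc' => ?_) (fun χ _ => by simp; field_simp; ring)
      (by simp; field_simp; ring)).2
    · simp only [Finset.card_singleton, Nat.cast_one, mul_one, one_pow] at h3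
      exact le_trans (mul_le_mul_of_nonneg_left (le_add_of_nonneg_right (sq_nonneg _)) hp1.le) h3
    · obtain rfl := Finset.mem_singleton.1 hc'
      obtain ⟨h4, h5⟩ := (hs' _).1 hc
      exact ⟨mem_Vr.2 ⟨h4, h5 ▸ fun h => hqp ((Nat.prime_dvd_prime_iff_eq hp.out hq).1 h).symm⟩,
        fun h => hq.one_lt.ne (by rw [← h5, h, orderOf_one])⟩
  have h4 := Finset.sum_le_card_nsmul _ _ _ h3
  rw [← Finset.mul_sum, ← Finset.mul_sum, Finset.sum_comm, D.sum_X H.one, nsmul_eq_mul] at h4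
  have h5 : (cnt D.A (A * p + 1) * s.card : ℝ)
      ≤ ∑ χ ∈ D.A, ∑ c ∈ s, ‖(χ.1 c - D.ε χ) / p‖ ^ 2 := by
    refine le_trans ?_ (Finset.sum_le_sum_of_subset_of_nonneg (Finset.filter_subset
      (fun χ : IrrCharacter G => charDegree (χ : G → ℂ) = A * p + 1) D.A) fun _ _ _ => by
        positivity)
    rw [← nsmul_eq_mul]
    refine Finset.card_nsmul_le_sum _ _ _ fun χ hχ => ?_
    obtain ⟨h5, h6⟩ := Finset.mem_filter.1 hχ
    exact (H.valX' (D.mem_A.1 h5).1).card_le H.hx χ.2.isCharacter (H.oneA h5 h6) hq hqp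
      (fun h => h1 ((Int.natCast_dvd_natCast.1 h).mul_right _)) s hs'
  have h6 : (cnt D.B (b * (p + A + 1)) * s.card : ℝ)
      ≤ ∑ χ ∈ D.B, ∑ c ∈ s, ‖(χ.1 c - D.ε χ) / p‖ ^ 2 := by
    refine le_trans (mul_le_mul_of_nonneg_right (Nat.cast_le.2 (Finset.card_filter_le _ _))
      h2.le) ?_
    rw [← nsmul_eq_mul]
    refine Finset.card_nsmul_le_sum _ _ _ fun χ hχ => ?_
    exact (H.valX' (D.mem_B.1 hχ).1).card_le H.hx χ.2.isCharacter (H.oneB hC hχ) hq hqp
      (fun h => h1 ((Int.natCast_dvd_natCast.1 (by exact_mod_cast h)).mul_left _)) s hs'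
  have h7 : (0 : ℝ) ≤ ∑ c ∈ s, ‖((irrOne G).1 c - D.ε (irrOne G)) / p‖ ^ 2 := by positivity
  have h8 : (p * (D.Y.card * ((cnt D.A (A * p + 1) + cnt D.B (b * (p + A + 1))) * s.card)) : ℝ)
      ≤ s.card * ((p - 1) * (Vr p x).card + 1) :=
    le_trans (mul_le_mul_of_nonneg_left (mul_le_mul_of_nonneg_left (by linarith)
      (Nat.cast_nonneg _)) hp1.le) h4
  have h9 : (2 : ℝ) ≤ (Vr p x).card := by exact_mod_cast hv
  have h10 : (p * (D.Y.card * (cnt D.A (A * p + 1) + cnt D.B (b * (p + A + 1)))) : ℝ)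
      < p * (Vr p x).card := by
    refine lt_of_mul_lt_mul_left (a := (s.card : ℝ)) ?_ h2.le
    nlinarith
  exact_mod_cast lt_of_mul_lt_mul_left h10 hp1.le

theorem ints {u : IrrCharacter G → ℤ} (hu : ∀ χ ∈ D.X, χ.1 1 = p * u χ + D.ε χ) {w : ℤ}
    (hw : (D.Y.card * D.d : ℤ) = p * w - D.δ) {m : IrrCharacter G → ℕ}
    (hm : ∀ χ : IrrCharacter G, classInner (indFun 𝐂 fun _ => 1) χ = m χ) {v : ℤ}
    (hv : v = (Vr p x).card) :
    D.Y.card * ∑ χ ∈ D.X, D.ε χ * (v * (m χ - D.ε χ) - u χ)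
      - D.δ * (v * ((∑ θ ∈ D.Y, m θ : ℕ) + D.δ) - w) = -(v - 1) ∧
    D.Y.card * ∑ χ ∈ D.X, (v * (m χ - D.ε χ) - u χ) ^ 2
      + (v * ((∑ θ ∈ D.Y, m θ : ℕ) + D.δ) - w) ^ 2 < v * (v - 1) := by
  classical
  have h1 : D.Θ 1 = p * w + (-D.δ : ℤ) := by
    rw [D.Θ_one]
    have := congrArg (Int.cast : ℤ → ℂ) hw
    push_cast at this ⊢
    linear_combination this
  obtain ⟨h2, h3⟩ := H.bessel' (s := (Vr p x).erase 1)
    (fun c hc => ⟨(Finset.mem_erase.1 hc).2, (Finset.mem_erase.1 hc).1⟩)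
    (fun χ hχ => (H.valX' hχ).sum_erase H.hP H.hx χ.2.isCharacter (hu χ hχ) (hm χ))
    (valΘ'.sum_erase H.hP H.hx D.isCharacter_Θ h1 (m := ∑ θ ∈ D.Y, m θ) (by
      rw [B0Data.Θ, classInner_sum_right]; simp [hm]))
  have h4 : (((Vr p x).erase 1).card : ℤ) = v - 1 := by
    rw [hv, ← Finset.card_erase_add_one (one_mem_Vr (p := p) (x := x))]; simp
  simp only [Complex.norm_intCast, sq_abs, ← hv, sub_neg_eq_add] at h2 h3
  generalize ((Vr p x).erase 1).card = k at *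
  refine ⟨by rw [← h4]; exact_mod_cast h2, ?_⟩
  have h5 : (p : ℤ) * (D.Y.card * ∑ χ ∈ D.X, (v * (m χ - D.ε χ) - u χ) ^ 2
      + (v * ((∑ θ ∈ D.Y, m θ : ℕ) + D.δ) - w) ^ 2) ≤ (p - 1) * k * (Vr p x).card + k ^ 2 := by
    exact_mod_cast h3
  have h6 := H.two_le_v hC
  refine lt_of_mul_lt_mul_left (h5.trans_lt ?_) (Nat.cast_nonneg p)
  rw [← hv, h4]
  nlinarith

/-- the case `C > P` does not occur -/
theorem big : False := by
  classical
  have hφ : IsCharacter G (indFun 𝐂 fun _ => 1) := isCharacter_indFun _ isCharacter_one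
  obtain ⟨m, hm, -⟩ := hφ.exists_coeff
  obtain ⟨w, hw, hw', h1, h2⟩ := H.deg_eq
  set u : IrrCharacter G → ℤ := fun χ => if χ ∈ D.A then
    (if charDegree (χ : G → ℂ) = A * p + 1 then A else r) else if χ ∈ D.B then b + 1 else 0 with hu
  have hAB : ∀ χ ∈ D.B, χ ∉ D.A := fun χ h h' => by
    have := (D.mem_A.1 h').2.2
    have := (D.mem_B.1 h).2.2
    omega
  have hu1 : u (irrOne G) = 0 := by simp [hu, D.mem_A, D.mem_B]
  have hu2 : ∀ χ ∈ D.X, χ.1 1 = p * u χ + D.ε χ := fun χ hχ => by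
    by_cases h3 : χ = irrOne G
    · rw [h3, hu1, D.ε_irrOne H.hx H.one, irrOne_apply]; simp
    rcases D.sign χ hχ with h4 | h4
    · have h5 := D.mem_A.2 ⟨hχ, h3, h4⟩
      simp only [hu, if_pos h5]
      split_ifs with h6
      · exact H.oneA h5 h6
      · exact H.oneA h5 ((H.degA h5).resolve_left h6)
    · have h5 := D.mem_B.2 ⟨hχ, h3, h4⟩
      simp only [hu, if_neg (hAB χ h5), if_pos h5]
      exact H.oneB hC h5
  obtain ⟨h3, h4⟩ := H.ints hC hu2 hw hm rfl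
  obtain ⟨ι, hι⟩ := H.card_Vr_dvd
  have hv := H.two_le_v hC
  have h5 := H.mul_lt hC
  have hL := H.cnt_L hC
  have hte := H.te
  have he := H.two_le_e
  have ht := D.card_Y_pos
  have hr := H.num.r_lt
  have hr0 : 0 < r := by have := H.num.hr; omega
  generalize (Vr p x).card = v at *
  have hv0 : (0 : ℤ) < v := by omega
  set J : IrrCharacter G → ℤ := fun χ => v * (m χ - D.ε χ) - u χ with hJ
  set JΘ : ℤ := v * ((∑ θ ∈ D.Y, m θ : ℕ) + D.δ) - w with hJΘ
  change D.Y.card * ∑ χ ∈ D.X, D.ε χ * J χ - D.δ * JΘ = -(v - 1) at h3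
  change D.Y.card * ∑ χ ∈ D.X, J χ ^ 2 + JΘ ^ 2 < v * (v - 1) at h4
  have h6 : ∑ χ ∈ D.X, J χ ^ 2 + JΘ ^ 2 < v * (v - 1) := lt_of_le_of_lt (add_le_add_left
    (le_mul_of_one_le_left (by positivity) (by exact_mod_cast ht)) _) h4
  have h7 : ∀ χ ∈ D.X, J χ ^ 2 < v * (v - 1) := fun χ hχ => lt_of_le_of_lt ((Finset.single_le_sum
    (f := fun χ => J χ ^ 2) (fun _ _ => sq_nonneg _) hχ).trans
    (le_add_of_nonneg_right (sq_nonneg _))) h6
  have h8 : m (irrOne G) = 1 := by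
    have := h7 _ H.one
    simp only [hJ, hu1, sub_zero, D.ε_irrOne H.hx H.one] at this
    have := eq_zero_of_sq_lt hv0 this
    omega
  have hne : r * p + 1 ≠ A * p + 1 := by
    have : A * p < r * p := Nat.mul_lt_mul_of_pos_right (by have := H.num.hr; nlinarith) hp.out.pos
    omega
  have h9 : ∀ χ ∈ D.A, charDegree (χ : G → ℂ) = r * p + 1 → m χ = ι + 1 := fun χ hχ h => by
    have := h7 χ (D.mem_A.1 hχ).1
    simp only [hJ, hu, if_pos hχ, h, if_neg hne, (D.mem_A.1 hχ).2.2] at this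
    rw [hι, Nat.cast_mul, ← mul_sub] at this
    have := eq_zero_of_sq_lt hv0 this
    omega
  rcases lt_trichotomy ι 1 with h10 | rfl | h10
  · obtain rfl : ι = 0 := by omega
    omega
  swap
  · have h11 := sum_coeff_deg_le hφ hm (k := D.e * (r * p + 1))
      (by rw [indFun_one, D.index_C, H.hn, mul_one]) (insert (irrOne G)
        (D.A.filter fun χ => charDegree (χ : G → ℂ) = r * p + 1))
    rw [Finset.sum_insert (by simp [D.mem_A]), h8,
      charDegree_eq_of_eq (n := 1) (by simp [irrOne_apply]),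
      Finset.sum_congr rfl fun χ hχ => by
        rw [h9 χ (Finset.mem_filter.1 hχ).1 (Finset.mem_filter.1 hχ).2, (Finset.mem_filter.1 hχ).2],
      Finset.sum_const, smul_eq_mul, ← mul_assoc] at h11
    have h12 : cnt D.A (r * p + 1) * (ι + 1) < D.e :=
      Nat.lt_of_mul_lt_mul_right (a := r * p + 1) (lt_of_lt_of_le (Nat.lt_add_of_pos_left
        (by omega)) h11)
    have h13 := Nat.mul_le_mul_left (cnt D.A (r * p + 1)) (by omega : 3 ≤ ι + 1)
    have h14 : D.e ≤ 2 * (cnt D.A (A * p + 1) + cnt D.B (b * (p + A + 1))) := by omega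
    have h15 := Nat.mul_le_mul_left D.Y.card h14
    have h16 := Nat.mul_le_mul_left v (by omega : 2 ≤ ι)
    rw [mul_left_comm] at h15
    omega
  rw [mul_one] at hι
  subst hι
  have hJ1 : J (irrOne G) = 0 := by simp [hJ, hu1, h8, D.ε_irrOne H.hx H.one]
  have hJB : ∀ χ ∈ D.B, J χ = r - (b + 1) := fun χ hχ => by
    have := h7 χ (D.mem_B.1 hχ).1
    simp only [hJ, hu, if_neg (hAB χ hχ), if_pos hχ, (D.mem_B.1 hχ).2.2, sub_neg_eq_add] at this ⊢
    rw [H.num.arithB this]; simp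
  have hd := (H.stanton hC).2
  have hd' := Nat.le_mul_of_pos_left D.d ht
  have hΘ : JΘ ^ 2 < r * (r - 1) := lt_of_le_of_lt (le_add_of_nonneg_left (by positivity)) h6
  have hΘB : D.δ = 1 → w = b + 1 ∧ JΘ = r - (b + 1) := fun h => by
    rcases hw' with ⟨h', -⟩ | ⟨h', -⟩ | ⟨-, h', -⟩ | ⟨-, -, rfl⟩
    · omega
    · omega
    · omega
    · rw [hJΘ, h] at hΘ ⊢
      rw [H.num.arithB hΘ]; simp
  rw [D.sum_X H.one, hJ1] at h3 h6
  have h11 : ((r : ℤ) - (b + 1)) ^ 2 ≤ ∑ χ ∈ D.B, J χ ^ 2 ∨ D.δ = 1 := by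
    refine or_iff_not_imp_right.2 fun h => ?_
    obtain ⟨χ, hχ, -⟩ := exists_of_cnt (s := D.B) (v := b * (p + A + 1)) fun h' => by
      rw [h', hL, D.signY.resolve_left h] at h1
      have : (0 : ℤ) ≤ w := by omega
      have : (0 : ℤ) ≤ D.Y.card * cnt D.A (A * p + 1) * A := mul_nonneg (mul_nonneg
        (Nat.cast_nonneg _) (Nat.cast_nonneg _)) (Nat.cast_nonneg _)
      have : (0 : ℤ) ≤ D.Y.card * cnt D.A (r * p + 1) * r := mul_nonneg (mul_nonneg
        (Nat.cast_nonneg _) (Nat.cast_nonneg _)) (Nat.cast_nonneg _)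
      push_cast at h1
      linarith
    rw [← hJB χ hχ]
    exact Finset.single_le_sum (f := fun χ => J χ ^ 2) (fun _ _ => sq_nonneg _) hχ
  have hA0 : (0 : ℤ) ≤ ∑ χ ∈ D.A, J χ ^ 2 := by positivity
  have hB0 : (0 : ℤ) ≤ ∑ χ ∈ D.B, J χ ^ 2 := by positivity
  have hJA : ∀ χ ∈ D.A, J χ = if charDegree (χ : G → ℂ) = A * p + 1 then -(A : ℤ) else 0 := by
    intro χ hχ
    split_ifs with h
    · have h12 := Finset.single_le_sum (f := fun χ => J χ ^ 2) (fun _ _ => sq_nonneg _) hχ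
      have h13 : J χ ^ 2 + (r - (b + 1)) ^ 2 < r * (r - 1) := by
        rcases h11 with h11 | h11
        · linarith [sq_nonneg JΘ]
        · rw [← (hΘB h11).2]; linarith
      simp only [hJ, hu, if_pos hχ, if_pos h] at h13 ⊢
      rw [H.num.arithA (H.two_le_A hC hχ h) h13]; simp
    · simp only [hJ, hu, if_pos hχ, if_neg h, h9 χ hχ ((H.degA hχ).resolve_left h),
        (D.mem_A.1 hχ).2.2]
      push_cast; ring
  rw [Finset.sum_congr (s₁ := D.A) rfl fun χ hχ => by rw [hJA χ hχ, (D.mem_A.1 hχ).2.2, one_mul],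
    Finset.sum_congr (s₁ := D.B) rfl fun χ hχ => by rw [hJB χ hχ, (D.mem_B.1 hχ).2.2],
    H.sumA fun k => if k = A * p + 1 then -A else 0, H.sumB fun _ => -1 * (r - (b + 1)),
    if_pos rfl, if_neg hne, hL] at h3
  rw [hL] at h1 h2
  have h12 : A = 1 → cnt D.A (A * p + 1) = 0 := fun h => by
    by_contra h'
    obtain ⟨χ, hχ, h13⟩ := exists_of_cnt h'
    have := H.two_le_A hC hχ h13
    omega
  have h13 := Nat.mul_le_mul_left D.Y.card he
  generalize cnt D.A (A * p + 1) = α at *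
  generalize cnt D.A (r * p + 1) = α₂ at *
  generalize cnt D.B (b * (p + A + 1)) = β at *
  have h14 : D.Y.card * α + D.Y.card * α₂ + D.Y.card * β + 1 + D.Y.card = p := by
    rw [h2] at hte
    linear_combination hte
  rcases D.signY with h | h
  · obtain ⟨rfl, h15⟩ := hΘB h
    rw [h] at h1
    rw [h, h15] at h3
    exact H.num.arithF (W := D.Y.card * α) (N := D.Y.card * α₂) (V := D.Y.card * β + 1) ht
      (by omega) (fun h => by simp [h12 h]) (by push_cast at h1 ⊢; linear_combination h1)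
      (by push_cast at h3 ⊢; linear_combination -h3) (by omega)
  have h15 : JΘ ^ 2 + (r - (b + 1)) ^ 2 < r * (r - 1) := by
    have := h11.resolve_right (by omega)
    linarith
  rcases hw' with ⟨-, h16, rfl⟩ | ⟨-, -, rfl⟩ | ⟨h', -⟩ | ⟨h', -⟩
  · have h17 : 2 ≤ A := by
      by_contra h17
      have := Nat.mul_le_mul_right p (by omega : A ≤ 1)
      omega
    have h18 : JΘ = -A := by rw [hJΘ, H.num.arithA h17 h15]; simp
    rw [h] at h1
    rw [h, h18] at h3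
    exact H.num.arithF (W := D.Y.card * α + 1) (N := D.Y.card * α₂) (V := D.Y.card * β) ht
      (by omega) (by omega) (by push_cast at h1 ⊢; linear_combination h1)
      (by push_cast at h3 ⊢; linear_combination -h3) (by omega)
  · have h18 : JΘ = 0 := by
      rw [hJΘ, ← mul_sub_one] at hΘ ⊢
      rw [eq_zero_of_sq_lt hv0 hΘ, mul_zero]
    rw [h] at h1
    rw [h, h18] at h3
    exact H.num.arithF (W := D.Y.card * α) (N := D.Y.card * α₂ + 1) (V := D.Y.card * β) ht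
      (by omega) (fun h => by simp [h12 h]) (by push_cast at h1 ⊢; linear_combination h1)
      (by push_cast at h3 ⊢; linear_combination -h3) (by omega)
  · omega
  · omega

end Ctx

end Cfsg.Agent.FewS
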