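import Mathlib
import Cfsg.Agent.S4303
import Cfsg.Agent.PLocal.PSolv
import Cfsg.Agent.Small.Tools

/-!
Reductions for groups with fewer than `p²` Sylow `p`-subgroups.
-/

set_option autoImplicit false
set_option linter.style.haveILetI false

universe u

namespace Cfsg.Agent.FewS

open Subgroup

theorem one_of_mul {p a b : ℕ} (ha : a % p = 1) (hb : b % p = 1) (h : a * b < p ^ 2) :
    a = 1 ∨ b = 1 := by
  by_contra h1
  push Not at h1
  have h2 : p ≤ a := by
    by_contra h2
    exact h1.1 (by rwa [Nat.mod_eq_of_lt (by omega)] at ha)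
  have h3 : p ≤ b := by
    by_contra h2
    exact h1.2 (by rwa [Nat.mod_eq_of_lt (by omega)] at hb)
  have := Nat.mul_le_mul h2 h3
  rw [sq] at h
  omega

theorem mod_of_mul {p a b : ℕ} (ha : a % p = 1) (h : a * b % p = 1) : b % p = 1 := by
  rwa [Nat.mul_mod, ha, one_mul, Nat.mod_mod] at h

theorem prod_mem {p : ℕ} (hp : 1 < p) (l : List ℕ) (hl : ∀ m ∈ l, m % p = 1) (h : l.prod < p ^ 2) :
    l.prod % p = 1 ∧ (l.prod = 1 ∨ l.prod ∈ l) := by
  induction l with
  | nil => simp [Nat.mod_eq_of_lt hp]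
  | cons a l ih =>
    have ha := hl a (by simp)
    have ha0 : 0 < a := Nat.pos_of_ne_zero (by rintro rfl; simp at ha)
    rw [List.prod_cons] at h ⊢
    obtain ⟨h1, h2⟩ := ih (fun m hm => hl m (by simp [hm]))
      ((Nat.le_mul_of_pos_left _ ha0).trans_lt h)
    refine ⟨by rw [Nat.mul_mod, ha, h1, Nat.mod_eq_of_lt hp], ?_⟩
    rcases one_of_mul ha h1 h with h3 | h3
    · rw [h3, one_mul]; exact h2.imp_right fun h => by simp [h]
    · simp [h3]

variable {p : ℕ} [hp : Fact p.Prime]

theorem card_mod (G : Type*) [Group G] [Finite G] : Nat.card (Sylow p G) % p = 1 := by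
  rw [card_sylow_modEq_one p G, Nat.mod_eq_of_lt hp.out.one_lt]

theorem card_sylow_eq_one {G : Type*} [Group G] [Finite G]
    (h : IsMulCommutative G ∨ ¬ p ∣ Nat.card G) : Nat.card (Sylow p G) = 1 := by
  let P : Sylow p G := default
  rw [P.card_eq_index_normalizer, index_eq_one, ← P.coe_coe, normalizer_eq_top_iff]
  rcases h with h | h
  · infer_instance
  · rw [show (P : Subgroup G) = ⊥ by
      by_contra h1
      exact h ((P.isPGroup'.card_eq_or_dvd.resolve_left fun h2 => h1 (card_eq_one.1 h2)).trans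
        (card_subgroup_dvd_card _))]
    infer_instance

theorem card_sylow_normal_dvd {G : Type*} [Group G] [Finite G] (K : Subgroup G) [K.Normal] :
    Nat.card (Sylow p K) ∣ Nat.card (Sylow p G) := by
  let P : Sylow p G := default
  set Q := (P : Subgroup G) ⊓ K with hQ
  have hQp : IsPGroup p Q := P.isPGroup'.to_le inf_le_left
  have hQK : ¬ p ∣ Q.relIndex K := by
    rw [hQ, inf_relIndex_right]
    exact fun h => P.not_dvd_index (h.trans (FGS.relIndex_normal_dvd_index _ K))
  have h1 : normalizer ((P : Subgroup G) : Set G) ≤ normalizer (Q : Set G) :=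
    Solv.le_normalizer_inf le_rfl le_normalizer_of_normal
  rw [FGS.card_sylow_subgroup inf_le_right hQp hQK, Sylow.card_eq_index_normalizer P, ← P.coe_coe,
    ← relIndex_mul_index h1]
  exact (FGS.relIndex_normal_dvd_index _ K).mul_left _

theorem exists_simple (G : Type u) [Group G] [Finite G] (h : ¬ IsPSolvable p G) :
    ∃ (S : Type u) (_ : Group S) (_ : Finite S), IsSimpleGroup S ∧ ¬ IsMulCommutative S ∧
      p ∣ Nat.card S ∧ Nat.card (Sylow p S) ∣ Nat.card (Sylow p G) := by
  revert h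
  refine Grp.card_induction (P := fun G _ _ => ¬ IsPSolvable p G →
    ∃ (S : Type u) (_ : Group S) (_ : Finite S), IsSimpleGroup S ∧ ¬ IsMulCommutative S ∧
      p ∣ Nat.card S ∧ Nat.card (Sylow p S) ∣ Nat.card (Sylow p G)) ?_ G
  intro G _ _ ih h
  by_cases hs : IsSimpleGroup G
  · refine ⟨G, inferInstance, inferInstance, hs, fun h1 => h ?_, ?_, dvd_rfl⟩
    · haveI : Group.IsSolvable G := Group.isSolvable_of_comm h1.is_comm.comm
      exact PLocal.isPSolvable_of_isSolvable
    · by_contra h1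
      exact h (PLocal.isPSolvable_of_coprime (hp.out.coprime_iff_not_dvd.2 h1).symm)
  rcases subsingleton_or_nontrivial G with h1 | h1
  · exact absurd PLocal.isPSolvable_of_subsingleton h
  obtain ⟨K, hK, hK1, hK2⟩ : ∃ K : Subgroup G, K.Normal ∧ K ≠ ⊥ ∧ K ≠ ⊤ := by
    by_contra h1
    push Not at h1
    exact hs ⟨fun K hK => or_iff_not_imp_left.2 (h1 K hK)⟩
  by_cases h2 : IsPSolvable p K
  · obtain ⟨S, i1, i2, h3, h4, h5, h6⟩ := ih _ (Grp.card_quotient_lt K hK1)
      fun h3 => h (PLocal.isPSolvable_of_normal_of_quotient K h2 h3)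
    exact ⟨S, i1, i2, h3, h4, h5,
      h6.trans (Dvd.intro _ (FGS.card_sylow_eq_quotient_mul K default).symm)⟩
  · obtain ⟨S, i1, i2, h3, h4, h5, h6⟩ := ih _ (Grp.card_lt_of_ne_top hK2) h2
    exact ⟨S, i1, i2, h3, h4, h5, h6.trans (card_sylow_normal_dvd K)⟩

theorem mod_factor {G : Type*} [Group G] [Finite G] (K : Subgroup G)
    [K.Normal] (P : Sylow p G) (hK : (Nat.card (P : Subgroup G)).Coprime (Nat.card K)) {q : ℕ}
    (hq' : q.Prime) :
    q ^ ((normalizer ((P : Subgroup G) : Set G)).relIndex K).factorization q % p = 1 := by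
  set N := normalizer ((P : Subgroup G) : Set G) with hN
  have hn0 : N.relIndex K ≠ 0 := index_ne_zero_of_finite
  haveI := Fact.mk hq'
  have hC : (P : Subgroup G) ≤ centralizer ((N ⊓ K : Subgroup G) : Set G) := by
    rw [← commutator_eq_bot_iff_le_centralizer, eq_bot_iff,
      ← (disjoint_of_coprime_natCard hK).eq_bot]
    refine le_inf (Solv.commutator_le_of_le_normalizer inf_le_left) ?_
    exact (commutator_mono le_top inf_le_right).trans (commutator_le_right _ _)
  let U₀ : Sylow q (N ⊓ K : Subgroup G) := default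
  let U := (U₀ : Subgroup (N ⊓ K : Subgroup G)).map (N ⊓ K).subtype
  have hUC : U ≤ N ⊓ K := map_subtype_le _
  obtain ⟨R₀, hUR, hPR⟩ := Solv.exists_invariant_sylow_ge (P : Subgroup G) K le_normalizer_of_normal
    hK (Or.inl (Solv.isSolvable_of_isPGroup P.isPGroup')) q U (hUC.trans inf_le_right)
    (U₀.isPGroup'.map _) ((hC.trans (centralizer_le hUC)).trans (centralizer_le_normalizer _))
  set R := (R₀ : Subgroup K).map K.subtype with hR
  have hRK : R ≤ K := map_subtype_le _
  have hRq : IsPGroup q R := R₀.isPGroup'.map _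
  have h1 : N ⊓ R = U := by
    have h2 : (N ⊓ R).subgroupOf (N ⊓ K) = U₀ := U₀.is_maximal'
      ((hRq.to_le inf_le_right).comap_subtype)
      (fun x hx => ⟨x.2.1, hUR ⟨x, hx, rfl⟩⟩)
    simp only [U]
    rw [← h2, subgroupOf_map_subtype, inf_of_le_left (inf_le_inf_left _ hRK)]
  have h2 : N.relIndex R = q ^ (N.relIndex K).factorization q := by
    have h3 := Grp.card_inf_mul_relIndex' N R
    rw [h1, hR, card_map_of_injective (Subgroup.subtype_injective _),
      card_map_of_injective (Subgroup.subtype_injective _), Sylow.card_eq_multiplicity,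
      Sylow.card_eq_multiplicity, ← Grp.card_inf_mul_relIndex' N K,
      Nat.factorization_mul Nat.card_pos.ne' hn0, Finsupp.add_apply, pow_add] at h3
    exact Nat.eq_of_mul_eq_mul_left (pow_pos hq'.pos _) h3
  have h3 : Nat.card (Sylow p (R ⊔ P : Subgroup G)) = N.relIndex R := by
    rw [FGS.card_sylow_subgroup le_sup_right P.isPGroup'
      (fun h => P.not_dvd_index (h.trans (relIndex_dvd_index_of_le le_sup_right))),
      FGS.relIndex_sup_of_le le_normalizer hPR]
  rw [← h2, ← h3, card_mod]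

theorem primePow_of_isPSolvable (G : Type u) [Group G] [Finite G] (h : IsPSolvable p G)
    (hn : Nat.card (Sylow p G) < p ^ 2) : ∃ q k : ℕ, q.Prime ∧ Nat.card (Sylow p G) = q ^ k := by
  revert h hn
  refine Grp.card_induction (P := fun G _ _ => IsPSolvable p G → Nat.card (Sylow p G) < p ^ 2 →
    ∃ q k : ℕ, q.Prime ∧ Nat.card (Sylow p G) = q ^ k) ?_ G
  intro G _ _ ih h hn
  rcases subsingleton_or_nontrivial G with h1 | h1
  · exact ⟨2, 0, Nat.prime_two, card_sylow_eq_one (Or.inr (by simp [hp.out.one_lt.ne']))⟩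
  obtain ⟨K, hK, hK1, h2 | h2⟩ := PLocal.IsPSolvable.exists_normal h
  · rw [← FGS.card_sylow_quotient_of_isPGroup K h2] at hn ⊢
    exact ih _ (Grp.card_quotient_lt K hK1) (PLocal.IsPSolvable.quotient h K) hn
  let P : Sylow p G := default
  have h3 := FGS.card_sylow_eq_quotient_mul K P
  have h4 := card_mod (p := p) G
  have h5 := card_mod (p := p) (G ⧸ K)
  have h6 : ∀ q : ℕ, q.Prime → _ := fun q hq => mod_factor K P (q := q) (by
    obtain ⟨k, hk⟩ := P.isPGroup'.exists_card_eq
    rw [hk]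
    exact h2.symm.pow_left _) hq
  generalize (normalizer ((P : Subgroup G) : Set G)).relIndex K = m at *
  rw [h3] at h4 hn ⊢
  have h7 := mod_of_mul h5 h4
  rcases one_of_mul h5 h7 hn with h8 | h8
  · rw [h8, one_mul] at hn ⊢
    by_cases h9 : m = 1
    · exact ⟨2, 0, Nat.prime_two, h9⟩
    obtain ⟨q, hq, hqm⟩ := Nat.exists_prime_and_dvd h9
    have h10 := Nat.ordProj_mul_ordCompl_eq_self m q
    have h11 := mod_of_mul (h6 q hq) (h10.symm ▸ h7)
    rcases one_of_mul (h6 q hq) h11 (h10.symm ▸ hn) with h12 | h12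
    · have h13 := hq.factorization_pos_of_dvd (by rintro rfl; simp at h7) hqm
      exact absurd h12 (Nat.one_lt_pow h13.ne' hq.one_lt).ne'
    · exact ⟨q, _, hq, by rw [← h10, h12, mul_one]⟩
  · rw [h8, mul_one] at hn ⊢
    exact ih _ (Grp.card_quotient_lt K hK1) (PLocal.IsPSolvable.quotient h K) hn

end Cfsg.Agent.FewS
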