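import Mathlib
import Cfsg.Agent.FewS.SelfA
import Cfsg.Agent.Char.DefectZero
import Cfsg.Agent.Small.SL2Invol

/-!
The self-centralizing case: the end.
-/

set_option autoImplicit false
set_option linter.style.haveILetI false
set_option linter.unusedSectionVars false

namespace Cfsg.Agent.FewS

open Subgroup MulAction Cfsg.Agent.Small Cfsg.Agent.Grp Cfsg.Agent.Grp.SelfCent Cfsg.Agent.Char
open Cfsg.Agent.Char.SelfC
open Cfsg.Agent.Block (cast_charDegree charDegree_eq_of_eq)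
open scoped ComplexConjugate MatrixGroups

variable {G : Type*} [Group G] [Fintype G] {p : ℕ} [hp : Fact p.Prime] {x : G}

omit hp in
/-- recognition of `SL(2, q)` by its Steinberg character -/
theorem psl_of_st [IsSimpleGroup G] {χ : G → ℂ} (hχ : IsIrrCharacter G χ) {q : ℕ} (hq : 4 ≤ q)
    (hq2 : 2 ∣ q) (hG : Nat.card G = (q + 1) * q * (q - 1)) (h1 : χ 1 = q)
    (h0 : ∀ g : G, ∀ s : ℕ, s.Prime → s ∣ orderOf g → s ∣ q → χ g = 0)
    (h2 : ∀ g : G, ∀ s : ℕ, s.Prime → s ∣ orderOf g → ¬ s ∣ q → ‖χ g‖ = 1) :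
    ∃ (m : ℕ) (F : Type) (_ : Field F) (_ : Fintype F), q = 2 ^ m ∧ Nat.card F = 2 ^ m ∧
      Nonempty (G ≃* PSL(2, F)) := by
  classical
  haveI : Fact (Nat.Prime 2) := ⟨Nat.prime_two⟩
  obtain ⟨u, hu⟩ := exists_prime_orderOf_dvd_card' (G := G) 2
    (hG ▸ (hq2.mul_left _).mul_right _)
  set T := Finset.univ.filter fun g : G => χ g = 0 with hT
  have hq0 : (q : ℂ) ≠ 0 := Nat.cast_ne_zero.2 (by omega)
  have hT1 : T.card + 1 = q ^ 2 := by
    have h3 := hχ.sum_norm_sq
    rw [← Finset.add_sum_erase _ _ (Finset.mem_univ 1), h1, Finset.sum_congr rfl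
      (g := fun g => 1 - if g ∈ T then (1 : ℝ) else 0) fun g hg => by
        obtain ⟨s, hs, hsg⟩ := Nat.exists_prime_and_dvd
          (fun h => (Finset.mem_erase.1 hg).1 (orderOf_eq_one_iff.1 h))
        by_cases h : s ∣ q
        · simp [hT, h0 g s hs hsg h]
        · have h4 := h2 g s hs hsg h
          have h5 : χ g ≠ 0 := fun h => by simp [h] at h4
          simp [hT, h4, h5], Finset.sum_sub_distrib, Finset.sum_ite_mem,
      Finset.inter_eq_right.2 fun g hg => Finset.mem_erase.2 ⟨fun h => hq0 (by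
        rw [← h1, ← h]; exact (Finset.mem_filter.1 hg).2), Finset.mem_univ _⟩] at h3
    simp only [Finset.sum_const, Finset.card_erase_of_mem (Finset.mem_univ _), Finset.card_univ,
      ← Nat.card_eq_fintype_card, nsmul_eq_mul, mul_one, Complex.norm_natCast] at h3
    rw [Nat.cast_sub Nat.card_pos] at h3
    exact_mod_cast (by push_cast at h3 ⊢; linarith : ((T.card + 1 : ℕ) : ℝ) = (q ^ 2 : ℕ))
  have hC : ∀ s : ℕ, s.Prime → s ∣ Nat.card (centralizer ({u} : Set G)) → s ∣ q := by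
    intro s hs h
    by_contra h3
    haveI := Fact.mk hs
    obtain ⟨v, hv⟩ := exists_prime_orderOf_dvd_card' s h
    rw [← orderOf_coe] at hv
    have h4 : orderOf (v * u : G) = s * 2 := by
      rw [Commute.orderOf_mul_eq_mul_orderOf_of_coprime (mem_centralizer_singleton_iff.1 v.2), hv,
        hu]
      rw [hv, hu]
      exact (Nat.coprime_primes hs Nat.prime_two).2 fun h => h3 (h ▸ hq2)
    have h5 := h2 _ s hs (h4 ▸ dvd_mul_right _ _) h3
    rw [h0 _ 2 Nat.prime_two (h4 ▸ dvd_mul_left _ _) hq2] at h5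
    simp at h5
  obtain ⟨k, rfl⟩ : ∃ k, q = k + 1 := ⟨q - 1, by omega⟩
  rw [Nat.add_sub_cancel] at hG
  have hC1 : Nat.card (centralizer ({u} : Set G)) ∣ k + 1 := by
    refine Nat.Coprime.dvd_of_dvd_mul_left (m := (k + 1 + 1) * k)
      (Nat.Coprime.symm (Nat.coprime_of_dvd fun s hs h3 h4 => ?_)) ?_
    · have h5 := hC s hs h4
      rcases (Nat.Prime.dvd_mul hs).1 h3 with h | h
      · exact hs.one_lt.ne' (Nat.dvd_one.1 ((Nat.dvd_add_right h5).1 h))
      · exact hs.one_lt.ne' (Nat.dvd_one.1 ((Nat.dvd_add_right h).1 h5))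
    · rw [mul_right_comm, ← hG]; exact card_subgroup_dvd_card _
  have h3 := card_isConj_mul_card_centralizer u
  have h4 : Finset.univ.filter (IsConj u) ⊆ T := fun g hg => Finset.mem_filter.2
    ⟨Finset.mem_univ _, by
      rw [← hχ.isClassFunction.eq_of_isConj (Finset.mem_filter.1 hg).2]
      exact h0 u 2 Nat.prime_two (hu ▸ dvd_rfl) hq2⟩
  rw [Nat.card_eq_fintype_card, Fintype.card_subtype] at h3
  have h5 := Finset.card_le_card h4
  have h6 := Nat.le_of_dvd (by omega) hC1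
  have hT2 : T.card = (k + 1 + 1) * k := by nlinarith
  have h7 : T.card ≤ (Finset.univ.filter (IsConj u)).card := by
    refine Nat.le_of_mul_le_mul_right ?_ (Nat.succ_pos k)
    calc T.card * (k + 1) = Nat.card G := by rw [hT2, hG]; ring
      _ ≤ _ := h3 ▸ Nat.mul_le_mul_left _ h6
  have h8 := Finset.eq_of_subset_of_card_le h4 h7
  have h9 : Nat.card (centralizer ({u} : Set G)) = k + 1 := by
    rw [h8, hT2, hG, mul_right_comm _ (k + 1)] at h3
    exact Nat.eq_of_mul_eq_mul_left (Nat.mul_pos (by omega) (by omega)) h3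
  have h10 : ∀ g : G, ∀ s : ℕ, s.Prime → s ∣ orderOf g → s ∣ k + 1 → IsConj u g :=
    fun g s hs h h' => by
      have : g ∈ Finset.univ.filter (IsConj u) := by
        rw [h8]; exact Finset.mem_filter.2 ⟨Finset.mem_univ _, h0 g s hs h h'⟩
      exact (Finset.mem_filter.1 this).2
  have h11 : ∀ v ∈ centralizer ({u} : Set G), v * v = 1 := fun v hv => by
    by_cases h : v = 1
    · simp [h]
    obtain ⟨s, hs, hsg⟩ := Nat.exists_prime_and_dvd (fun h' => h (orderOf_eq_one_iff.1 h'))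
    obtain ⟨c, rfl⟩ := isConj_iff.1 (h10 v s hs hsg
      (hsg.trans (h9 ▸ Subgroup.orderOf_dvd_natCard _ hv)))
    rw [conj_mul, ← sq, ← hu, pow_orderOf_eq_one, mul_one, mul_inv_cancel]
  obtain ⟨m, hm⟩ := (IsPGroup.iff_card (p := 2) (G := centralizer ({u} : Set G))).1
    fun v => ⟨1, Subtype.ext (by simpa [sq] using h11 v v.2)⟩
  have h12 : k + 1 = 2 ^ m := h9 ▸ hm
  have h13 : 2 ≤ m := by
    by_contra h
    have : 2 ^ m ≤ 2 ^ 1 := Nat.pow_le_pow_right two_pos (by omega)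
    omega
  obtain ⟨F, i1, i2, hF, e⟩ := psl_of_involution_centralizer hu h13 hm h11
    (fun v hv => h10 v 2 Nat.prime_two (hv ▸ dvd_rfl) hq2) (by rw [← h12, hG]; simp)
  exact ⟨m, F, i1, i2, h12, hF, e⟩

namespace Ctx

variable {D : B0Data p x} {P : Sylow p G} {r A b : ℕ} (H : Ctx D P r A b)
include H

theorem dvd_of_A (h : cnt D.A (A * p + 1) ≠ 0) : A + 1 ∣ D.e := by
  obtain ⟨χ, hχ, h1⟩ := exists_of_cnt h
  have h2 := H.dvdX (D.mem_A.1 hχ).1
  rw [h1, H.num.n_eq, H.num.z1_eq, mul_left_comm, mul_comm (A + 1)] at h2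
  refine Nat.Coprime.dvd_of_dvd_mul_right ?_ (Nat.dvd_of_mul_dvd_mul_left (by omega) h2)
  rw [add_assoc, Nat.coprime_add_self_right, H.num.hp]; simp

theorem dvd_of_B (h : cnt D.B (b * (p + A + 1)) ≠ 0) : b ∣ D.e := by
  obtain ⟨χ, hχ, h1⟩ := exists_of_cnt h
  have h2 := H.dvdX (D.mem_B.1 hχ).1
  rw [h1, H.num.n_eq, ← mul_assoc] at h2
  exact Nat.Coprime.dvd_of_dvd_mul_right (by simp) (Nat.dvd_of_mul_dvd_mul_right (by omega) h2)

theorem dvd_of_L (h : cnt D.B (p - 1) ≠ 0) : D.Y.card ∣ (A * b + 1) * (p + A + 1) := by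
  obtain ⟨χ, hχ, h1⟩ := exists_of_cnt h
  have h2 := H.dvdX (D.mem_B.1 hχ).1
  rw [h1, H.num.n_eq, ← D.cardY, mul_comm] at h2
  exact Nat.dvd_of_mul_dvd_mul_left D.e_pos h2

variable (hC : centralizer ({x} : Set G) = zpowers x)
include hC

theorem cnt_N (ht : 2 ≤ D.Y.card) : cnt D.A (r * p + 1) = 0 := by
  by_contra h
  obtain ⟨χ, hχ, h1⟩ := exists_of_cnt h
  have h2 := H.lt_of_degA hC hχ h1
  have h3 := H.te
  have h4 := H.num.lt_two_r
  have h5 := Nat.mul_le_mul_right D.e ht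
  omega

theorem not_E3 (hδ : D.δ = -1) (hd : D.Y.card * D.d = A * p + 1) (ht : D.Y.card = A + 1) :
    False := by
  obtain ⟨hA, hb, hp', hr⟩ := H.num
  have h0 := H.cnt_N hC (by omega)
  obtain ⟨u, hu, -, h1, h2⟩ := H.deg_eq
  have he : D.e = b := by
    have := H.te
    rw [ht] at this
    exact Nat.eq_of_mul_eq_mul_left (show 0 < A + 1 by omega) (by omega)
  have h3 : u = A := by
    have h3 : (D.Y.card * D.d : ℤ) = A * p + 1 := by exact_mod_cast hd
    apply mul_left_cancel₀ (Nat.cast_ne_zero.2 hp.out.ne_zero : (p : ℤ) ≠ 0)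
    rw [hδ] at hu
    linear_combination h3 - hu
  have h4 := H.dvd_of_A
  have h5 := H.dvd_of_L
  rw [h0, hδ, h3, ht] at h1
  rw [h0, he] at h2
  rw [he] at h4
  rw [ht] at h5
  generalize cnt D.A (A * p + 1) = α at *
  generalize cnt D.B (p - 1) = β₁ at *
  generalize cnt D.B (b * (p + A + 1)) = β₂ at *
  have h6 : α * A + 1 = β₁ + β₂ * (b + 1) := by
    have : ((A : ℤ) + 1) * (α * A + 1 - (β₁ + β₂ * (b + 1))) = 0 := by
      push_cast at h1; linear_combination h1
    have := (mul_eq_zero.1 this).resolve_left (by positivity)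
    exact_mod_cast sub_eq_zero.1 this
  have h7 : α * (A + 1) + 2 = b * (β₂ + 1) := by nlinarith
  by_cases hα : α = 0
  · subst hα
    have h8 : b = 2 := by nlinarith
    have h9 : A = 1 := by omega
    subst h8 h9
    have := h5 (by omega)
    omega
  · have h8 := h4 hα
    have h9 : A + 1 ∣ 2 := (Nat.dvd_add_right (dvd_mul_left _ α)).1 (h7 ▸ h8.mul_right _)
    have h10 : A = 1 := by have := Nat.le_of_dvd two_pos h9; omega
    subst h10
    by_cases hβ : β₁ = 0
    · subst hβ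
      rcases β₂ with _ | β₂
      · omega
      · nlinarith
    · rcases (Nat.Prime.dvd_mul Nat.prime_two).1 (h5 hβ) with h | h <;> omega

theorem odd_e (hn : Odd (r * p + 1)) : Odd D.e := by
  by_contra h
  obtain ⟨y, hy⟩ := exists_gen H.hx hC (by rw [he hC (D := D)]; have := H.two_le_e; omega)
  have h1 := hy.ord
  rw [he hC (D := D)] at h1
  have h2 := even_index_of_detChar (detChar_eq_neg_one isCharacter_regChar (y := y)
    (k := p * (r * p + 1)) (by rwa [h1, ← Nat.not_odd_iff_even])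
    ((hp.out.odd_of_ne_two (ne_two_of_perfect H.hG P H.hP H.hx)).mul hn)
    (by rw [regChar_one, H.card_G hC, h1, mul_right_comm]) fun z _ => regChar_of_ne_one)
  rw [H.hG, index_top] at h2
  exact Nat.not_even_one h2

theorem E2 (hδ : D.δ = 1) (hd : D.Y.card * D.d = b * (p + A + 1)) (ht : D.Y.card = b) :
    D.e = A + 1 ∧ D.d = p + A + 1 ∧ (A = 1 ∨ b = A + 2) ∧ D.B.card + 1 = A ∧
      ∃ χ ∈ D.A, D.A = {χ} ∧ charDegree (χ : G → ℂ) = A * p + 1 := by
  obtain ⟨hA, hb, hp', hr⟩ := H.num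
  have h0 := H.cnt_N hC (by omega)
  obtain ⟨u, hu, -, h1, h2⟩ := H.deg_eq
  have he : D.e = A + 1 := by
    have := H.te
    rw [ht] at this
    exact Nat.eq_of_mul_eq_mul_left (n := b) (by omega) (by rw [mul_comm b (A + 1)]; omega)
  have h3 : u = b + 1 := by
    have h3 : (D.Y.card * D.d : ℤ) = b * (p + A + 1) := by exact_mod_cast hd
    have h7 : (b * (p + A + 1) + 1 : ℤ) = (b + 1) * p := by exact_mod_cast H.num.z2_eq
    apply mul_left_cancel₀ (Nat.cast_ne_zero.2 hp.out.ne_zero : (p : ℤ) ≠ 0)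
    rw [hδ] at hu
    linear_combination h3 - hu + h7
  have h4 := H.dvd_of_B
  have h5 := H.dvd_of_L
  have h6 := H.sumA fun _ => 1
  have h7 := D.card_e H.one
  have h8 := H.odd_e hC
  simp only [Finset.sum_const, nsmul_eq_mul, mul_one] at h6
  rw [h0, hδ, h3, ht] at h1
  rw [h0, he] at h2
  rw [he] at h4 h7 h8
  rw [ht] at h5 hd
  have h9 : ∀ χ ∈ D.A, charDegree (χ : G → ℂ) = A * p + 1 := fun χ hχ =>
    (H.degA hχ).resolve_right fun h => absurd (Finset.mem_filter.2 ⟨hχ, h⟩)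
      (Finset.card_eq_zero.1 h0 ▸ Finset.notMem_empty χ)
  rw [h0] at h6
  generalize cnt D.A (A * p + 1) = α at *
  generalize cnt D.B (p - 1) = β₁ at *
  generalize cnt D.B (b * (p + A + 1)) = β₂ at *
  have h10 : α * A = β₁ + β₂ * (b + 1) + 1 := by
    have : (b : ℤ) * (α * A - (β₁ + β₂ * (b + 1) + 1)) = 0 := by
      push_cast at h1; linear_combination h1
    have := (mul_eq_zero.1 this).resolve_left (by omega)
    exact_mod_cast sub_eq_zero.1 this
  have h11 : α * (A + 1) = β₂ * b + (A + 1) := by nlinarith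
  have h12 : β₂ = 0 := by
    by_contra h
    have h12 : b = A + 1 := le_antisymm (Nat.le_of_dvd (by omega) (h4 h)) hb
    have h13 := hp.out.odd_of_ne_two (ne_two_of_perfect H.hG P H.hP H.hx)
    have h14 : Even (A * (A + 1)) := Nat.even_mul_succ_self A
    have h15 : ¬ Odd (A + 1) := fun h => by
      rw [hp', h12] at h13
      exact Nat.not_even_iff_odd.2 h13 (h.mul h).add_one
    refine h15 (h8 ?_)
    rw [H.num.n_eq, h12, add_assoc]
    exact h14.add_one.mul (h13.add_even (Nat.not_odd_iff_even.1 h15))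
  subst h12
  have h13 : α = 1 := Nat.eq_of_mul_eq_mul_right (Nat.succ_pos A) (by simpa using h11)
  subst h13
  obtain ⟨χ, hχ⟩ := Finset.card_eq_one.1 (by exact_mod_cast h6 : D.A.card = 1)
  have h14 : χ ∈ D.A := hχ ▸ Finset.mem_singleton_self χ
  refine ⟨he, Nat.eq_of_mul_eq_mul_left (by omega) hd, ?_, by omega, χ, h14, hχ, h9 χ h14⟩
  by_cases hβ : β₁ = 0
  · omega
  have h15 := Nat.Coprime.dvd_of_dvd_mul_left (by simp) (h5 hβ)
  rw [hp', add_assoc, add_assoc, Nat.dvd_add_right (dvd_mul_left _ _)] at h15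
  have h16 := Nat.le_of_dvd (by omega) h15
  have h17 : b ≠ A + 1 := by
    rintro rfl
    have := Nat.le_of_dvd one_pos ((Nat.dvd_add_left dvd_rfl).1 h15)
    omega
  omega

theorem sum_sing {θ : IrrCharacter G} (hθ : θ ∈ D.Y) :
    p * ∑ g ∈ Finset.univ.filter fun g : G => p ∣ orderOf g, θ.1 g * conj (θ.1 g)
      = (p - D.e) * Nat.card G := by
  classical
  set S := Finset.univ.filter fun g : G => p ∣ orderOf g with hS
  have h1 : ∀ θ' ∈ D.Y, ∑ g ∈ S, θ'.1 g * conj (θ'.1 g) = ∑ g ∈ S, θ.1 g * conj (θ.1 g) := by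
    intro θ' hθ'
    have h2 := sum_mul_conj_eq θ.1 θ.1
    have h3 := sum_mul_conj_eq θ'.1 θ'.1
    rw [θ'.2.inner_self, ← θ.2.inner_self, ← h2] at h3
    rw [← Finset.sum_filter_add_sum_filter_not _ fun g : G => p ∣ orderOf g,
      ← Finset.sum_filter_add_sum_filter_not Finset.univ fun g : G => p ∣ orderOf g,
      Finset.sum_congr (s₁ := Finset.univ.filter fun g : G => ¬ p ∣ orderOf g) rfl fun g hg => by
        rw [D.agree θ' hθ' θ hθ g (Finset.mem_filter.1 hg).2]] at h3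
    exact add_right_cancel h3
  have h2 : ∀ g ∈ S, ∑ θ' ∈ D.Y, θ'.1 g * conj (θ'.1 g) = p - D.e := by
    intro g hg
    have hg' := (Finset.mem_filter.1 hg).2
    have h3 := sum_irr_mul_conj_of_isConj (IsConj.refl g)
    rw [card_centralizer H.hx hC (orderOf_eq_of_dvd H.hx hC hg'),
      ← Finset.sum_subset (Finset.subset_univ (D.X ∪ D.Y)) fun χ _ hχ => by
        rw [Finset.mem_union, not_or] at hχ
        rw [D.out hC χ hχ.1 hχ.2 g hg', zero_mul], Finset.sum_union D.disj,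
      Finset.sum_congr (s₁ := D.X) rfl (g := fun _ => (1 : ℂ)) fun χ hχ => by
        rw [H.valX hχ hg']; rcases D.sign χ hχ with h | h <;> simp [h],
      Finset.sum_const, D.cardX, nsmul_eq_mul, mul_one] at h3
    linear_combination h3
  have h3 := Finset.sum_congr rfl h2
  rw [Finset.sum_comm, Finset.sum_congr rfl h1, Finset.sum_const, Finset.sum_const, nsmul_eq_mul,
    nsmul_eq_mul] at h3
  have h4 : (p * S.card : ℂ) = Nat.card G * D.Y.card := by exact_mod_cast H.card_sing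
  apply mul_left_cancel₀ (Nat.cast_ne_zero.2 D.card_Y_pos.ne' : (D.Y.card : ℂ) ≠ 0)
  linear_combination p * h3 + (p - D.e) * h4

theorem final [IsSimpleGroup G] : (p = 13 ∧ r = 11 ∧ Nat.card G = 5616) ∨
    (A = 1 ∧ ∃ (m : ℕ) (F : Type) (_ : Field F) (_ : Fintype F), p + 1 = 2 ^ m ∧
      Nat.card F = 2 ^ m ∧ Nonempty (G ≃* PSL(2, F))) := by
  classical
  obtain ⟨hδ, hd, ht⟩ := (H.t_cases hC).resolve_left fun h => H.not_E3 hC h.1 h.2.1 h.2.2
  obtain ⟨he, hd', hA, hB, χ, hχ, hχA, hχ1⟩ := H.E2 hC hδ hd ht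
  obtain ⟨θ, hθ⟩ := D.Y_nonempty
  obtain ⟨hA1, hb, hp', hr⟩ := H.num
  have hG : Nat.card G = (A * p + 1) * (p * (p + A + 1)) := by
    rw [H.card_G hC, he, H.num.n_eq, H.num.z1_eq]; ring
  have h1 : (A * p + 1).Coprime (p + A + 1) := by
    rcases hA with rfl | rfl
    · simp [Nat.coprime_comm, show p + 2 = 1 + (p + 1) by ring]
    · rw [H.num.z1_eq, hp', show A * (A + 2) + 1 = (A + 1) ^ 2 by ring,
        show (A + 1) * (A + 2) + 1 + A + 1 = (A + 1 + 1) ^ 2 by ring, ← pow_succ']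
      exact Nat.Coprime.pow _ _ (by simp)
  have h2 : (A * p + 1).Coprime p := by simp
  have h3 : (p + A + 1).Coprime p := by
    rw [add_assoc, Nat.coprime_self_add_left, hp']; simp
  have hχ0 : χ.1 1 = (A * p + 1 : ℕ) := by rw [← hχ1, cast_charDegree χ.2.isCharacter]
  have h4 : ∀ g : G, ∀ s : ℕ, s.Prime → s ∣ orderOf g → s ∣ A * p + 1 → χ.1 g = 0 :=
    fun g s hs h h' => χ.2.eq_zero_of_defect_zero hs hχ0 hG (fun h'' => hs.one_lt.ne'
      (Nat.eq_one_of_dvd_coprimes (h2.mul_right h1) h' h'')) h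
  have h5 : ∀ g : G, ∀ s : ℕ, s.Prime → s ∣ orderOf g → ¬ s ∣ A * p + 1 → ¬ p ∣ orderOf g →
      θ.1 g = 0 := fun g s hs h h' h'' => by
    have h5 : s ∣ p + A + 1 := by
      rcases (Nat.Prime.dvd_mul hs).1 (((Nat.Prime.dvd_mul hs).1
        (hG ▸ h.trans (orderOf_dvd_natCard g))).resolve_left h') with h6 | h6
      · exact absurd ((Nat.prime_dvd_prime_iff_eq hs hp.out).1 h6 ▸ h) h''
      · exact h6
    exact θ.2.eq_zero_of_defect_zero hs (r := (A * p + 1) * p) (hd' ▸ D.degY θ hθ)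
      (by rw [hG]; ring) (fun h'' => hs.one_lt.ne'
        (Nat.eq_one_of_dvd_coprimes (h1.symm.mul_right h3) h5 h'')) h
  obtain ⟨hX, -, hε⟩ := D.mem_A.1 hχ
  by_cases h16 : A = 1
  · subst h16
    rw [one_mul] at h4 h5 hχ0 hG
    refine Or.inr ⟨rfl, psl_of_st χ.2 (by omega) (by omega) (by rw [hG]; simp; ring) hχ0 h4
      fun g s hs h h' => ?_⟩
    by_cases h6 : p ∣ orderOf g
    · rw [H.valX hX h6, hε]; simp
    · have h7 := D.rel' H.one H.hx hθ h6
      rw [h5 g s hs h h' h6, hχA, Finset.card_eq_zero.1 (by omega : D.B.card = 0),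
        Finset.sum_singleton, Finset.sum_empty] at h7
      rw [show χ.1 g = -1 by linear_combination -h7]; simp
  left
  obtain rfl := hA.resolve_left h16
  have hφ : IsCharacter G (θ.1 * fun g => conj (θ.1 g)) :=
    θ.2.isCharacter.mul θ.2.conj.isCharacter
  obtain ⟨m, hm, -⟩ := hφ.exists_coeff
  have h6 := H.sum_sing hC hθ
  have hp0 : (p : ℂ) ≠ 0 := Nat.cast_ne_zero.2 hp.out.ne_zero
  have h7 : m χ = 2 := by
    have h7 := sum_mul_conj_eq (θ.1 * fun g => conj (θ.1 g)) χ.1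
    rw [hm, ← Finset.sum_filter_add_sum_filter_not _ fun g : G => p ∣ orderOf g,
      Finset.sum_congr rfl (g := fun g => θ.1 g * conj (θ.1 g)) fun g hg => by
        rw [H.valX hX (Finset.mem_filter.1 hg).2, hε]; simp,
      Finset.sum_eq_single_of_mem (s := Finset.univ.filter fun g : G => ¬ p ∣ orderOf g) 1
        (by simp [hp.out.one_lt.ne']) fun g hg hg1 => by
        obtain ⟨s, hs, hsg⟩ := Nat.exists_prime_and_dvd (fun h' => hg1 (orderOf_eq_one_iff.1 h'))
        by_cases h : s ∣ A * p + 1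
        · simp [h4 g s hs hsg h]
        · simp [h5 g s hs hsg h (Finset.mem_filter.1 hg).2]] at h7
    simp only [Pi.mul_apply, D.degY θ hθ, hd', hχ0, map_natCast] at h7
    have h8 : (Nat.card G : ℂ) = (A * p + 1 : ℕ) * (p * (p + A + 1 : ℕ)) := by
      rw [hG]; push_cast; ring
    rw [he] at h6
    have h9 : (p * Nat.card G : ℂ) * m χ = (p * Nat.card G) * 2 := by
      push_cast at h6 h7 h8
      linear_combination h6 - p * h7 - (p + A + 1) * h8
    exact_mod_cast mul_left_cancel₀ (mul_ne_zero hp0 (card_ne_zero G)) h9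
  have h8 : m (irrOne G) = 1 := by
    have h8 := hm (irrOne G)
    rw [classInner_mul_left] at h8
    simp only [irrOne_apply, mul_one, Complex.conj_conj] at h8
    exact_mod_cast h8.symm.trans θ.2.inner_self
  have h9 := H.inner_Γ_eq (θ.1 * fun g => conj (θ.1 g))
  simp only [Pi.mul_apply] at h9
  rw [h6, inner_Γ hm, mul_comm, D.sum_X H.one, D.ε_irrOne H.hx H.one, hχA, Finset.sum_singleton,
    hε, h7, h8, hδ, ht, he, Finset.sum_congr (s₁ := D.B) rfl (g := fun χ => -(m χ : ℤ))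
      fun χ hχ => by rw [(D.mem_B.1 hχ).2.2, neg_one_mul], Finset.sum_neg_distrib] at h9
  have h10 := mul_right_cancel₀ (card_ne_zero G) h9
  have h11 : (0 : ℤ) ≤ ∑ χ ∈ D.B, (m χ : ℤ) := by positivity
  generalize ∑ χ ∈ D.B, (m χ : ℤ) = S₁ at *
  generalize ∑ χ ∈ D.Y, m χ = S₂ at *
  have h13 : ((A : ℤ) + 2) * (3 - S₁) - S₂ = p - (A + 1) := by
    apply Int.cast_injective (α := ℂ)
    push_cast at h10 ⊢
    linear_combination h10
  have h14 : (p : ℤ) = (A + 1) * (A + 2) + 1 := by exact_mod_cast hp'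
  have h15 : A ≤ 2 := by
    by_contra h
    have : (3 : ℤ) ≤ A := by omega
    nlinarith
  obtain rfl : A = 2 := by omega
  exact ⟨hp', hr, by rw [hG, hp']⟩

end Ctx

end Cfsg.Agent.FewS
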